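import Cfsg.Agent.Lib.AutPSU.GraphCent
import Cfsg.Agent.Lib.AutPOm.BalGroup

/-!
# Local balance for `PSU`: the rational subgroup attached to an involutory graph automorphism

For `g` unitary with `ν g = P τ(P)⁻¹` and `P^* P = l B` with `B` over the subfield with `q` elements, the isometries of
`B` of determinant one embed in the fixed points of `semiAut g τ` on `SU`, and every fixed point of odd order of `PSU`
lifts to such an isometry.
-/

set_option autoImplicit false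
set_option linter.unusedSectionVars false
set_option linter.unusedSimpArgs false
set_option linter.unusedVariables false
set_option linter.style.haveILetI false

namespace Cfsg.Agent.Lib.BalPSU

open Module Matrix Cfsg Cfsg.Agent.Lib.SUGen Cfsg.Agent.Lib.HermForm Cfsg.Agent.Lib.HermOrtho
open Cfsg.Agent.Lib.Hilbert90 Cfsg.Agent.Lib.AutPSU Cfsg.Agent.Lib.AutPSU.GB
open Cfsg.Agent.Lib.AutPOm (fixP mem_fixP)
open Cfsg.Agent.Lib.AutPSL (glMap glMap_coe nrm nrm_succ nrm_succ' glMap_scalar scalar_coe)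
open scoped MatrixGroups

variable {F : Type*} [Field F] [Fintype F] {q n : ℕ}
variable {F₀ : Type*} [Field F₀] [Fintype F₀]

local notation "sc" => Matrix.GeneralLinearGroup.scalar (Fin n)
local notation "⟪" x ", " y "⟫" => hermForm n F q x y

/-- The isometries of determinant one of a form, in matrix shape. -/
def ratG (B : GL (Fin n) F₀) : Subgroup (GL (Fin n) F₀) where
  carrier := {w | (w : Matrix (Fin n) (Fin n) F₀)ᵀ * (B : Matrix (Fin n) (Fin n) F₀) * (w : Matrix (Fin n) (Fin n) F₀) = B ∧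
    (w : Matrix (Fin n) (Fin n) F₀).det = 1}
  mul_mem' := by
    rintro a b ⟨ha, ha'⟩ ⟨hb, hb'⟩
    refine ⟨?_, ?_⟩
    · rw [Units.val_mul, Matrix.transpose_mul]
      calc _ = (b : Matrix (Fin n) (Fin n) F₀)ᵀ * ((a : Matrix (Fin n) (Fin n) F₀)ᵀ * (B : Matrix (Fin n) (Fin n) F₀) * (a : Matrix (Fin n) (Fin n) F₀)) * (b : Matrix (Fin n) (Fin n) F₀) := by
            simp only [Matrix.mul_assoc]
        _ = _ := by rw [ha, hb]
    · rw [Units.val_mul, Matrix.det_mul, ha', hb', one_mul]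
  one_mem' := by
    refine ⟨?_, ?_⟩
    · simp
    · simp
  inv_mem' := by
    rintro a ⟨ha, ha'⟩
    have h1 : ((a⁻¹ : GL (Fin n) F₀) : Matrix (Fin n) (Fin n) F₀) * (a : Matrix (Fin n) (Fin n) F₀) = 1 := by
      rw [← Units.val_mul, inv_mul_cancel, Units.val_one]
    have h1' : (a : Matrix (Fin n) (Fin n) F₀)ᵀ * ((a⁻¹ : GL (Fin n) F₀) : Matrix (Fin n) (Fin n) F₀)ᵀ = 1 := by
      rw [← Matrix.transpose_mul, h1, Matrix.transpose_one]
    have h2 : (a : Matrix (Fin n) (Fin n) F₀) * ((a⁻¹ : GL (Fin n) F₀) : Matrix (Fin n) (Fin n) F₀) = 1 := by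
      rw [← Units.val_mul, mul_inv_cancel, Units.val_one]
    have h2' : ((a⁻¹ : GL (Fin n) F₀) : Matrix (Fin n) (Fin n) F₀)ᵀ * (a : Matrix (Fin n) (Fin n) F₀)ᵀ = 1 := by
      rw [← Matrix.transpose_mul, h2, Matrix.transpose_one]
    refine ⟨?_, ?_⟩
    · conv_lhs => rw [← ha]
      calc _ = (((a⁻¹ : GL (Fin n) F₀) : Matrix (Fin n) (Fin n) F₀)ᵀ * (a : Matrix (Fin n) (Fin n) F₀)ᵀ) * (B : Matrix (Fin n) (Fin n) F₀) * ((a : Matrix (Fin n) (Fin n) F₀) * ((a⁻¹ : GL (Fin n) F₀) : Matrix (Fin n) (Fin n) F₀)) := by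
            simp only [Matrix.mul_assoc]
        _ = _ := by rw [h2', h2, Matrix.one_mul, Matrix.mul_one]
    · have h3 := congrArg Matrix.det h1
      rw [Matrix.det_mul, ha', mul_one, Matrix.det_one] at h3
      exact h3

theorem mem_ratG {B w : GL (Fin n) F₀} : w ∈ ratG B ↔
    (w : Matrix (Fin n) (Fin n) F₀)ᵀ * (B : Matrix (Fin n) (Fin n) F₀) * (w : Matrix (Fin n) (Fin n) F₀) = B ∧
    (w : Matrix (Fin n) (Fin n) F₀).det = 1 := Iff.rfl

/-- The relation between `g`, a form `B`, and the matrix `P`. -/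
structure Rep (hF : Fintype.card F = q ^ 2) (ι : F₀ →+* F) (g P : GL (Fin n) F) (B : GL (Fin n) F₀) (ν l : Fˣ) : Prop where
  emb : Emb hF ι
  rel : sc ν * g = P * glMap (tauE hF) P⁻¹
  form : cj hF (P : Matrix (Fin n) (Fin n) F) * (P : Matrix (Fin n) (Fin n) F) = (l : F) • (B : Matrix (Fin n) (Fin n) F₀).map ι

variable {hF : Fintype.card F = q ^ 2} {ι : F₀ →+* F} {g P : GL (Fin n) F} {B : GL (Fin n) F₀} {ν l : Fˣ}

theorem cmp_mem_GU (hR : Rep hF ι g P B ν l) (w : ratG B) : cmp ι P P w.1 ∈ GU n F q := by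
  rw [mem_GU_iff hF]
  have h := cj_cmp (c := 1) hR.emb l.ne_zero hR.form hR.form (w := w.1) (by rw [one_smul]; exact w.2.1)
  rw [h, map_one, mul_one, mul_inv_cancel₀ l.ne_zero, one_smul]

theorem cmp_det (w : ratG B) : ((cmp ι P P w.1 : GL (Fin n) F) : Matrix (Fin n) (Fin n) F).det = 1 := by
  have h1 : (P : Matrix (Fin n) (Fin n) F).det * ((P⁻¹ : GL (Fin n) F) : Matrix (Fin n) (Fin n) F).det = 1 := by
    rw [← Matrix.det_mul, ← Units.val_mul, mul_inv_cancel, Units.val_one, Matrix.det_one]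
  have h2 : ((w.1 : Matrix (Fin n) (Fin n) F₀).map ι).det = 1 := by
    have := RingHom.map_det ι (w.1 : Matrix (Fin n) (Fin n) F₀)
    rw [w.2.2, map_one] at this
    exact this.symm
  rw [cmp_coe, Matrix.det_mul, Matrix.det_mul, h2, mul_one, h1]

/-- The embedding of the isometry group in `SU`. -/
noncomputable def sU (hR : Rep hF ι g P B ν l) : ratG B →* SU n F q where
  toFun w := ⟨⟨(cmp ι P P w.1 : GL (Fin n) F), cmp_det w⟩, fun u v => cmp_mem_GU hR w u v⟩
  map_one' := by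
    apply Subtype.ext
    apply Subtype.ext
    change ((cmp ι P P (1 : GL (Fin n) F₀) : GL (Fin n) F) : Matrix (Fin n) (Fin n) F) = 1
    rw [GB.cmp, map_one, mul_one, mul_inv_cancel, Units.val_one]
  map_mul' a b := by
    apply Subtype.ext
    apply Subtype.ext
    change ((cmp ι P P (a.1 * b.1) : GL (Fin n) F) : Matrix (Fin n) (Fin n) F) = _
    rw [cmp_mul]
    rfl

theorem sU_val (hR : Rep hF ι g P B ν l) (w : ratG B) :
    ((sU hR w).1.1 : Matrix (Fin n) (Fin n) F) = ((cmp ι P P w.1 : GL (Fin n) F) : Matrix (Fin n) (Fin n) F) := rfl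

theorem suGL_sU (hR : Rep hF ι g P B ν l) (w : ratG B) : suGL (sU hR w) = cmp ι P P w.1 := Units.ext rfl

theorem semiMat_coe (g : GL (Fin n) F) (σ : F ≃+* F) (s : GL (Fin n) F) :
    semiMat g σ (s : Matrix (Fin n) (Fin n) F) = ((g * glMap σ s * g⁻¹ : GL (Fin n) F) : Matrix (Fin n) (Fin n) F) := rfl

theorem sc_one : (sc 1 : GL (Fin n) F) = 1 := map_one _

theorem tu_one (hF : Fintype.card F = q ^ 2) : tu hF 1 = 1 := map_one _

/-- `cmp` commutes with the twist. -/
theorem cmp_fix (hR : Rep hF ι g P B ν l) (w : GL (Fin n) F₀) :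
    g * glMap (tauE hF) (cmp ι P P w) * g⁻¹ = cmp ι P P w := by
  have h := conj_cmp (x := 1) hR.emb w hR.rel hR.rel
  rw [sc_one, one_mul, tu_one, inv_one, mul_one, one_mul, inv_mul_cancel, sc_one, one_mul, map_inv] at h
  set u := cmp ι P P w with hu
  rw [mul_inv_eq_iff_eq_mul]
  rw [mul_inv_eq_iff_eq_mul] at h
  exact h.symm

theorem semiMat_sU (hR : Rep hF ι g P B ν l) (w : ratG B) :
    semiMat g (tauE hF) ((sU hR w).1.1 : Matrix (Fin n) (Fin n) F) = ((sU hR w).1.1 : Matrix (Fin n) (Fin n) F) := by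
  rw [sU_val, semiMat_coe, cmp_fix hR]

theorem semiSU_sU (hR : Rep hF ι g P B ν l) (hg : g ∈ GU n F q) (w : ratG B) :
    semiSU hg (tauE hF) (sU hR w) = sU hR w := by
  apply Subtype.ext
  apply Subtype.ext
  exact semiMat_sU hR w

theorem semiAut_sU (hR : Rep hF ι g P B ν l) (hg : g ∈ GU n F q) (w : ratG B) :
    semiAut hg (tauE hF) (piT n F q (sU hR w)) = piT n F q (sU hR w) := by
  rw [semiAut_pi, semiSU_sU hR hg]

/-- Fixed points in `SU` come from isometries. -/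
theorem exists_of_fixed (hR : Rep hF ι g P B ν l) (s : SU n F q)
    (hs : semiMat g (tauE hF) (s.1.1 : Matrix (Fin n) (Fin n) F) = s.1.1) : ∃ w : ratG B, sU hR w = s := by
  set u := suGL s with hu
  have hus : (u : Matrix (Fin n) (Fin n) F) = s.1.1 := rfl
  set T := glMap (n := n) (tauE hF) with hT
  have h1 : g * T u * g⁻¹ = u := by
    apply Units.ext
    rw [← semiMat_coe, hus, hs]
  have hgeq := eq_of_rep hR.rel
  set W := P⁻¹ * u * P with hW
  have hfix : T W = W := by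
    have h2 : (sc ν⁻¹ * (P * (T P)⁻¹)) * T u * (sc ν⁻¹ * (P * (T P)⁻¹))⁻¹ = u := by
      rw [← hgeq]
      exact h1
    have h3 : (sc ν⁻¹ * (P * (T P)⁻¹))⁻¹ = (P * (T P)⁻¹)⁻¹ * sc ν := by
      rw [_root_.mul_inv_rev, sc_inv, inv_inv]
    rw [h3] at h2
    have h4 : sc ν⁻¹ * (P * (T P)⁻¹) * T u * ((P * (T P)⁻¹)⁻¹ * sc ν) =
        sc ν⁻¹ * (P * (T P)⁻¹ * T u * (P * (T P)⁻¹)⁻¹) * sc ν := by group
    rw [h4, ← scalar_central ν, sc_inv, ← mul_assoc, mul_inv_cancel, one_mul] at h2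
    have h5 : T W = (T P)⁻¹ * T u * T P := by
      rw [hW, map_mul, map_mul, map_inv]
    rw [h5, hW]
    conv_rhs => rw [← h2]
    group
  have hdet : (W : Matrix (Fin n) (Fin n) F).det ≠ 0 := (Matrix.GeneralLinearGroup.det W).ne_zero
  obtain ⟨w, hw⟩ := hR.emb.exists_GL (W : Matrix (Fin n) (Fin n) F) (congrArg (fun y : GL (Fin n) F => (y : Matrix (Fin n) (Fin n) F)) hfix) hdet
  have hw' : Matrix.GeneralLinearGroup.map ι w = W := Units.ext hw
  have hcmp : cmp ι P P w = u := by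
    rw [GB.cmp, hw', hW]
    group
  have hι : Function.Injective ι := ι.injective
  have hmem : w ∈ ratG B := by
    constructor
    · -- the form
      have h1 := cj_cmp_mid (P := P) (P' := P) hR.emb w hR.form
      rw [hcmp] at h1
      have h2 : cj hF (u : Matrix (Fin n) (Fin n) F) * (u : Matrix (Fin n) (Fin n) F) = 1 :=
        (mem_GU_iff hF).1 (suGL_mem s)
      rw [h2] at h1
      set K := (w : Matrix (Fin n) (Fin n) F₀)ᵀ * (B : Matrix (Fin n) (Fin n) F₀) * (w : Matrix (Fin n) (Fin n) F₀) with hK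
      set pi := ((P⁻¹ : GL (Fin n) F) : Matrix (Fin n) (Fin n) F) with hpi
      have h3 : pi * (P : Matrix (Fin n) (Fin n) F) = 1 := by
        rw [hpi, ← Units.val_mul, inv_mul_cancel, Units.val_one]
      have h4 : cj hF (P : Matrix (Fin n) (Fin n) F) * cj hF pi = 1 := by
        rw [hpi]
        exact cj_mul_inv hF P
      have h5 : cj hF (P : Matrix (Fin n) (Fin n) F) * (P : Matrix (Fin n) (Fin n) F) = (l : F) • K.map ι := by
        calc cj hF (P : Matrix (Fin n) (Fin n) F) * (P : Matrix (Fin n) (Fin n) F) =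
              cj hF (P : Matrix (Fin n) (Fin n) F) * 1 * (P : Matrix (Fin n) (Fin n) F) := by rw [Matrix.mul_one]
          _ = cj hF (P : Matrix (Fin n) (Fin n) F) * ((l : F) • (cj hF pi * K.map ι * pi)) * (P : Matrix (Fin n) (Fin n) F) := by rw [← h1]
          _ = (l : F) • ((cj hF (P : Matrix (Fin n) (Fin n) F) * cj hF pi) * K.map ι * (pi * (P : Matrix (Fin n) (Fin n) F))) := by
              simp only [Matrix.mul_smul, Matrix.smul_mul, Matrix.mul_assoc]
          _ = _ := by rw [h3, h4, Matrix.one_mul, Matrix.mul_one]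
      have h6 := hR.form
      rw [h5] at h6
      have h7 : K.map ι = (B : Matrix (Fin n) (Fin n) F₀).map ι := smul_right_injective _ l.ne_zero h6
      ext i j
      exact hι (congrFun (congrFun h7 i) j)
    · have h1 : ((w : Matrix (Fin n) (Fin n) F₀).map ι).det = ι (w : Matrix (Fin n) (Fin n) F₀).det :=
        (RingHom.map_det ι _).symm
      have h2 : (u : Matrix (Fin n) (Fin n) F).det = 1 := s.1.2
      have h3 : ((w : Matrix (Fin n) (Fin n) F₀).map ι).det = 1 := by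
        rw [hw, hW, Units.val_mul, Units.val_mul, Matrix.det_mul, Matrix.det_mul, h2, mul_one, ← Matrix.det_mul,
          ← Units.val_mul, inv_mul_cancel, Units.val_one, Matrix.det_one]
      apply hι
      rw [← h1, h3, map_one]
  refine ⟨⟨w, hmem⟩, ?_⟩
  apply Subtype.ext
  apply Subtype.ext
  change ((cmp ι P P w : GL (Fin n) F) : Matrix (Fin n) (Fin n) F) = _
  rw [hcmp]
  rfl

/-! ### Odd lifts -/

/-- A finite group element with odd image has a power of odd order with the same image. -/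
theorem exists_odd_pow {G H : Type*} [Group G] [Finite G] [Group H] (φ : G →* H) (s₀ : G) {m : ℕ} (hm : Odd m)
    (hy : φ s₀ ^ m = 1) : ∃ (s₁ : G) (m' : ℕ), Odd m' ∧ s₁ ^ m' = 1 ∧ φ s₁ = φ s₀ := by
  have hN : orderOf s₀ ≠ 0 := (orderOf_pos s₀).ne'
  obtain ⟨e, m', hm', hN'⟩ := Nat.exists_eq_two_pow_mul_odd hN
  have hodd' : Odd m' := hm'
  have hm'0 : 0 < m' := hodd'.pos
  have h1 : orderOf (φ s₀) ∣ m := orderOf_dvd_of_pow_eq_one hy
  have h2 : orderOf (φ s₀) ∣ orderOf s₀ := orderOf_map_dvd φ s₀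
  have hcop : Nat.Coprime (orderOf (φ s₀)) (2 ^ e) := by
    apply Nat.Coprime.pow_right
    exact (Odd.of_dvd_nat hm h1).coprime_two_right
  have h3 : orderOf (φ s₀) ∣ m' := by
    rw [hN'] at h2
    exact hcop.dvd_of_dvd_mul_left h2
  have hφ : φ s₀ ^ m' = 1 := orderOf_dvd_iff_pow_eq_one.1 h3
  have hcop2 : Nat.Coprime (2 ^ e) m' := Nat.Coprime.pow_left e hodd'.coprime_two_left
  have hmod := Nat.ModEq.pow_totient hcop2
  set u := (2 ^ e) ^ Nat.totient m' with hu
  have hu1 : 1 ≤ u := Nat.one_le_pow _ _ (by positivity)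
  have hdvd : m' ∣ u - 1 := (Nat.modEq_iff_dvd' hu1).1 hmod.symm
  obtain ⟨t, ht⟩ := hdvd
  have hue : u = 1 + m' * t := by omega
  have htot : 1 ≤ Nat.totient m' := Nat.totient_pos.2 hm'0
  refine ⟨s₀ ^ u, m', hodd', ?_, ?_⟩
  · rw [← pow_mul]
    obtain ⟨c, hc⟩ : orderOf s₀ ∣ u * m' := by
      rw [hN', hu]
      have : (2 ^ e) ∣ (2 ^ e) ^ Nat.totient m' := dvd_pow_self _ (by omega)
      exact Nat.mul_dvd_mul this (dvd_refl m')
    rw [hc, pow_mul, pow_orderOf_eq_one, one_pow]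
  · rw [map_pow, hue, pow_add, pow_one, pow_mul, hφ, one_pow, mul_one]

section lift

variable (hn1 : 1 ≤ n)
include hn1

/-- Central elements are inverted by `semiSU` for `τ`. -/
theorem semiSU_center {p : ℕ} [hp : Fact p.Prime] [hch : CharP F p] (hF : Fintype.card F = q ^ 2) (hg : g ∈ GU n F q)
    {z : SU n F q} (hz : z ∈ Subgroup.center (SU n F q)) : semiSU hg (tauE hF) z = z⁻¹ := by
  obtain ⟨μ, hμ⟩ := center_act hF hn1 hz
  let i₀ : Fin n := ⟨0, hn1⟩
  have hμ1 : μ * μ ^ q = 1 := by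
    have h1 := z.2 (Pi.single i₀ 1) (Pi.single i₀ 1)
    change ⟪act z (Pi.single i₀ 1), act z (Pi.single i₀ 1)⟫ = _ at h1
    rw [hμ, hermForm_smul_left, hermForm_smul_right] at h1
    have h2 : ⟪(Pi.single i₀ 1 : Fin n → F), (Pi.single i₀ 1 : Fin n → F)⟫ = 1 := by
      simp only [hermForm, Pi.single_apply]
      rw [Finset.sum_eq_single i₀]
      · simp
      · intro b _ hb
        simp [hb]
      · simp
    rw [h2, mul_one] at h1
    exact h1
  have hμ0 : μ ≠ 0 := left_ne_zero_of_mul_eq_one hμ1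
  apply SU_ext
  intro y
  obtain ⟨x, rfl⟩ : ∃ x, gam g (tauE hF) x = y := ⟨_, gam_gamInv g _ y⟩
  rw [act_semiSU, hμ, gam_smul, tauE_apply, act_inv_of_smul hF hμ0 (hμ _)]
  congr 1
  exact eq_inv_of_mul_eq_one_right hμ1

/-- Fixed points of odd order lift to isometries. -/
theorem exists_lift_odd {p : ℕ} [hp : Fact p.Prime] [hch : CharP F p] (hR : Rep hF ι g P B ν l) (hg : g ∈ GU n F q)
    {y : PSU n F q} (hy : semiAut hg (tauE hF) y = y) {m : ℕ} (hm : Odd m) (hym : y ^ m = 1) :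
    ∃ w : ratG B, piT n F q (sU hR w) = y := by
  obtain ⟨s₀, rfl⟩ := piT_surj y
  obtain ⟨s₁, m', hm', hs₁, hs₁y⟩ := exists_odd_pow (piT n F q) s₀ hm hym
  rw [← hs₁y] at hy ⊢
  rw [semiAut_pi] at hy
  -- the central difference
  set z := semiSU hg (tauE hF) s₁ * s₁⁻¹ with hz
  have hzc : z ∈ Subgroup.center (SU n F q) := by
    have h1 : piT n F q z = 1 := by
      rw [hz, map_mul, hy, map_inv, mul_inv_cancel]
    exact (QuotientGroup.eq_one_iff z).1 h1
  have hcomm : ∀ a : SU n F q, Commute z a := fun a => (Subgroup.mem_center_iff.1 hzc a).symm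
  have hsem : semiSU hg (tauE hF) s₁ = z * s₁ := by rw [hz, inv_mul_cancel_right]
  have hzm : z ^ m' = 1 := by
    have h1 : (z * s₁) ^ m' = 1 := by
      rw [← hsem, ← map_pow, hs₁, map_one]
    rw [(hcomm s₁).mul_pow, hs₁, mul_one] at h1
    exact h1
  obtain ⟨k, hk⟩ := hm'
  have h2k : z ^ (k + 1) * z ^ (k + 1) = z := by
    rw [← pow_add]
    have : k + 1 + (k + 1) = m' + 1 := by omega
    rw [this, pow_succ, hzm, one_mul]
  set s₂ := z ^ (k + 1) * s₁ with hs₂
  have hfix : semiSU hg (tauE hF) s₂ = s₂ := by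
    rw [hs₂, map_mul, map_pow, semiSU_center hn1 (p := p) hF hg hzc, hsem, inv_pow, ← mul_assoc]
    congr 1
    rw [inv_mul_eq_iff_eq_mul, h2k]
  obtain ⟨w, hw⟩ := exists_of_fixed hR s₂ (congrArg (fun t : SU n F q => (t.1.1 : Matrix (Fin n) (Fin n) F)) hfix)
  refine ⟨w, ?_⟩
  rw [hw, hs₂, map_mul, map_pow]
  have h1 : piT n F q z = 1 := (QuotientGroup.eq_one_iff z).2 hzc
  rw [h1, one_pow, one_mul]

end lift

/-! ### Scalars -/

theorem sU_scalar (hn1 : 1 ≤ n) (hR : Rep hF ι g P B ν l) {w : ratG B} {a : F₀}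
    (hw : (w.1 : Matrix (Fin n) (Fin n) F₀) = a • 1) : sU hR w ∈ Subgroup.center (SU n F q) := by
  apply mem_center_of_scalar hF (μ := ι a)
  intro x
  rw [act_def, sU_val, cmp_coe, hw]
  have h1 : ((a • (1 : Matrix (Fin n) (Fin n) F₀)).map ι) = ι a • (1 : Matrix (Fin n) (Fin n) F) := by
    ext i j
    by_cases hij : i = j
    · subst hij
      simp
    · simp [hij]
  rw [h1, Matrix.mul_smul, Matrix.mul_one, Matrix.smul_mul, ← Units.val_mul, mul_inv_cancel, Units.val_one, Matrix.smul_mulVec, Matrix.one_mulVec]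

/-- Central images come from scalars. -/
theorem scalar_of_sU {p : ℕ} [hp : Fact p.Prime] [hch : CharP F p] (hn1 : 1 ≤ n) (hR : Rep hF ι g P B ν l) {w : ratG B}
    (hw : sU hR w ∈ Subgroup.center (SU n F q)) : ∃ a : F₀, a * a = 1 ∧ (w.1 : Matrix (Fin n) (Fin n) F₀) = a • 1 := by
  obtain ⟨μ, hμ⟩ := center_act hF hn1 hw
  have h1 : ((cmp ι P P w.1 : GL (Fin n) F) : Matrix (Fin n) (Fin n) F) = μ • 1 := by
    apply Matrix.mulVec_injective
    funext x
    have := hμ x
    rw [act_def, sU_val] at this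
    rw [this, Matrix.smul_mulVec, Matrix.one_mulVec]
  have hμ0 : μ ≠ 0 := by
    rintro rfl
    have h2 : ((cmp ι P P w.1 : GL (Fin n) F) : Matrix (Fin n) (Fin n) F).det = 1 := cmp_det w
    haveI : Nonempty (Fin n) := ⟨⟨0, hn1⟩⟩
    rw [h1, zero_smul, Matrix.det_zero] at h2
    exact zero_ne_one h2
  have h2 : (w.1 : Matrix (Fin n) (Fin n) F₀).map ι = μ • 1 := by
    have h3 : Matrix.GeneralLinearGroup.map ι w.1 = P⁻¹ * cmp ι P P w.1 * P := by
      rw [GB.cmp]
      group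
    have h4 := congrArg (fun y : GL (Fin n) F => (y : Matrix (Fin n) (Fin n) F)) h3
    change (w.1 : Matrix (Fin n) (Fin n) F₀).map ι = ((P⁻¹ : GL (Fin n) F) : Matrix (Fin n) (Fin n) F) * ((cmp ι P P w.1 : GL (Fin n) F) : Matrix (Fin n) (Fin n) F) * (P : Matrix (Fin n) (Fin n) F) at h4
    rw [h4, h1, Matrix.mul_smul, Matrix.mul_one, Matrix.smul_mul, ← Units.val_mul, inv_mul_cancel, Units.val_one]
  obtain ⟨c, hc⟩ := scalar_of_map hn1 w.1 hμ0 h2
  refine ⟨c, ?_, hc⟩
  have h3 := w.2.1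
  rw [hc, Matrix.transpose_smul, Matrix.transpose_one, Matrix.smul_mul, Matrix.one_mul, Matrix.mul_smul, Matrix.mul_one, smul_smul] at h3
  obtain ⟨i, j, hij⟩ := exists_entry_ne_zero hn1 B
  have h4 := congrFun (congrFun h3 i) j
  simp only [Matrix.smul_apply, smul_eq_mul] at h4
  exact mul_right_cancel₀ hij (by rw [h4, one_mul])

/-! ### The abstract form of the odd-core theorem -/

section core

variable {p : ℕ} [hp : Fact p.Prime] [hch : CharP F p]
include hp hch

/-- Odd normal subgroups of the fixed points are trivial, given the theorem on isometries. -/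
theorem hA_of_core (hn1 : 1 ≤ n) (hR : Rep hF ι g P B ν l) (hg : g ∈ GU n F q) (𝒮 : Set (ratG B))
    (hcore : ∀ T : Subgroup (ratG B),
      (∀ h ∈ T, ∃ m, Odd m ∧ ∃ a : F₀, a * a = 1 ∧ ((h ^ m : ratG B).1 : Matrix (Fin n) (Fin n) F₀) = a • 1) →
      (∀ s ∈ 𝒮, ∀ h ∈ T, s * h * s⁻¹ ∈ T) → ∀ h ∈ T, ∃ a : F₀, (h.1 : Matrix (Fin n) (Fin n) F₀) = a • 1)
    (M : Subgroup (PSU n F q)) (hMfix : M ≤ fixP (semiAut hg (tauE hF)))
    (hMn : ∀ k ∈ fixP (semiAut hg (tauE hF)), ∀ y ∈ M, k * y * k⁻¹ ∈ M) (hodd : Odd (Nat.card M)) : M = ⊥ := by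
  classical
  set T : Subgroup (ratG B) := M.comap ((piT n F q).comp (sU hR)) with hT
  have hTmem : ∀ h, h ∈ T ↔ piT n F q (sU hR h) ∈ M := fun h => Iff.rfl
  have hoddo : ∀ y ∈ M, Odd (orderOf y) := by
    intro y hy
    apply Odd.of_dvd_nat hodd
    have h1 : orderOf (⟨y, hy⟩ : M) ∣ Nat.card M := orderOf_dvd_natCard _
    rwa [Subgroup.orderOf_mk] at h1
  have key := hcore T ?_ ?_
  · rw [eq_bot_iff]
    intro y hy
    rw [Subgroup.mem_bot]
    obtain ⟨w, hw⟩ := exists_lift_odd (p := p) hn1 hR hg (hMfix hy) (hoddo y hy) (pow_orderOf_eq_one y)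
    obtain ⟨a, ha⟩ := key w (by rw [hTmem, hw]; exact hy)
    rw [← hw]
    exact (QuotientGroup.eq_one_iff _).2 (sU_scalar hn1 hR ha)
  · intro h hh
    have hh' := (hTmem h).1 hh
    refine ⟨orderOf (piT n F q (sU hR h)), hoddo _ hh', ?_⟩
    obtain ⟨a, ha, hw⟩ := scalar_of_sU (p := p) hn1 hR (w := h ^ orderOf (piT n F q (sU hR h))) ((QuotientGroup.eq_one_iff _).1 (by
      change piT n F q (sU hR _) = 1
      rw [map_pow, map_pow]
      exact pow_orderOf_eq_one _))
    exact ⟨a, ha, hw⟩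
  · intro s hs h hh
    rw [hTmem, map_mul, map_mul, map_inv, map_mul, map_mul, map_inv]
    exact hMn _ (semiAut_sU hR hg s) _ ((hTmem h).1 hh)

end core

end Cfsg.Agent.Lib.BalPSU
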