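import Cfsg.Agent.Lib.BalPSU.Lines
import Cfsg.Agent.Lib.BalPSU.BalAbs

/-!
# Local balance for `PSU`: the rational subgroup for a field automorphism of odd prime order
-/

set_option autoImplicit false
set_option linter.unusedSectionVars false
set_option linter.unusedSimpArgs false
set_option linter.unusedVariables false
set_option linter.style.haveILetI false

namespace Cfsg.Agent.Lib.BalPSU

open Module Matrix Cfsg Cfsg.Agent.Lib.SUGen Cfsg.Agent.Lib.HermForm Cfsg.Agent.Lib.HermOrtho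
open Cfsg.Agent.Lib.Hilbert90 Cfsg.Agent.Lib.AutPSU
open Cfsg.Agent.Lib.AutPOm (fixP mem_fixP pow_eq_one_of_fix')
open Cfsg.Agent.Lib.AutPSL (glMap glMap_coe nrm nrm_succ nrm_succ' glMap_scalar scalar_coe dg dg_coe dg_det)
open scoped MatrixGroups

variable {F : Type*} [Field F] [Fintype F] {q n : ℕ}
variable {F₁ : Type*} [Field F₁] [Fintype F₁] {q₀ : ℕ}

local notation "⟪" x ", " y "⟫" => hermForm n F q x y
local notation "⟪" x ", " y "⟫₀" => hermForm n F₁ q₀ x y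

/-- `ι` identifies `F₁` with the fixed field of `σ`. -/
structure RatD (q q₀ : ℕ) (σ : F ≃+* F) (ι : F₁ →+* F) : Prop where
  fix : ∀ a, σ (ι a) = ι a
  surj : ∀ y, σ y = y → ∃ a, ι a = y
  pw : ∀ a, ι (a ^ q₀) = (ι a) ^ q

variable {σ : F ≃+* F} {ι : F₁ →+* F}

/-- The embedding of the rational unitary group. -/
noncomputable def fU (hF : Fintype.card F = q ^ 2) (hF₁ : Fintype.card F₁ = q₀ ^ 2) (hD : RatD q q₀ σ ι) : SU n F₁ q₀ →* SU n F q where
  toFun s := ⟨⟨(s.1.1 : Matrix (Fin n) (Fin n) F₁).map ι, by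
      have h1 := RingHom.map_det ι (s.1.1 : Matrix (Fin n) (Fin n) F₁)
      have h2 : (s.1.1 : Matrix (Fin n) (Fin n) F₁).det = 1 := s.1.2
      rw [h2, map_one] at h1
      exact h1.symm⟩, fun u v => map_mem_GU hF hF₁ ι hD.pw (suGL_mem s) u v⟩
  map_one' := by
    apply Subtype.ext
    apply Subtype.ext
    change ((1 : Matrix (Fin n) (Fin n) F₁)).map ι = 1
    exact Matrix.map_one _ (map_zero ι) (map_one ι)
  map_mul' a b := by
    apply Subtype.ext
    apply Subtype.ext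
    change ((a.1.1 : Matrix (Fin n) (Fin n) F₁) * (b.1.1 : Matrix (Fin n) (Fin n) F₁)).map ι = _
    rw [Matrix.map_mul]
    rfl

section basic

variable (hF : Fintype.card F = q ^ 2) (hF₁ : Fintype.card F₁ = q₀ ^ 2) (hD : RatD q q₀ σ ι)

theorem fU_val (s : SU n F₁ q₀) : ((fU hF hF₁ hD s).1.1 : Matrix (Fin n) (Fin n) F) = (s.1.1 : Matrix (Fin n) (Fin n) F₁).map ι := rfl

theorem semiMat_one (M : Matrix (Fin n) (Fin n) F) : semiMat (1 : GL (Fin n) F) σ M = M.map σ := by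
  rw [semiMat]
  simp

theorem semi_fU (s : SU n F₁ q₀) : semiSU (one_mem (GU n F q)) σ (fU hF hF₁ hD s) = fU hF hF₁ hD s := by
  apply Subtype.ext
  apply Subtype.ext
  change semiMat (1 : GL (Fin n) F) σ ((s.1.1 : Matrix (Fin n) (Fin n) F₁).map ι) = (s.1.1 : Matrix (Fin n) (Fin n) F₁).map ι
  rw [semiMat_one]
  ext i j
  exact hD.fix _

theorem exists_fU (s : SU n F q) (hs : semiSU (one_mem (GU n F q)) σ s = s) : ∃ s₀ : SU n F₁ q₀, fU hF hF₁ hD s₀ = s := by
  have h1 : ∀ i j, σ ((s.1.1 : Matrix (Fin n) (Fin n) F) i j) = (s.1.1 : Matrix (Fin n) (Fin n) F) i j := by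
    intro i j
    have h2 := congrArg (fun t : SU n F q => (t.1.1 : Matrix (Fin n) (Fin n) F) i j) hs
    change semiMat (1 : GL (Fin n) F) σ (s.1.1 : Matrix (Fin n) (Fin n) F) i j = _ at h2
    rwa [semiMat_one] at h2
  have h2 : ∀ i j, ∃ a, ι a = (s.1.1 : Matrix (Fin n) (Fin n) F) i j := fun i j => hD.surj _ (h1 i j)
  choose M₀ hM₀ using h2
  have hmap : (Matrix.of M₀).map ι = (s.1.1 : Matrix (Fin n) (Fin n) F) := by
    ext i j
    exact hM₀ i j
  have hdet : (Matrix.of M₀).det = 1 := by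
    apply ι.injective
    rw [map_one, RingHom.map_det]
    change ((Matrix.of M₀).map ι).det = 1
    rw [hmap]
    exact s.1.2
  have hdet0 : (Matrix.of M₀).det ≠ 0 := by
    rw [hdet]
    exact one_ne_zero
  have hG : Matrix.GeneralLinearGroup.mkOfDetNeZero (Matrix.of M₀) hdet0 ∈ GU n F₁ q₀ := by
    apply mem_GU_of_map hF hF₁ ι hD.pw
    have : Matrix.GeneralLinearGroup.map ι (Matrix.GeneralLinearGroup.mkOfDetNeZero (Matrix.of M₀) hdet0) = suGL s := by
      apply Units.ext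
      exact hmap
    rw [this]
    exact suGL_mem s
  refine ⟨⟨⟨Matrix.of M₀, hdet⟩, fun u v => hG u v⟩, ?_⟩
  apply Subtype.ext
  apply Subtype.ext
  exact hmap

/-- The rational subgroup of `PSU`. -/
noncomputable def Ee (n : ℕ) (hF : Fintype.card F = q ^ 2) (hF₁ : Fintype.card F₁ = q₀ ^ 2) (hD : RatD q q₀ σ ι) : Subgroup (PSU n F q) :=
  ((piT n F q).comp (fU hF hF₁ hD)).range

theorem mem_Ee {y : PSU n F q} : y ∈ Ee n hF hF₁ hD ↔ ∃ s₀ : SU n F₁ q₀, piT n F q (fU hF hF₁ hD s₀) = y := Iff.rfl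

theorem mem_Ee_of_semi {s : SU n F q} (hs : semiSU (one_mem (GU n F q)) σ s = s) : piT n F q s ∈ Ee n hF hF₁ hD := by
  obtain ⟨s₀, rfl⟩ := exists_fU hF hF₁ hD s hs
  exact ⟨s₀, rfl⟩

theorem Ee_le_fix : Ee n hF hF₁ hD ≤ fixP (faU n F q σ) := by
  rintro _ ⟨s₀, rfl⟩
  change semiAut (one_mem (GU n F q)) σ (piT n F q (fU hF hF₁ hD s₀)) = piT n F q (fU hF hF₁ hD s₀)
  rw [semiAut_pi, semi_fU]

omit hF₁ hD in
/-- A lift of a fixed point is moved by a central element. -/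
theorem exists_center_of_fix {s : SU n F q} (hs : faU n F q σ (piT n F q s) = piT n F q s) :
    ∃ z ∈ Subgroup.center (SU n F q), semiSU (one_mem (GU n F q)) σ s = z * s := by
  refine ⟨semiSU (one_mem (GU n F q)) σ s * s⁻¹, ?_, by group⟩
  apply (QuotientGroup.eq_one_iff _).1
  change piT n F q _ = 1
  change semiAut (one_mem (GU n F q)) σ (piT n F q s) = piT n F q s at hs
  rw [semiAut_pi] at hs
  rw [map_mul, hs, map_inv, mul_inv_cancel]

theorem Ee_norm {k e : PSU n F q} (hk : k ∈ fixP (faU n F q σ)) (he : e ∈ Ee n hF hF₁ hD) : k * e * k⁻¹ ∈ Ee n hF hF₁ hD := by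
  obtain ⟨s, rfl⟩ := piT_surj k
  obtain ⟨s₀, rfl⟩ := he
  obtain ⟨z, hz, hsz⟩ := exists_center_of_fix hk
  have h1 : semiSU (one_mem (GU n F q)) σ (s * fU hF hF₁ hD s₀ * s⁻¹) = s * fU hF hF₁ hD s₀ * s⁻¹ := by
    rw [map_mul, map_mul, map_inv, semi_fU, hsz]
    have hc : ∀ a, z * a = a * z := fun a => (Subgroup.mem_center_iff.1 hz a).symm
    calc z * s * fU hF hF₁ hD s₀ * (z * s)⁻¹ = (z * (s * fU hF hF₁ hD s₀)) * (s⁻¹ * z⁻¹) := by group
      _ = ((s * fU hF hF₁ hD s₀) * z) * (s⁻¹ * z⁻¹) := by rw [hc]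
      _ = (s * fU hF hF₁ hD s₀) * (z * s⁻¹) * z⁻¹ := by group
      _ = (s * fU hF hF₁ hD s₀) * (s⁻¹ * z) * z⁻¹ := by rw [hc]
      _ = _ := by group
  have h2 := mem_Ee_of_semi hF hF₁ hD h1
  rwa [map_mul, map_mul, map_inv] at h2

end basic

/-! ### Root elements -/

section roots

variable (hF : Fintype.card F = q ^ 2) (hF₁ : Fintype.card F₁ = q₀ ^ 2) (hD : RatD q q₀ σ ι)

theorem tau_semi {e₀ : Fin n → F₁} (he₀ : ⟪e₀, e₀⟫₀ = 0) {a₀ : F₁} (ha₀ : a₀ + a₀ ^ q₀ = 0) :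
    ∃ t : SU n F q, IsE t (lv ι e₀) 0 (ι a₀) ∧ piT n F q t ∈ Ee n hF hF₁ hD := by
  have hE : ⟪lv ι e₀, lv ι e₀⟫ = 0 := by rw [herm_lv hD.pw, he₀, map_zero]
  have hc : ι a₀ + ι a₀ ^ q = 0 := by rw [← hD.pw, ← map_add, ha₀, map_zero]
  obtain ⟨t, ht⟩ := exists_IsE hF hE (hermForm_zero_left _) (by rw [hermForm_zero_left, add_zero]; exact hc)
  refine ⟨t, ht, mem_Ee_of_semi hF hF₁ hD ?_⟩
  have hsv : ∀ v : Fin n → F, gam (1 : GL (Fin n) F) σ v = sv σ v := by
    intro v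
    rw [gam, Units.val_one, Matrix.one_mulVec]
  have hsvE : sv σ (lv ι e₀) = lv ι e₀ := by
    ext i
    exact hD.fix _
  have h1 := Cfsg.Agent.Lib.AutPSU.IsE.semi (one_mem (GU n F q)) σ ht
  rw [gam_zero, hsv, hsvE, hD.fix] at h1
  exact Cfsg.Agent.Lib.SUOrth.IsE.unique h1 ht

include hF in
theorem tau_pow_char {r : ℕ} [hr : Fact r.Prime] [hch : CharP F r] {v : Fin n → F} (hv : ⟪v, v⟫ = 0) {c : F} {t : SU n F q} (ht : IsE t v 0 c) :
    t ^ r = 1 := by
  have h1 := IsE.pow_zero_y hF ht hv r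
  rw [CharP.cast_eq_zero F r, zero_mul] at h1
  exact Cfsg.Agent.Lib.SUOrth.IsE.eq_one hF h1

end roots

/-! ### Automorphisms trivial on the rational subgroup -/

section hcl

variable (hF : Fintype.card F = q ^ 2) (hF₁ : Fintype.card F₁ = q₀ ^ 2) (hD : RatD q q₀ σ ι)

theorem faU_pow (σ' : F ≃+* F) (k : ℕ) : (faU n F q σ') ^ k = faU n F q (σ' ^ k) := by
  induction k with
  | zero => exact faU_one.symm
  | succ k ih => rw [pow_succ, ih, faU_mul, pow_succ]

/-- An automorphism trivial on the rational subgroup has order dividing the degree. -/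
theorem hcl_main {r : ℕ} [hr : Fact r.Prime] [hch : CharP F r] [hch₁ : CharP F₁ r] (hn : 3 ≤ n) (h32 : ¬ (n = 3 ∧ q = 2))
    {p : ℕ} (hord : orderOf σ = p) (β' : MulAut (PSU n F q)) (hβ' : ∀ e ∈ Ee n hF hF₁ hD, β' e = e) : β' ^ p = 1 := by
  have hn1 : 1 ≤ n := by omega
  obtain ⟨g', hg', σ', rfl⟩ := exists_semi' (p := r) hF hn h32 β'
  set S := gam g' σ' with hS
  have hadd : ∀ x y, S (x + y) = S x + S y := gam_add g' σ'
  have hsmul : ∀ (c : F) x, S (c • x) = σ' c • S x := gam_smul g' σ'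
  have hinj : Function.Injective S := by
    intro x y h
    have h2 := congrArg (gamInv g' σ') h
    rwa [gamInv_gam, gamInv_gam] at h2
  have hherm : ∀ v w, ⟪S v, S w⟫ = σ' ⟪v, w⟫ := herm_gam hg' σ'
  have hS0 : S 0 = 0 := gam_zero g' σ'
  have hlines : ∀ e : Fin n → F₁, ⟪e, e⟫₀ = 0 → ∃ μ : F, S (lv ι e) = μ • lv ι e := by
    intro e he
    by_cases he0 : e = 0
    · subst he0
      refine ⟨0, ?_⟩
      rw [lv_zero, hS0, zero_smul]
    obtain ⟨a₀, t₀, ha₀, hta, -⟩ := exists_root_ne hF₁ he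
    obtain ⟨t, ht, hmem⟩ := tau_semi hF hF₁ hD he hta
    set E := lv ι e with hEdef
    have hE : ⟪E, E⟫ = 0 := ht.hvv
    have hE0 : E ≠ 0 := fun h0 => he0 (lv_eq_zero h0)
    set c := ι a₀ with hcdef
    have hc0 : c ≠ 0 := (map_ne_zero ι).2 ha₀
    have h1 := hβ' _ hmem
    rw [semiAut_pi] at h1
    have h2 : t ^ r ^ 1 = 1 := by
      rw [pow_one]
      exact tau_pow_char hF hE ht
    have h3 : (semiSU hg' σ' t) ^ r ^ 1 = 1 := by rw [← map_pow, h2, map_one]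
    have h4 := eq_of_piT_eq (p := r) hF hn1 h3 h2 h1
    obtain ⟨x, hx⟩ := exists_not_perp hF hE0
    have h5 := act_semiSU hg' σ' t x
    rw [h4, IsE.act_zero hF ht, IsE.act_zero hF ht, gam_add, gam_smul, map_mul, hx, map_one, mul_one] at h5
    have h6 : (c * ⟪S x, E⟫) • E = σ' c • S E := add_left_cancel h5
    have hσc : σ' c ≠ 0 := (map_ne_zero σ').2 hc0
    refine ⟨(σ' c)⁻¹ * (c * ⟪S x, E⟫), ?_⟩
    rw [mul_smul, h6, smul_smul, inv_mul_cancel₀ hσc, one_smul]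
  obtain ⟨lam, hlam0, hlam, hσι⟩ := claim_lines (r := r) hF hF₁ hD.pw hn hadd hsmul hinj hherm hlines
  -- the matrix is scalar
  have hPg : (g' : Matrix (Fin n) (Fin n) F) = lam • 1 := by
    ext i j
    have h3 := hlam (Pi.single j 1)
    have h4 : lv ι (Pi.single j (1 : F₁)) = (Pi.single j 1 : Fin n → F) := by
      ext k
      by_cases hk : k = j
      · subst hk
        simp [lv]
      · simp [lv, hk]
    have h7 : sv σ' (Pi.single j 1 : Fin n → F) = Pi.single j 1 := by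
      ext k
      by_cases hk : k = j
      · subst hk
        simp [sv]
      · simp [sv, hk]
    rw [h4, hS, gam, h7, Matrix.mulVec_single_one] at h3
    have h5 := congrFun h3 i
    simp only [Matrix.col_apply, Pi.smul_apply, smul_eq_mul, Pi.single_apply, Matrix.smul_apply, Matrix.one_apply] at h5 ⊢
    exact h5
  set lam' : Fˣ := Units.mk0 lam hlam0 with hlam'
  have hgc : g' = Matrix.GeneralLinearGroup.scalar (Fin n) lam' := by
    apply Units.ext
    rw [scalar_coe, hPg]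
    rfl
  have hnorm := norm_of_scalar_mem hF hn1 hg' hgc
  have h1 : g' = Matrix.GeneralLinearGroup.scalar (Fin n) lam' * 1 := by rw [mul_one, hgc]
  have hfa : semiAut hg' σ' = faU n F q σ' := by
    rw [semiAut_congr hg' (smulGL_mem hnorm (one_mem (GU n F q))) h1, semiAut_smulGL hnorm]
    rfl
  rw [hfa, faU_pow]
  have hσp : σ' ^ p = 1 := by
    apply pow_eq_one_of_fix' σ σ' hord
    intro a ha
    obtain ⟨x, rfl⟩ := hD.surj a ha
    exact hσι x
  rw [hσp, faU_one]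

end hcl

end Cfsg.Agent.Lib.BalPSU
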