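import Cfsg.Agent.Lib.BalPSU.FieldX

/-!
# Local balance for `PSU`: field automorphisms of odd prime order
-/

set_option autoImplicit false
set_option linter.unusedSectionVars false
set_option linter.unusedSimpArgs false
set_option linter.unusedVariables false
set_option linter.style.haveILetI false

namespace Cfsg.Agent.Lib.BalPSU

open Module Matrix Cfsg Cfsg.Agent.Lib.SUGen Cfsg.Agent.Lib.HermForm Cfsg.Agent.Lib.HermOrtho
open Cfsg.Agent.Lib.Hilbert90 Cfsg.Agent.Lib.AutPSU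
open Cfsg.Agent.Lib.AutPOm (fixP mem_fixP pow_eq_one_of_fix')
open scoped MatrixGroups

variable {F : Type*} [Field F] [Fintype F] {q n : ℕ}
variable {F₁ : Type*} [Field F₁] [Fintype F₁] {q₀ : ℕ}

variable {σ : F ≃+* F} {ι : F₁ →+* F}

section main

variable (hF : Fintype.card F = q ^ 2) (hF₁ : Fintype.card F₁ = q₀ ^ 2) (hD : RatD q q₀ σ ι)

/-- Elements of order `p` in the fixed points give elements of order `p` in the rational subgroup. -/
theorem Ee_order (hn : 3 ≤ n) {p : ℕ} [hp : Fact p.Prime] (hqq : q = q₀ ^ p) (hdvd : p ∣ Nat.card (fixP (faU n F q σ))) :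
    ∃ e ∈ Ee n hF hF₁ hD, orderOf e = p := by
  classical
  have hn1 : 1 ≤ n := by omega
  obtain ⟨k, hk⟩ := exists_prime_orderOf_dvd_card' p hdvd
  obtain ⟨s, hs⟩ := piT_surj k.1
  have hfix : faU n F q σ (piT n F q s) = piT n F q s := by
    rw [hs]
    exact k.2
  obtain ⟨z, hz, hsz⟩ := exists_center_of_fix hfix
  have hzo : orderOf z ∣ q + 1 := orderOf_dvd_of_pow_eq_one (center_pow hF hn1 hz)
  by_cases hpo : p ∣ orderOf z
  · have h1 : p ∣ q + 1 := hpo.trans hzo
    have h2 : p ∣ q₀ + 1 := by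
      have h3 : ((q + 1 : ℕ) : ZMod p) = 0 := (ZMod.natCast_eq_zero_iff _ _).2 h1
      rw [← ZMod.natCast_eq_zero_iff]
      rw [hqq] at h3
      push_cast at h3 ⊢
      rwa [ZMod.pow_card] at h3
    have hq₀ : 1 ≤ q₀ := by
      have := HermCount.two_le_q hF₁
      omega
    have h3 : p ∣ Nat.card F₁ˣ := by
      rw [Nat.card_eq_fintype_card, Fintype.card_units, hF₁]
      have h4 : q₀ ^ 2 - 1 = (q₀ + 1) * (q₀ - 1) := by
        obtain ⟨c, rfl⟩ : ∃ c, q₀ = c + 1 := ⟨q₀ - 1, by omega⟩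
        simp only [Nat.add_sub_cancel]
        have : (c + 1) ^ 2 = (c + 1 + 1) * c + 1 := by ring
        omega
      rw [h4]
      exact h2.mul_right _
    obtain ⟨t, ht⟩ := exists_prime_orderOf_dvd_card' p h3
    have ht1 : (t : F₁) * (t : F₁) ^ q₀ = 1 := by
      have h4 : t ^ (q₀ + 1) = 1 := orderOf_dvd_iff_pow_eq_one.1 (ht ▸ h2)
      have h5 := congrArg Units.val h4
      rw [Units.val_pow_eq_pow_val, Units.val_one, pow_succ, mul_comm] at h5
      exact h5
    exact exists_order_diag hF hF₁ hD hn ht1 ht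
  · have hcop : Nat.Coprime p (orderOf z) := (Nat.Prime.coprime_iff_not_dvd hp.out).2 hpo
    have hcomm : Commute z s := (Subgroup.mem_center_iff.1 hz s).symm
    have hsem : semiSU (one_mem (GU n F q)) σ (s ^ orderOf z) = s ^ orderOf z := by
      rw [map_pow, hsz, hcomm.mul_pow, pow_orderOf_eq_one, one_mul]
    refine ⟨piT n F q (s ^ orderOf z), mem_Ee_of_semi hF hF₁ hD hsem, ?_⟩
    rw [map_pow, hs]
    have h5 : orderOf (k.1) = p := by
      rw [← hk]
      exact Subgroup.orderOf_coe k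
    rw [Nat.Coprime.orderOf_pow (by rw [h5]; exact hcop), h5]

/-- If the image under `fU` is central, so is the element. -/
theorem center_of_fU (hn1 : 1 ≤ n) {s : SU n F₁ q₀} (h : fU hF hF₁ hD s ∈ Subgroup.center (SU n F q)) :
    s ∈ Subgroup.center (SU n F₁ q₀) := by
  obtain ⟨μ, hμ⟩ := center_act hF hn1 h
  have h1 : (s.1.1 : Matrix (Fin n) (Fin n) F₁).map ι = μ • 1 := by
    apply Matrix.mulVec_injective
    funext x
    have := hμ x
    rw [act_def, fU_val] at this
    rw [this, Matrix.smul_mulVec, Matrix.one_mulVec]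
  have hμ0 : μ ≠ 0 := by
    rintro rfl
    haveI : Nonempty (Fin n) := ⟨⟨0, hn1⟩⟩
    have h2 := RingHom.map_det ι (s.1.1 : Matrix (Fin n) (Fin n) F₁)
    have h3 : (s.1.1 : Matrix (Fin n) (Fin n) F₁).det = 1 := s.1.2
    rw [h3, map_one] at h2
    have h4 : ((s.1.1 : Matrix (Fin n) (Fin n) F₁).map ι).det = 1 := h2.symm
    rw [h1, zero_smul, Matrix.det_zero] at h4
    exact zero_ne_one h4
  obtain ⟨c, hc⟩ := Cfsg.Agent.Lib.AutPSU.GB.scalar_of_map (ι := ι) hn1 (suGL s) hμ0 h1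
  apply mem_center_of_scalar hF₁ (μ := c)
  intro x
  rw [act_def]
  have h2 : (s.1.1 : Matrix (Fin n) (Fin n) F₁) = (c : F₁) • 1 := hc
  rw [h2, Matrix.smul_mulVec, Matrix.one_mulVec]

/-- The dichotomy in the exceptional case. -/
theorem Ee_exc {r : ℕ} [hr : Fact r.Prime] [hch₁ : CharP F₁ r] (hn3 : n = 3) (hq₀ : q₀ = 2) (M : Subgroup (PSU n F q))
    (hM : ∀ t ∈ Ee n hF hF₁ hD, ∀ a ∈ M, t * a * t⁻¹ ∈ M) (hcop : (Nat.card M).Coprime 3) : ∀ a ∈ M, a ∈ Ee n hF hF₁ hD → a = 1 := by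
  subst hn3
  subst hq₀
  have hn1 : 1 ≤ 3 := by omega
  set ρ := (piT 3 F q).comp (fU hF hF₁ hD (n := 3)) with hρ
  have hρc : ∀ z ∈ Subgroup.center (SU 3 F₁ 2), ρ z = 1 := fun z hz =>
    (QuotientGroup.eq_one_iff _).2 (fU_center hF hF₁ hD hn1 hz)
  set N₀ := M.comap ρ with hN₀
  have hN₀n : N₀.Normal := by
    constructor
    intro s hs g
    change ρ (g * s * g⁻¹) ∈ M
    rw [map_mul, map_mul, map_inv]
    exact hM _ ⟨g, rfl⟩ _ hs
  have hZ : Subgroup.center (SU 3 F₁ 2) ≤ N₀ := by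
    intro z hz
    change ρ z ∈ M
    rw [hρc z hz]
    exact one_mem _
  let f : N₀ →* M := (ρ.comp N₀.subtype).codRestrict M (fun s => s.2)
  have hfv : ∀ s : N₀, ((f s : M) : PSU 3 F q) = ρ s.1 := fun _ => rfl
  have hker : Nat.card f.ker ∣ 3 := by
    have h1 : Nat.card (Subgroup.center (SU 3 F₁ 2)) = 3 := by
      rw [Cfsg.Agent.Lib.UnitarySU.card_center_SU hF₁ (by omega)]
      norm_num
    let i : f.ker →* Subgroup.center (SU 3 F₁ 2) :=
      { toFun := fun s => ⟨s.1.1, center_of_fU hF hF₁ hD hn1 ((QuotientGroup.eq_one_iff _).1 (by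
          have := congrArg Subtype.val (MonoidHom.mem_ker.1 s.2)
          exact this))⟩
        map_one' := rfl
        map_mul' := fun _ _ => rfl }
    have h2 : Nat.card f.ker ∣ Nat.card (Subgroup.center (SU 3 F₁ 2)) := by
      apply Subgroup.card_dvd_of_injective i
      intro a b hab
      apply Subtype.ext
      apply Subtype.ext
      have h3 := congrArg Subtype.val hab
      exact h3
    rwa [h1] at h2
  have hrange : Nat.card f.range ∣ Nat.card M := Subgroup.card_subgroup_dvd_card _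
  have hm : Nat.card N₀ ∣ 3 * Nat.card M := by
    have h1 := Subgroup.card_mul_index f.ker
    rw [Subgroup.index_ker] at h1
    rw [← h1]
    exact Nat.mul_dvd_mul hker hrange
  have hle := exc_normal (r := r) hF₁ N₀ hZ hm hcop
  rintro a ha ⟨s, rfl⟩
  exact hρc s (hle ha)

end main

/-- The criterion for a field automorphism of odd prime order. -/
theorem field_bal {r : ℕ} [hr : Fact r.Prime] [hch : CharP F r] (hF : Fintype.card F = q ^ 2) (hn : 3 ≤ n) (h32 : ¬ (n = 3 ∧ q = 2))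
    (σ : F ≃+* F) {p : ℕ} [hp : Fact p.Prime] (hodd : Odd p) (hord : orderOf σ = p) (A : Subgroup (MulAut (PSU n F q)))
    (hinn : ∀ k : PSU n F q, MulAut.conj k ∈ A) :
    (∃ N : Subgroup ↥(A ⊓ Subgroup.centralizer {faU n F q σ}), N.Normal ∧ (Nat.card N).Coprime p ∧ N ≠ ⊥) ↔
      Nat.Coprime p (Nat.card (fixP (faU n F q σ))) := by
  classical
  have hn1 : 1 ≤ n := by omega
  -- the small field
  obtain ⟨k, -, hk⟩ := FiniteField.card F r
  have hq2 := HermCount.two_le_q hF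
  have hqdvd : q ∣ r ^ (k : ℕ) := by
    rw [← hk, hF]
    exact dvd_pow_self q (by norm_num)
  obtain ⟨f, -, hqf⟩ := (Nat.dvd_prime_pow hr.out).1 hqdvd
  have hf : 1 ≤ f := by
    by_contra hcon
    have : f = 0 := by omega
    rw [this, pow_zero] at hqf
    omega
  have hFp : Fintype.card F = r ^ (2 * f) := by
    rw [hF, hqf, ← pow_mul, mul_comm]
  have h2f : 1 ≤ 2 * f := by omega
  have hd : p ∣ 2 * f := by
    rw [← hord, ← Cfsg.Agent.Lib.AutPSL.card_ringAut hFp h2f]
    exact orderOf_dvd_natCard σ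
  obtain ⟨m, hm⟩ : p ∣ f := Nat.Coprime.dvd_of_dvd_mul_left hodd.coprime_two_right hd
  set q₀ := r ^ m with hq₀
  have hqq : q = q₀ ^ p := by
    rw [hqf, hm, hq₀, ← pow_mul, mul_comm]
  have hqq' : q = q₀ ^ orderOf σ := by rw [hord]; exact hqq
  have hodd' : Odd (orderOf σ) := by rw [hord]; exact hodd
  have hcard : Nat.card (fixedF σ) = q₀ ^ 2 := by
    have h1 := card_eq_card_fixedF_pow σ hord
    rw [Nat.card_eq_fintype_card, hF, hqq, ← pow_mul, mul_comm, pow_mul] at h1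
    exact (Nat.pow_left_injective (n := p) (by have := hp.out.two_le; omega) h1).symm
  haveI : Fintype (fixedF σ) := Fintype.ofFinite _
  have hF₁ : Fintype.card (fixedF σ) = q₀ ^ 2 := by rw [← hcard, Nat.card_eq_fintype_card]
  let ι : fixedF σ →+* F := (fixedF σ).subtype
  have hD : RatD q q₀ σ ι :=
    ⟨fun a => a.2, fun y hy => ⟨⟨y, hy⟩, rfl⟩, fun a => by
      rw [map_pow]
      exact (pow_q_of_fixed hcard hqq' hodd' a.2).symm⟩
  haveI : CharP (fixedF σ) r := RingHom.charP ι ι.injective r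
  have hcent := center_PSU_eq_bot (p := r) hF hn h32
  refine Cfsg.Agent.Lib.BalPSU.bal_abstract' hcent _ A hinn (Ee n hF hF₁ hD) (Ee_le_fix hF hF₁ hD)
    (fun k hk e he => Ee_norm hF hF₁ hD hk he) ?_ (fun h => Ee_order hF hF₁ hD hn hqq h) (Ee_ne_bot (r := r) hF hF₁ hD hn)
    (fun β' hβ' => hcl_main (r := r) hF hF₁ hD hn h32 hord β' hβ')
  intro M hM hcopM ⟨e, he, heo⟩
  by_cases hexc : n = 3 ∧ q₀ = 2
  · left
    -- the order of the prime
    have hp3 : p = 3 := by
      obtain ⟨hn3, h₀⟩ := hexc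
      subst hn3
      obtain ⟨s₀, rfl⟩ := he
      have h1 : p ∣ Nat.card (SU 3 (fixedF σ) q₀) := by
        rw [← heo]
        exact (orderOf_map_dvd _ s₀).trans (orderOf_dvd_natCard s₀)
      have h3 := Cfsg.Agent.Lib.UnitarySU.card_SU hF₁ 3 (by omega)
      rw [h₀] at h3
      simp [Finset.prod_range_succ] at h3
      have h4 : Nat.card (SU 3 (fixedF σ) 2) = 216 := by
        rw [Nat.card_eq_fintype_card]
        omega
      rw [h₀, h4] at h1
      have h5 : p ∣ 2 ^ 3 * 3 ^ 3 := by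
        norm_num
        exact h1
      rcases (Nat.Prime.dvd_mul hp.out).1 h5 with h6 | h6
      · have h7 := (Nat.prime_dvd_prime_iff_eq hp.out Nat.prime_two).1 (hp.out.dvd_of_dvd_pow h6)
        rw [h7] at hodd
        exact absurd hodd (by decide)
      · exact (Nat.prime_dvd_prime_iff_eq hp.out Nat.prime_three).1 (hp.out.dvd_of_dvd_pow h6)
    subst hp3
    exact Ee_exc (r := r) hF hF₁ hD hexc.1 hexc.2 M hM hcopM
  · exact Ee_dich hF hF₁ hD hn1 (Cfsg.Agent.Lib.UnitarySimple.isSimple_PSU hF₁ hn hexc) M hM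

end Cfsg.Agent.Lib.BalPSU
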