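import Cfsg.Agent.Lib.BalPSU.FieldE

/-!
# Local balance for `PSU`: elements of order `p` and simplicity of the rational subgroup
-/

set_option autoImplicit false
set_option linter.unusedSectionVars false
set_option linter.unusedSimpArgs false
set_option linter.unusedVariables false
set_option linter.style.haveILetI false

namespace Cfsg.Agent.Lib.BalPSU

open Module Matrix Cfsg Cfsg.Agent.Lib.SUGen Cfsg.Agent.Lib.HermForm Cfsg.Agent.Lib.HermOrtho
open Cfsg.Agent.Lib.Hilbert90 Cfsg.Agent.Lib.AutPSU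
open Cfsg.Agent.Lib.AutPOm (fixP mem_fixP pow_eq_one_of_fix')
open Cfsg.Agent.Lib.AutPSL (glMap glMap_coe nrm nrm_succ nrm_succ' glMap_scalar scalar_coe dg dg_coe dg_det)
open scoped MatrixGroups

variable {F : Type*} [Field F] [Fintype F] {q n : ℕ}
variable {F₁ : Type*} [Field F₁] [Fintype F₁] {q₀ : ℕ}

local notation "⟪" x ", " y "⟫" => hermForm n F q x y
local notation "⟪" x ", " y "⟫₀" => hermForm n F₁ q₀ x y

variable {σ : F ≃+* F} {ι : F₁ →+* F}

section center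

variable (hF : Fintype.card F = q ^ 2)

include hF in
/-- Central elements have order dividing `q + 1`. -/
theorem center_pow (hn1 : 1 ≤ n) {z : SU n F q} (hz : z ∈ Subgroup.center (SU n F q)) : z ^ (q + 1) = 1 := by
  obtain ⟨μ, hμ⟩ := center_act hF hn1 hz
  let i₀ : Fin n := ⟨0, hn1⟩
  have hμ1 : μ * μ ^ q = 1 := by
    have h1 := z.2 (Pi.single i₀ 1) (Pi.single i₀ 1)
    change ⟪act z (Pi.single i₀ 1), act z (Pi.single i₀ 1)⟫ = _ at h1
    rw [hμ, hermForm_smul_left, hermForm_smul_right] at h1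
    have h2 : ⟪(Pi.single i₀ 1 : Fin n → F), (Pi.single i₀ 1 : Fin n → F)⟫ = 1 := by
      simp only [hermForm, Pi.single_apply]
      rw [Finset.sum_eq_single i₀]
      · simp
      · intro b _ hb
        simp [hb]
      · simp
    rw [h2, mul_one] at h1
    exact h1
  apply SU_ext
  intro x
  rw [act_pow_scalar hμ, act_one, pow_succ, mul_comm, hμ1, one_smul]

end center

section main

variable (hF : Fintype.card F = q ^ 2) (hF₁ : Fintype.card F₁ = q₀ ^ 2) (hD : RatD q q₀ σ ι)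

/-- The image under `fU` of a central element is central. -/
theorem fU_center (hn1 : 1 ≤ n) {z : SU n F₁ q₀} (hz : z ∈ Subgroup.center (SU n F₁ q₀)) :
    fU hF hF₁ hD z ∈ Subgroup.center (SU n F q) := by
  obtain ⟨μ, hμ⟩ := center_act hF₁ hn1 hz
  have h1 : (z.1.1 : Matrix (Fin n) (Fin n) F₁) = μ • 1 := by
    apply Matrix.mulVec_injective
    funext x
    have := hμ x
    rw [act_def] at this
    rw [this, Matrix.smul_mulVec, Matrix.one_mulVec]
  apply mem_center_of_scalar hF (μ := ι μ)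
  intro x
  rw [act_def, fU_val, h1]
  have h2 : ((μ • (1 : Matrix (Fin n) (Fin n) F₁)).map ι) = ι μ • (1 : Matrix (Fin n) (Fin n) F) := by
    ext i j
    by_cases hij : i = j
    · subst hij
      simp
    · simp [hij]
  rw [h2, Matrix.smul_mulVec, Matrix.one_mulVec]

/-- The dichotomy for a subgroup normalised by the rational subgroup, when `PSU` over the small field is simple. -/
theorem Ee_dich (hn1 : 1 ≤ n) (hS : IsSimpleGroup (PSU n F₁ q₀)) (M : Subgroup (PSU n F q))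
    (hM : ∀ t ∈ Ee n hF hF₁ hD, ∀ a ∈ M, t * a * t⁻¹ ∈ M) : (∀ a ∈ M, a ∈ Ee n hF hF₁ hD → a = 1) ∨ Ee n hF hF₁ hD ≤ M := by
  set ρ := (piT n F q).comp (fU hF hF₁ hD (n := n)) with hρ
  have hρc : ∀ z ∈ Subgroup.center (SU n F₁ q₀), ρ z = 1 := fun z hz =>
    (QuotientGroup.eq_one_iff _).2 (fU_center hF hF₁ hD hn1 hz)
  set N₀ := M.comap ρ with hN₀
  have hN₀n : N₀.Normal := by
    constructor
    intro s hs g
    change ρ (g * s * g⁻¹) ∈ M
    rw [map_mul, map_mul, map_inv]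
    exact hM _ ⟨g, rfl⟩ _ hs
  have hN₁n : (N₀.map (piT n F₁ q₀)).Normal := hN₀n.map _ (piT_surj)
  rcases hN₁n.eq_bot_or_eq_top with h | h
  · left
    rintro a ha ⟨s, rfl⟩
    have h1 : piT n F₁ q₀ s ∈ N₀.map (piT n F₁ q₀) := ⟨s, ha, rfl⟩
    rw [h, Subgroup.mem_bot] at h1
    exact hρc s ((QuotientGroup.eq_one_iff s).1 h1)
  · right
    rintro _ ⟨s₁, rfl⟩
    have h1 : piT n F₁ q₀ s₁ ∈ N₀.map (piT n F₁ q₀) := by
      rw [h]
      exact Subgroup.mem_top _
    obtain ⟨s, hs, hss⟩ := h1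
    have h2 : s⁻¹ * s₁ ∈ Subgroup.center (SU n F₁ q₀) := by
      apply (QuotientGroup.eq_one_iff _).1
      change piT n F₁ q₀ _ = 1
      rw [map_mul, map_inv, hss, inv_mul_cancel]
    have h3 : ρ s₁ = ρ s := by
      have h4 := hρc _ h2
      rw [map_mul, map_inv] at h4
      exact (inv_mul_eq_one.1 h4).symm
    change ρ s₁ ∈ M
    rw [h3]
    exact hs

/-- The rational subgroup is not trivial. -/
theorem Ee_ne_bot {r : ℕ} [hr : Fact r.Prime] [hch : CharP F r] [hch₁ : CharP F₁ r] (hn : 3 ≤ n) : Ee n hF hF₁ hD ≠ ⊥ := by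
  intro hbot
  have hn1 : 1 ≤ n := by omega
  obtain ⟨e, he0, he⟩ := exists_iso_vec (p := r) hF₁ hn
  obtain ⟨a₀, t₀, ha₀, hta, -⟩ := exists_root_ne hF₁ he
  obtain ⟨t, ht, hmem⟩ := tau_semi hF hF₁ hD he hta
  rw [hbot, Subgroup.mem_bot] at hmem
  have hz : t ∈ Subgroup.center (SU n F q) := (QuotientGroup.eq_one_iff t).1 hmem
  have hE : ⟪lv ι e, lv ι e⟫ = 0 := ht.hvv
  have hE0 : lv ι e ≠ 0 := fun h0 => he0 (lv_eq_zero h0)
  have h2 : t = 1 := center_pelem (p := r) hF hn1 hz (k := 1) (by rw [pow_one]; exact tau_pow_char hF hE ht)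
  obtain ⟨x, hx⟩ := exists_not_perp hF hE0
  have h3 := IsE.act_zero hF ht x
  rw [h2, act_one, hx, mul_one] at h3
  have h4 : ι a₀ • lv ι e = 0 := by
    have := add_eq_left.1 h3.symm
    exact this
  rcases smul_eq_zero.1 h4 with h5 | h5
  · exact (map_ne_zero ι).2 ha₀ h5
  · exact hE0 h5

/-- A diagonal element of order `p` in the rational subgroup. -/
theorem exists_order_diag (hn : 3 ≤ n) {p : ℕ} [hp : Fact p.Prime] {t : F₁ˣ} (ht1 : (t : F₁) * (t : F₁) ^ q₀ = 1) (hto : orderOf t = p) :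
    ∃ e ∈ Ee n hF hF₁ hD, orderOf e = p := by
  have hn1 : 1 ≤ n := by omega
  let i₀ : Fin n := ⟨0, by omega⟩
  let i₁ : Fin n := ⟨1, by omega⟩
  let i₂ : Fin n := ⟨2, by omega⟩
  have h01 : i₀ ≠ i₁ := by simp [i₀, i₁, Fin.ext_iff]
  have h02 : i₀ ≠ i₂ := by simp [i₀, i₂, Fin.ext_iff]
  have h12 : i₁ ≠ i₂ := by simp [i₁, i₂, Fin.ext_iff]
  have ht2 : ((t⁻¹ : F₁ˣ) : F₁) * ((t⁻¹ : F₁ˣ) : F₁) ^ q₀ = 1 := by
    rw [Units.val_inv_eq_inv_val, inv_pow, ← mul_inv, ht1, inv_one]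
  set D : GL (Fin n) F₁ := dg i₀ t * dg i₁ t⁻¹ with hD'
  have hDmem : D ∈ GU n F₁ q₀ := mul_mem (dg_mem _ ht1) (dg_mem _ ht2)
  set d : Fin n → F₁ := fun i => (if i = i₀ then (t : F₁) else 1) * (if i = i₁ then ((t⁻¹ : F₁ˣ) : F₁) else 1) with hd
  have hDd : (D : Matrix (Fin n) (Fin n) F₁) = Matrix.diagonal d := by
    rw [hD', Units.val_mul, dg_coe, dg_coe, Matrix.diagonal_mul_diagonal]
  have hDdet : (D : Matrix (Fin n) (Fin n) F₁).det = 1 := by
    have h1 : Matrix.GeneralLinearGroup.det (dg i₀ t) = t := dg_det _ _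
    have h3 : Matrix.GeneralLinearGroup.det (dg i₁ t⁻¹) = t⁻¹ := dg_det _ _
    have h4 : Matrix.GeneralLinearGroup.det D = 1 := by
      rw [hD', map_mul, h1, h3, mul_inv_cancel]
    exact congrArg Units.val h4
  let s : SU n F₁ q₀ := ⟨⟨(D : Matrix (Fin n) (Fin n) F₁), hDdet⟩, fun u v => hDmem u v⟩
  have hsv : (s.1.1 : Matrix (Fin n) (Fin n) F₁) = D := rfl
  have htp : (t : F₁) ^ p = 1 := by
    rw [← Units.val_pow_eq_pow_val, ← hto, pow_orderOf_eq_one, Units.val_one]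
  have hs2 : s ^ p = 1 := by
    apply Subtype.ext
    apply Subtype.ext
    change (D : Matrix (Fin n) (Fin n) F₁) ^ p = 1
    rw [hDd, Matrix.diagonal_pow, ← Matrix.diagonal_one]
    congr 1
    funext i
    simp only [Pi.pow_apply, hd, mul_pow]
    have h1 : ((t⁻¹ : F₁ˣ) : F₁) ^ p = 1 := by
      rw [Units.val_inv_eq_inv_val, inv_pow, htp, inv_one]
    by_cases h3 : i = i₀ <;> by_cases h4 : i = i₁ <;> simp [h3, h4, htp, h1]
  refine ⟨piT n F q (fU hF hF₁ hD s), ⟨s, rfl⟩, ?_⟩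
  apply orderOf_eq_prime
  · rw [← map_pow, ← map_pow, hs2, map_one, map_one]
  · intro h1
    have hz : fU hF hF₁ hD s ∈ Subgroup.center (SU n F q) := (QuotientGroup.eq_one_iff _).1 h1
    obtain ⟨μ, hμ⟩ := center_act hF hn1 hz
    have hact : ∀ j, act (fU hF hF₁ hD s) (Pi.single j 1) j = ι (d j) := by
      intro j
      rw [act_def, fU_val, hsv, hDd, Matrix.diagonal_map (map_zero ι), Matrix.mulVec_diagonal]
      simp
    have e0 := hact i₀
    have e2 := hact i₂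
    rw [hμ] at e0 e2
    simp [hd, h01, h02.symm, h12.symm] at e0 e2
    have h5 : ι (t : F₁) = 1 := by rw [← e0, e2]
    have h6 : (t : F₁) = 1 := ι.injective (by rw [h5, map_one])
    have h7 : t = 1 := Units.ext h6
    rw [h7, orderOf_one] at hto
    exact hp.out.one_lt.ne hto

end main

end Cfsg.Agent.Lib.BalPSU
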