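import Cfsg.Agent.Lib.BalPSU.FieldP

/-!
# Local balance for `PSU`: the exceptional rational subgroup `PSU_3(2)`

Normal subgroups of `SU_3(2)` whose order is prime to three modulo the centre are central, since `SU_3(2)` is transitive on the
`27` non-zero isotropic vectors.
-/

set_option autoImplicit false
set_option linter.unusedSectionVars false
set_option linter.unusedSimpArgs false
set_option linter.unusedVariables false
set_option linter.style.haveILetI false

namespace Cfsg.Agent.Lib.BalPSU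

open Module Matrix Cfsg Cfsg.Agent.Lib.SUGen Cfsg.Agent.Lib.HermForm Cfsg.Agent.Lib.HermOrtho
open Cfsg.Agent.Lib.Hilbert90 Cfsg.Agent.Lib.AutPSU
open Cfsg.Agent.Lib.AutPOm (fixP mem_fixP pow_eq_one_of_fix')
open scoped MatrixGroups

variable {F : Type*} [Field F] [Fintype F] {q n : ℕ}

/-- The non-zero isotropic vectors. -/
def IsoV (n : ℕ) (F : Type*) [Field F] [Fintype F] (q : ℕ) : Type _ := {v : Fin n → F // v ≠ 0 ∧ hermForm n F q v v = 0}

instance : MulAction (SU n F q) (IsoV n F q) where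
  smul s v := ⟨act s v.1, fun h0 => v.2.1 (by
    have h1 := act_inv_act s v.1
    rw [h0, act_zero] at h1
    exact h1.symm), by
    rw [herm_act]
    exact v.2.2⟩
  one_smul v := Subtype.ext (act_one v.1)
  mul_smul a b v := Subtype.ext (act_mul a b v.1)

instance : Finite (IsoV n F q) := Subtype.finite

theorem isoV_smul_val (s : SU n F q) (v : IsoV n F q) : (s • v).1 = act s v.1 := rfl

theorem card_IsoV (hF : Fintype.card F = q ^ 2) : Nat.card (IsoV n F q) + 1 = Nat.card {v : Fin n → F // hermForm n F q v v = 0} := by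
  classical
  have hz : hermForm n F q (0 : Fin n → F) 0 = 0 := hermForm_zero_left _
  let a : {v : Fin n → F // hermForm n F q v v = 0} := ⟨0, hz⟩
  have h1 : Nat.card (IsoV n F q) = Nat.card {x : {v : Fin n → F // hermForm n F q v v = 0} // x ≠ a} := by
    apply Nat.card_congr
    exact
      { toFun := fun v => ⟨⟨v.1, v.2.2⟩, fun h => v.2.1 (congrArg Subtype.val h)⟩
        invFun := fun x => ⟨x.1.1, fun h => x.2 (Subtype.ext h), x.1.2⟩
        left_inv := fun v => rfl
        right_inv := fun x => rfl }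
  rw [h1]
  have h2 : ∀ (α : Type _) [Fintype α] (b : α), Nat.card {x : α // x ≠ b} + 1 = Nat.card α := by
    intro α _ b
    rw [Nat.card_eq_fintype_card, Nat.card_eq_fintype_card, Fintype.card_subtype_compl]
    have : Fintype.card {x // x = b} = 1 := Fintype.card_unique
    have h3 : 0 < Fintype.card α := Fintype.card_pos_iff.2 ⟨b⟩
    omega
  haveI : Fintype {v : Fin n → F // hermForm n F q v v = 0} := Fintype.ofFinite _
  exact h2 _ a

section exc

variable {F₁ : Type*} [Field F₁] [Fintype F₁]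

/-- A normal subgroup of `SU_3(2)`, prime to three modulo the centre, is central. -/
theorem exc_normal {r : ℕ} [hr : Fact r.Prime] [hch₁ : CharP F₁ r] (hF₁ : Fintype.card F₁ = 2 ^ 2) (N₀ : Subgroup (SU 3 F₁ 2))
    [hN : N₀.Normal] (hZ : Subgroup.center (SU 3 F₁ 2) ≤ N₀) {m : ℕ} (hm : Nat.card N₀ ∣ 3 * m) (hcop : Nat.Coprime m 3) :
    N₀ ≤ Subgroup.center (SU 3 F₁ 2) := by
  classical
  intro s hs
  have hn : 3 ≤ 3 := le_refl 3
  have hcard : Nat.card (IsoV 3 F₁ 2) = 27 := by
    have h1 := card_IsoV (n := 3) hF₁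
    have h2 := HermCount.card_isotropic hF₁ 3
    rw [h2, if_neg (by decide)] at h1
    norm_num at h1
    omega
  haveI : MulAction.IsPretransitive (SU 3 F₁ 2) (IsoV 3 F₁ 2) := ⟨fun x y => by
    obtain ⟨A, hA⟩ := exists_SU_move hF₁ hn x.2.1 x.2.2 y.2.1 y.2.2
    exact ⟨A, Subtype.ext hA⟩⟩
  have hunits : Nat.card F₁ˣ = 3 := by
    rw [Nat.card_eq_fintype_card, Fintype.card_units, hF₁]
    norm_num
  have hc3 : ∀ c : F₁ˣ, (c : F₁) ^ 3 = 1 := by
    intro c
    have h1 : c ^ Nat.card F₁ˣ = 1 := pow_card_eq_one'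
    rw [hunits] at h1
    have := congrArg Units.val h1
    simpa using this
  -- scalars
  have hscal : ∀ c : F₁ˣ, ∃ z ∈ N₀, ∀ x, act z x = (c : F₁) • x := by
    intro c
    have hdet : ((c : F₁) • (1 : Matrix (Fin 3) (Fin 3) F₁)).det = 1 := by
      rw [Matrix.det_smul, Fintype.card_fin, hc3, Matrix.det_one, one_mul]
    let z : SU 3 F₁ 2 := ⟨⟨(c : F₁) • (1 : Matrix (Fin 3) (Fin 3) F₁), hdet⟩, fun u v => by
      change hermForm 3 F₁ 2 (((c : F₁) • (1 : Matrix (Fin 3) (Fin 3) F₁)) *ᵥ u) (((c : F₁) • (1 : Matrix (Fin 3) (Fin 3) F₁)) *ᵥ v) = _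
      rw [Matrix.smul_mulVec, Matrix.smul_mulVec, Matrix.one_mulVec, Matrix.one_mulVec, hermForm_smul_left, hermForm_smul_right, ← mul_assoc]
      have : (c : F₁) * (c : F₁) ^ 2 = 1 := by rw [← hc3 c]; ring
      rw [this, one_mul]⟩
    have hz : ∀ x, act z x = (c : F₁) • x := fun x => by
      change ((c : F₁) • (1 : Matrix (Fin 3) (Fin 3) F₁)) *ᵥ x = _
      rw [Matrix.smul_mulVec, Matrix.one_mulVec]
    exact ⟨z, hZ (mem_center_of_scalar hF₁ hz), hz⟩
  have hlines : ∀ e : Fin 3 → F₁, hermForm 3 F₁ 2 e e = 0 → ∃ μ : F₁, act s e = μ • e := by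
    intro e he
    by_cases he0 : e = 0
    · subst he0
      exact ⟨0, by rw [act_zero, zero_smul]⟩
    let x₀ : IsoV 3 F₁ 2 := ⟨e, he0, he⟩
    set B : Set (IsoV 3 F₁ 2) := MulAction.orbit N₀ x₀ with hB
    have hblock : MulAction.IsBlock (SU 3 F₁ 2) B := MulAction.IsBlock.orbit_of_normal x₀
    have hd1 : B.ncard ∣ 27 := by
      rw [← hcard]
      exact hblock.ncard_dvd_card ⟨x₀, MulAction.mem_orbit_self x₀⟩
    have hd2 : B.ncard ∣ Nat.card N₀ := by
      rw [hB, ← MulAction.index_stabilizer]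
      exact Subgroup.index_dvd_card _
    have hd3 : B.ncard ∣ 3 := by
      have h1 : Nat.Coprime B.ncard m := by
        apply Nat.Coprime.coprime_dvd_left hd1
        have : (27 : ℕ) = 3 ^ 3 := by norm_num
        rw [this]
        exact Nat.Coprime.pow_left 3 hcop.symm
      exact h1.dvd_of_dvd_mul_right (hd2.trans hm)
    have hle : B.ncard ≤ 3 := Nat.le_of_dvd (by norm_num) hd3
    -- the scalar multiples
    let f : F₁ˣ → IsoV 3 F₁ 2 := fun c => ⟨(c : F₁) • e, smul_ne_zero c.ne_zero he0, by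
      rw [hermForm_smul_left, hermForm_smul_right, he, mul_zero, mul_zero]⟩
    have hf : Function.Injective f := by
      intro c c' h
      have h1 := congrArg Subtype.val h
      exact Units.ext (smul_left_injective F₁ he0 h1)
    have hfB : Set.range f ⊆ B := by
      rintro _ ⟨c, rfl⟩
      obtain ⟨z, hz, hzc⟩ := hscal c
      refine ⟨⟨z, hz⟩, Subtype.ext ?_⟩
      exact hzc e
    have hrange : (Set.range f).ncard = 3 := by
      rw [← Set.image_univ, Set.ncard_image_of_injective _ hf, Set.ncard_univ, hunits]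
    have heq : Set.range f = B := Set.eq_of_subset_of_ncard_le hfB (by rw [hrange]; exact hle) (Set.toFinite _)
    have hsB : s • x₀ ∈ B := ⟨⟨s, hs⟩, rfl⟩
    rw [← heq] at hsB
    obtain ⟨c, hc⟩ := hsB
    exact ⟨c, (congrArg Subtype.val hc).symm⟩
  have hadd : ∀ x y, act s (x + y) = act s x + act s y := act_add s
  have hsmul : ∀ (c : F₁) x, act s (c • x) = (RingEquiv.refl F₁) c • act s x := act_smul s
  have hinj : Function.Injective (act s) := by
    intro x y h
    have h2 := congrArg (act s⁻¹) h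
    rwa [act_inv_act, act_inv_act] at h2
  have hherm : ∀ v w, hermForm 3 F₁ 2 (act s v) (act s w) = (RingEquiv.refl F₁) (hermForm 3 F₁ 2 v w) := herm_act s
  obtain ⟨lam, -, hlam, -⟩ := claim_lines (r := r) (ι := RingHom.id F₁) (n := 3) (q := 2) (q₀ := 2) hF₁ hF₁ (fun a => rfl) hn hadd hsmul hinj hherm hlines
  exact mem_center_of_scalar hF₁ (μ := lam) hlam

end exc

end Cfsg.Agent.Lib.BalPSU
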