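import Cfsg.Agent.Lib.BalPSU.Bridge
import Cfsg.Agent.Lib.AutPOm.BalStd

/-!
# Local balance for `PSU`: automorphisms trivial on the fixed points of an involutory graph automorphism
-/

set_option autoImplicit false
set_option linter.unusedSectionVars false
set_option linter.unusedSimpArgs false
set_option linter.unusedVariables false
set_option linter.style.haveILetI false

namespace Cfsg.Agent.Lib.BalPSU

open Module Matrix Cfsg Cfsg.Agent.Lib.SUGen Cfsg.Agent.Lib.HermForm Cfsg.Agent.Lib.HermOrtho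
open Cfsg.Agent.Lib.Hilbert90 Cfsg.Agent.Lib.AutPSU Cfsg.Agent.Lib.AutPSU.GB
open Cfsg.Agent.Lib.AutPOm (fixP mem_fixP pow_eq_one_of_fix')
open Cfsg.Agent.Lib.AutPSL (glMap glMap_coe nrm nrm_succ nrm_succ' glMap_scalar scalar_coe)
open scoped MatrixGroups

variable {F : Type*} [Field F] [Fintype F] {q n : ℕ}
variable {F₀ : Type*} [Field F₀] [Fintype F₀]

local notation "sc" => Matrix.GeneralLinearGroup.scalar (Fin n)

variable {hF : Fintype.card F = q ^ 2} {ι : F₀ →+* F} {g P : GL (Fin n) F} {B : GL (Fin n) F₀} {ν l : Fˣ}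

/-- Rational vectors. -/
def lv (ι : F₀ →+* F) (x : Fin n → F₀) : Fin n → F := fun i => ι (x i)

theorem lv_apply (ι : F₀ →+* F) (x : Fin n → F₀) (i : Fin n) : lv ι x i = ι (x i) := rfl

theorem lv_add (ι : F₀ →+* F) (x y : Fin n → F₀) : lv ι (x + y) = lv ι x + lv ι y := by
  ext i
  simp [lv]

theorem lv_sub (ι : F₀ →+* F) (x y : Fin n → F₀) : lv ι (x - y) = lv ι x - lv ι y := by
  ext i
  simp [lv]

theorem lv_neg (ι : F₀ →+* F) (x : Fin n → F₀) : lv ι (-x) = - lv ι x := by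
  ext i
  simp [lv]

theorem lv_zero (ι : F₀ →+* F) : lv ι (0 : Fin n → F₀) = 0 := by
  ext i
  simp [lv]

theorem lv_smul (ι : F₀ →+* F) (c : F₀) (x : Fin n → F₀) : lv ι (c • x) = ι c • lv ι x := by
  ext i
  simp [lv]

theorem lv_injective (ι : F₀ →+* F) : Function.Injective (lv (n := n) ι) := by
  intro x y h
  ext i
  exact ι.injective (congrFun h i)

theorem lv_eq_zero {ι : F₀ →+* F} {x : Fin n → F₀} (h : lv ι x = 0) : x = 0 :=
  lv_injective ι (h.trans (lv_zero ι).symm)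

theorem mulVec_lv (ι : F₀ →+* F) (M : Matrix (Fin n) (Fin n) F₀) (x : Fin n → F₀) :
    (M.map ι) *ᵥ lv ι x = lv ι (M *ᵥ x) := by
  ext i
  simp [lv, Matrix.mulVec, dotProduct, map_sum, map_mul]

/-- The semilinear map transported by `P`. -/
def stw (P g' : GL (Fin n) F) (σ' : F ≃+* F) (v : Fin n → F) : Fin n → F :=
  ((P⁻¹ : GL (Fin n) F) : Matrix (Fin n) (Fin n) F) *ᵥ gam g' σ' ((P : Matrix (Fin n) (Fin n) F) *ᵥ v)

theorem stw_add (P g' : GL (Fin n) F) (σ' : F ≃+* F) (x y : Fin n → F) :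
    stw P g' σ' (x + y) = stw P g' σ' x + stw P g' σ' y := by
  rw [stw, Matrix.mulVec_add, gam_add, Matrix.mulVec_add]
  rfl

theorem stw_smul (P g' : GL (Fin n) F) (σ' : F ≃+* F) (c : F) (x : Fin n → F) :
    stw P g' σ' (c • x) = σ' c • stw P g' σ' x := by
  rw [stw, Matrix.mulVec_smul, gam_smul, Matrix.mulVec_smul]
  rfl

theorem stw_inj (P g' : GL (Fin n) F) (σ' : F ≃+* F) : Function.Injective (stw P g' σ') := by
  intro x y h
  have h1 := congrArg (fun v => (P : Matrix (Fin n) (Fin n) F) *ᵥ v) h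
  simp only [stw, gl_mul_inv] at h1
  have h2 := congrArg (gamInv g' σ') h1
  rw [gamInv_gam, gamInv_gam] at h2
  have h3 := congrArg (fun v => ((P⁻¹ : GL (Fin n) F) : Matrix (Fin n) (Fin n) F) *ᵥ v) h2
  simpa only [gl_inv_mul] using h3

theorem stw_comm {g' : GL (Fin n) F} {σ' : F ≃+* F} (w : GL (Fin n) F₀)
    (h : semiMat g' σ' ((cmp ι P P w : GL (Fin n) F) : Matrix (Fin n) (Fin n) F) = ((cmp ι P P w : GL (Fin n) F) : Matrix (Fin n) (Fin n) F))
    (v : Fin n → F) :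
    ((w : Matrix (Fin n) (Fin n) F₀).map ι) *ᵥ stw P g' σ' v = stw P g' σ' (((w : Matrix (Fin n) (Fin n) F₀).map ι) *ᵥ v) := by
  have h1 := semiMat_gam g' σ' ((cmp ι P P w : GL (Fin n) F) : Matrix (Fin n) (Fin n) F) ((P : Matrix (Fin n) (Fin n) F) *ᵥ v)
  have hs : ∀ u : Fin n → F, ((cmp ι P P w : GL (Fin n) F) : Matrix (Fin n) (Fin n) F) *ᵥ ((P : Matrix (Fin n) (Fin n) F) *ᵥ u) =
      (P : Matrix (Fin n) (Fin n) F) *ᵥ (((w : Matrix (Fin n) (Fin n) F₀).map ι) *ᵥ u) := by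
    intro u
    rw [cmp_coe, ← Matrix.mulVec_mulVec, gl_inv_mul, ← Matrix.mulVec_mulVec]
  rw [hs, h, cmp_coe] at h1
  rw [stw, stw, ← h1]
  simp only [← Matrix.mulVec_mulVec, gl_inv_mul]

section main

variable {r : ℕ} [hr : Fact r.Prime] [hch : CharP F r]
include hr hch

/-- An automorphism of odd order trivial on the isometries is trivial. -/
theorem hB_of_claim (hF : Fintype.card F = q ^ 2) (hn : 3 ≤ n) (h32 : ¬ (n = 3 ∧ q = 2)) (hR : Rep hF ι g P B ν l) (hg : g ∈ GU n F q)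
    (𝒮 : Set (ratG B)) (hunip : ∀ w ∈ 𝒮, ∃ k, w ^ r ^ k = 1)
    (hclaim : ∀ (S : (Fin n → F) → (Fin n → F)) (σ' : F ≃+* F), (∀ x y, S (x + y) = S x + S y) → (∀ (c : F) x, S (c • x) = σ' c • S x) →
      Function.Injective S → (∀ w ∈ 𝒮, ∀ v, ((w.1 : Matrix (Fin n) (Fin n) F₀).map ι) *ᵥ S v = S (((w.1 : Matrix (Fin n) (Fin n) F₀).map ι) *ᵥ v)) →
      ∃ lam : F, lam ≠ 0 ∧ (∀ x, S (lv ι x) = lam • lv ι x) ∧ ∀ b, σ' (ι b) = ι b)
    (β' : MulAut (PSU n F q)) (hodd : Odd (orderOf β')) (hfix : ∀ k ∈ fixP (semiAut hg (tauE hF)), β' k = k) : β' = 1 := by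
  have hn1 : 1 ≤ n := by omega
  obtain ⟨g', hg', σ', rfl⟩ := exists_semi' (p := r) hF hn h32 β'
  -- commutation
  have hcomm : ∀ w ∈ 𝒮, ∀ v, ((w.1 : Matrix (Fin n) (Fin n) F₀).map ι) *ᵥ stw P g' σ' v =
      stw P g' σ' (((w.1 : Matrix (Fin n) (Fin n) F₀).map ι) *ᵥ v) := by
    intro w hw v
    apply stw_comm
    obtain ⟨k, hk⟩ := hunip w hw
    have h1 : semiAut hg' σ' (piT n F q (sU hR w)) = piT n F q (sU hR w) := hfix _ (semiAut_sU hR hg w)
    rw [semiAut_pi] at h1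
    have h2 : (sU hR w) ^ r ^ k = 1 := by rw [← map_pow, hk, map_one]
    have h3 : (semiSU hg' σ' (sU hR w)) ^ r ^ k = 1 := by rw [← map_pow, h2, map_one]
    have h4 := eq_of_piT_eq (p := r) hF hn1 h3 h2 h1
    exact congrArg (fun t : SU n F q => (t.1.1 : Matrix (Fin n) (Fin n) F)) h4
  obtain ⟨lam, hlam0, hlam, hσι⟩ := hclaim (stw P g' σ') σ' (stw_add P g' σ') (stw_smul P g' σ') (stw_inj P g' σ') hcomm
  -- the field part
  have hσ2 : σ' ^ 2 = 1 := by
    apply pow_eq_one_of_fix' (tauE hF) σ' (orderOf_tauE hF)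
    intro a ha
    obtain ⟨x, rfl⟩ := hR.emb.surj a ha
    exact hσι x
  obtain ⟨Φ, hΦ⟩ := exists_fieldPart (p := r) hF hn h32
  have hσo : σ' ^ orderOf (semiAut hg' σ') = 1 := by
    have h1 := map_pow Φ (semiAut hg' σ') (orderOf (semiAut hg' σ'))
    rw [pow_orderOf_eq_one, map_one, hΦ g' hg' σ'] at h1
    exact h1.symm
  have hσ1 : σ' = 1 := by
    have h1 : orderOf σ' ∣ 2 := orderOf_dvd_of_pow_eq_one hσ2
    have h2 : orderOf σ' ∣ orderOf (semiAut hg' σ') := orderOf_dvd_of_pow_eq_one hσo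
    have h3 : orderOf σ' ∣ Nat.gcd 2 (orderOf (semiAut hg' σ')) := Nat.dvd_gcd h1 h2
    rw [(hodd.coprime_two_left : Nat.Coprime 2 _), Nat.dvd_one, orderOf_eq_one_iff] at h3
    exact h3
  subst hσ1
  -- the matrix part
  have hPg : (g' : Matrix (Fin n) (Fin n) F) = lam • 1 := by
    apply Matrix.mulVec_injective
    funext y
    have hrefl : ∀ v : Fin n → F, gam g' (1 : F ≃+* F) v = (g' : Matrix (Fin n) (Fin n) F) *ᵥ v := fun v => rfl
    -- on rational vectors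
    have h1 : ∀ x, ((P⁻¹ * g' * P : GL (Fin n) F) : Matrix (Fin n) (Fin n) F) *ᵥ lv ι x = lam • lv ι x := by
      intro x
      rw [← hlam x, stw, hrefl, Units.val_mul, Units.val_mul, Matrix.mulVec_mulVec]
      simp only [← Matrix.mulVec_mulVec]
    have h2 : ((P⁻¹ * g' * P : GL (Fin n) F) : Matrix (Fin n) (Fin n) F) = lam • 1 := by
      ext i j
      have h3 := h1 (Pi.single j 1)
      have h4 : lv ι (Pi.single j (1 : F₀)) = (Pi.single j 1 : Fin n → F) := by
        ext k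
        by_cases hk : k = j
        · subst hk
          simp [lv]
        · simp [lv, hk]
      rw [h4, Matrix.mulVec_single_one] at h3
      have h5 := congrFun h3 i
      simp only [Matrix.col_apply, Pi.smul_apply, smul_eq_mul, Pi.single_apply, Matrix.smul_apply, Matrix.one_apply] at h5 ⊢
      exact h5
    have h3 : g' = P * (P⁻¹ * g' * P) * P⁻¹ := by group
    have h4 : (P : Matrix (Fin n) (Fin n) F) * ((P⁻¹ : GL (Fin n) F) : Matrix (Fin n) (Fin n) F) = 1 := by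
      rw [← Units.val_mul, mul_inv_cancel, Units.val_one]
    conv_lhs => rw [h3, Units.val_mul, Units.val_mul, h2, Matrix.mul_smul, Matrix.mul_one, Matrix.smul_mul, h4]
  set lam' : Fˣ := Units.mk0 lam hlam0 with hlam'
  have hgc : g' = Matrix.GeneralLinearGroup.scalar (Fin n) lam' := by
    apply Units.ext
    rw [scalar_coe, hPg]
    rfl
  exact semiAut_scalar_one (norm_of_scalar_mem hF hn1 hg' hgc) hg' hgc

end main

end Cfsg.Agent.Lib.BalPSU
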