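import Cfsg.Agent.Lib.BalPSU.SympInst
import Cfsg.Agent.Lib.BalMinus.Core

/-!
# Local balance for `PSU`: involutory graph automorphisms

In odd characteristic, an involution of `Aut(PSU_n(q))` with non-trivial field part has no non-trivial normal subgroup of
odd order in its centraliser, and it has fixed points of even number.
-/

set_option autoImplicit false
set_option linter.unusedSectionVars false
set_option linter.unusedSimpArgs false
set_option linter.unusedVariables false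
set_option linter.style.haveILetI false

namespace Cfsg.Agent.Lib.BalPSU

open Module Matrix Cfsg Cfsg.Agent.Lib.SUGen Cfsg.Agent.Lib.HermForm Cfsg.Agent.Lib.HermOrtho
open Cfsg.Agent.Lib.Hilbert90 Cfsg.Agent.Lib.AutPSU Cfsg.Agent.Lib.AutPSU.GB
open Cfsg.Agent.Lib.AutPOm (fixP mem_fixP core_ne_bot_iff')
open Cfsg.Agent.Lib.AutPSL (glMap glMap_coe nrm nrm_succ nrm_succ' glMap_scalar scalar_coe dg dg_coe dg_det)
open scoped MatrixGroups

variable {F : Type*} [Field F] [Fintype F] {q n : ℕ}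

local notation "sc" => Matrix.GeneralLinearGroup.scalar (Fin n)

/-- The number of fixed points of an involutory automorphism has the parity of the group. -/
theorem two_dvd_card_fix {K : Type*} [Group K] [Finite K] (x : MulAut K) (hx : x ^ 2 = 1) (hK : 2 ∣ Nat.card K) :
    2 ∣ Nat.card (fixP x) := by
  classical
  haveI : Fintype K := Fintype.ofFinite K
  haveI : Fact (Nat.Prime 2) := ⟨Nat.prime_two⟩
  let f : Function.End K := (x : K → K)
  have hf : f ^ 2 ^ 1 = 1 := by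
    funext y
    have h1 := DFunLike.congr_fun hx y
    rw [pow_two] at h1
    rw [pow_one, pow_two]
    exact h1
  have h1 := Equiv.Perm.card_fixedPoints_modEq hf
  rw [Nat.card_eq_fintype_card] at hK
  have h2 : Nat.card (fixP x) = Fintype.card f.fixedPoints := by
    rw [← Nat.card_eq_fintype_card]
    apply Nat.card_congr
    exact Equiv.subtypeEquivRight (fun y => Iff.rfl)
  rw [h2]
  exact (Nat.modEq_zero_iff_dvd.1 (h1.symm.trans (Nat.modEq_zero_iff_dvd.2 hK)))

section even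

variable {r : ℕ} [hr : Fact r.Prime] [hch : CharP F r]

/-- `PSU` has even order in odd characteristic. -/
theorem two_dvd_card_PSU (hF : Fintype.card F = q ^ 2) (hn : 3 ≤ n) (h2 : (2 : F) ≠ 0) : 2 ∣ Nat.card (PSU n F q) := by
  haveI : Fact (Nat.Prime 2) := ⟨Nat.prime_two⟩
  have hn1 : 1 ≤ n := by omega
  let i₀ : Fin n := ⟨0, by omega⟩
  let i₁ : Fin n := ⟨1, by omega⟩
  let i₂ : Fin n := ⟨2, by omega⟩
  have h01 : i₀ ≠ i₁ := by simp [i₀, i₁, Fin.ext_iff]
  have h02 : i₀ ≠ i₂ := by simp [i₀, i₂, Fin.ext_iff]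
  have h12 : i₁ ≠ i₂ := by simp [i₁, i₂, Fin.ext_iff]
  have hm : ((-1 : Fˣ) : F) * ((-1 : Fˣ) : F) ^ q = 1 := by
    have h1 : ((-1 : F)) ^ q = -1 := by
      rw [← tauE_apply hF, map_neg, map_one]
    simp [h1]
  set D : GL (Fin n) F := dg i₀ (-1) * dg i₁ (-1) with hD
  have hDmem : D ∈ GU n F q := mul_mem (dg_mem _ hm) (dg_mem _ hm)
  have hDd : (D : Matrix (Fin n) (Fin n) F) = Matrix.diagonal (fun i => (if i = i₀ then (-1 : F) else 1) * (if i = i₁ then (-1 : F) else 1)) := by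
    rw [hD, Units.val_mul, dg_coe, dg_coe, Matrix.diagonal_mul_diagonal]
    congr 1
  have hDdet : (D : Matrix (Fin n) (Fin n) F).det = 1 := by
    have h1 : Matrix.GeneralLinearGroup.det (dg i₀ (-1 : Fˣ)) = -1 := dg_det _ _
    have h3 : Matrix.GeneralLinearGroup.det (dg i₁ (-1 : Fˣ)) = -1 := dg_det _ _
    have h4 : Matrix.GeneralLinearGroup.det D = 1 := by
      rw [hD, map_mul, h1, h3]
      simp
    exact congrArg Units.val h4
  let s : SU n F q := ⟨⟨(D : Matrix (Fin n) (Fin n) F), hDdet⟩, fun u v => hDmem u v⟩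
  have hsv : (s.1.1 : Matrix (Fin n) (Fin n) F) = D := rfl
  have hs2 : s ^ 2 = 1 := by
    apply Subtype.ext
    apply Subtype.ext
    change (D : Matrix (Fin n) (Fin n) F) ^ 2 = 1
    rw [hDd, Matrix.diagonal_pow, ← Matrix.diagonal_one]
    congr 1
    funext i
    simp only [Pi.pow_apply]
    by_cases h1 : i = i₀ <;> by_cases h3 : i = i₁ <;> simp [h1, h3]
  have hne : piT n F q s ≠ 1 := by
    intro h1
    have hz : s ∈ Subgroup.center (SU n F q) := (QuotientGroup.eq_one_iff s).1 h1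
    obtain ⟨μ, hμ⟩ := center_act hF hn1 hz
    have hact : ∀ j, act s (Pi.single j 1) j = (if j = i₀ then (-1 : F) else 1) * (if j = i₁ then (-1 : F) else 1) := by
      intro j
      rw [act_def, hsv, hDd, Matrix.mulVec_diagonal]
      simp
    have e0 := hact i₀
    have e2 := hact i₂
    rw [hμ] at e0 e2
    simp [h01, h02.symm, h12.symm] at e0 e2
    apply h2
    rw [e0] at e2
    linear_combination -e2
  have ho : orderOf (piT n F q s) = 2 := orderOf_eq_prime (by rw [← map_pow, hs2, map_one]) hne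
  rw [← ho]
  exact orderOf_dvd_natCard _

end even

section main

variable {r : ℕ} [hr : Fact r.Prime] [hch : CharP F r]
include hr hch

/-- No non-trivial normal subgroup of odd order in the centraliser of an involutory graph automorphism. -/
theorem inv_case (hF : Fintype.card F = q ^ 2) (hn : 3 ≤ n) (h32 : ¬ (n = 3 ∧ q = 2)) (h2 : (2 : F) ≠ 0) {g : GL (Fin n) F}
    (hg : g ∈ GU n F q) {μ : Fˣ} (hμ : g * glMap (tauE hF) g = sc μ) (A : Subgroup (MulAut (PSU n F q)))
    (hinn : ∀ k : PSU n F q, MulAut.conj k ∈ A) :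
    Cfsg.pPrimeCore 2 ↥(A ⊓ Subgroup.centralizer {semiAut hg (tauE hF)}) = ⊥ := by
  classical
  have hn1 : 1 ≤ n := by omega
  haveI : Fintype (fixedF (tauE hF)) := Fintype.ofFinite _
  set F₀ := fixedF (tauE hF) with hF₀
  let ι : F₀ →+* F := (fixedF (tauE hF)).subtype
  have hι : Emb hF ι := ⟨fun x => x.2, fun y hy => ⟨⟨y, hy⟩, rfl⟩⟩
  haveI : CharP F₀ r := RingHom.charP ι ι.injective r
  have h2₀ : (2 : F₀) ≠ 0 := by
    intro h0
    apply h2
    have := congrArg ι h0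
    rwa [map_ofNat, map_zero] at this
  obtain ⟨B, P, ν, l, hPg, hP⟩ := exists_form_of_inv hn1 hι hg hμ
  have hR : Rep hF ι g P B ν l := ⟨hι, hPg, hP⟩
  obtain ⟨c, hc⟩ := form_symm_of_rep hn1 hι (B := B) ⟨P, ν, l, hPg, hP⟩
  have hc2 : (c : F₀) * c = 1 := by
    have h1 := congrArg Matrix.transpose hc
    rw [Matrix.transpose_transpose, Matrix.transpose_smul, hc, smul_smul] at h1
    obtain ⟨i, j, hij⟩ := exists_entry_ne_zero hn1 B
    have h3 := congrFun (congrFun h1 i) j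
    simp only [Matrix.smul_apply, smul_eq_mul] at h3
    apply mul_right_cancel₀ hij
    rw [one_mul]
    exact h3.symm
  have hcent := center_PSU_eq_bot (p := r) hF hn h32
  -- the two cases
  have key : (∃ 𝒮 : Set (ratG B), (∀ w ∈ 𝒮, ∃ k, w ^ r ^ k = 1) ∧
      (∀ T : Subgroup (ratG B),
        (∀ h ∈ T, ∃ m, Odd m ∧ ∃ a : F₀, a * a = 1 ∧ ((h ^ m : ratG B).1 : Matrix (Fin n) (Fin n) F₀) = a • 1) →
        (∀ s ∈ 𝒮, ∀ h ∈ T, s * h * s⁻¹ ∈ T) → ∀ h ∈ T, ∃ a : F₀, (h.1 : Matrix (Fin n) (Fin n) F₀) = a • 1) ∧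
      (∀ (S : (Fin n → F) → (Fin n → F)) (σ' : F ≃+* F), (∀ x y, S (x + y) = S x + S y) → (∀ (c : F) x, S (c • x) = σ' c • S x) →
        Function.Injective S → (∀ w ∈ 𝒮, ∀ v, ((w.1 : Matrix (Fin n) (Fin n) F₀).map ι) *ᵥ S v = S (((w.1 : Matrix (Fin n) (Fin n) F₀).map ι) *ᵥ v)) →
        ∃ lam : F, lam ≠ 0 ∧ (∀ x, S (lv ι x) = lam • lv ι x) ∧ ∀ b, σ' (ι b) = ι b)) := by
    rcases mul_self_eq_one_iff.1 hc2 with hc1 | hc1
    · have hsym : (B : Matrix (Fin n) (Fin n) F₀)ᵀ = B := by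
        rw [hc, hc1, one_smul]
      exact ⟨sgS B, fun w hw => ⟨1, sgS_pow (r := r) h2₀ hsym hw⟩, fun T h1 h3 => orth_core (r := r) h2₀ hsym hn T h1 h3,
        fun S σ' h1 h3 h4 h5 => orth_claim (r := r) h2₀ hsym hn h1 h3 h4 h5⟩
    · have hskew : (B : Matrix (Fin n) (Fin n) F₀)ᵀ = -(B : Matrix (Fin n) (Fin n) F₀) := by
        rw [hc, hc1, neg_one_smul]
      exact ⟨sgT B, fun w hw => ⟨1, sgT_pow (r := r) h2₀ hskew hw⟩, fun T h1 h3 => symp_core (r := r) h2₀ hskew hn1 T h1 h3,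
        fun S σ' h1 h3 h4 h5 => symp_claim (r := r) h2₀ hskew hn1 h1 h3 h4 h5⟩
  obtain ⟨𝒮, hunip, hcore, hclaim⟩ := key
  by_contra hne
  obtain ⟨N, hN, hcop, hNne⟩ := (core_ne_bot_iff' 2).1 hne
  apply hNne
  refine Cfsg.Agent.Lib.BalMinus.no_core hcent _ A hinn ?_ ?_ N hN hcop
  · intro M hMfix hMn hodd
    exact hA_of_core (p := r) hn1 hR hg 𝒮 hcore M hMfix hMn hodd
  · intro β' _ hodd hfix
    exact Or.inl (hB_of_claim (r := r) hF hn h32 hR hg 𝒮 hunip hclaim β' hodd hfix)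

end main

end Cfsg.Agent.Lib.BalPSU
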