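import Cfsg.Agent.Lib.BalPSU.Invol

/-!
# Local balance for `PSU`: semilinear isometries preserving the rational isotropic lines
-/

set_option autoImplicit false
set_option linter.unusedSectionVars false
set_option linter.unusedSimpArgs false
set_option linter.unusedVariables false
set_option linter.style.haveILetI false

namespace Cfsg.Agent.Lib.BalPSU

open Module Matrix Cfsg Cfsg.Agent.Lib.SUGen Cfsg.Agent.Lib.HermForm Cfsg.Agent.Lib.HermOrtho
open Cfsg.Agent.Lib.Hilbert90 Cfsg.Agent.Lib.AutPSU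
open scoped MatrixGroups

variable {F : Type*} [Field F] [Fintype F] {q n : ℕ}
variable {F₁ : Type*} [Field F₁] [Fintype F₁] {q₀ : ℕ}

local notation "⟪" x ", " y "⟫" => hermForm n F q x y
local notation "⟪" x ", " y "⟫₀" => hermForm n F₁ q₀ x y

variable {ι : F₁ →+* F}

theorem herm_lv (hι : ∀ a, ι (a ^ q₀) = (ι a) ^ q) (x y : Fin n → F₁) : ⟪lv ι x, lv ι y⟫ = ι (⟪x, y⟫₀) := by
  simp only [hermForm, lv, map_sum, map_mul, hι]

/-- A semilinear isometry preserving the rational isotropic lines is a scalar on the rational vectors. -/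
theorem claim_lines {r : ℕ} [hr : Fact r.Prime] [hch : CharP F₁ r] (hF : Fintype.card F = q ^ 2) (hF₁ : Fintype.card F₁ = q₀ ^ 2)
    (hι : ∀ a, ι (a ^ q₀) = (ι a) ^ q) (hn : 3 ≤ n) {S : (Fin n → F) → (Fin n → F)} {σ' : F ≃+* F}
    (hadd : ∀ x y, S (x + y) = S x + S y) (hsmul : ∀ (c : F) x, S (c • x) = σ' c • S x) (hinj : Function.Injective S)
    (hherm : ∀ v w, ⟪S v, S w⟫ = σ' ⟪v, w⟫)
    (hlines : ∀ e : Fin n → F₁, ⟪e, e⟫₀ = 0 → ∃ μ : F, S (lv ι e) = μ • lv ι e) :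
    ∃ lam : F, lam ≠ 0 ∧ (∀ x, S (lv ι x) = lam • lv ι x) ∧ ∀ b, σ' (ι b) = ι b := by
  classical
  have hS0 : S 0 = 0 := by
    have := hadd 0 0
    rw [add_zero] at this
    exact left_eq_add.1 this
  have hS0' : ∀ x, lv ι x ≠ 0 → S (lv ι x) ≠ 0 := by
    intro x hx h0
    apply hx
    apply hinj
    rw [h0, hS0]
  have hh : ∀ x y, ⟪lv ι x, lv ι y⟫ = ι (⟪x, y⟫₀) := herm_lv hι
  obtain ⟨e, he0, hee⟩ := exists_iso_vec (p := r) hF₁ hn
  obtain ⟨f, hff, hfe⟩ := exists_hyp hF₁ he0 hee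
  have hyp : Hyp (q := q₀) e f := ⟨hee, hff, hfe⟩
  have hef : ⟪e, f⟫₀ = 1 := hyp.ef hF₁
  obtain ⟨μe, hμe⟩ := hlines e hee
  obtain ⟨μf, hμf⟩ := hlines f hff
  have hf0 : f ≠ 0 := hyp.f_ne hF₁
  have hE0 : lv ι e ≠ 0 := fun h0 => he0 (lv_eq_zero h0)
  have hF0 : lv ι f ≠ 0 := fun h0 => hf0 (lv_eq_zero h0)
  have hμe0 : μe ≠ 0 := by
    rintro rfl
    rw [zero_smul] at hμe
    exact hS0' e hE0 hμe
  have hμf0 : μf ≠ 0 := by
    rintro rfl
    rw [zero_smul] at hμf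
    exact hS0' f hF0 hμf
  have hEF : ⟪lv ι e, lv ι f⟫ = 1 := by rw [hh, hef, map_one]
  have hFE : ⟪lv ι f, lv ι e⟫ = 1 := by rw [hh, hfe, map_one]
  have hEE : ⟪lv ι e, lv ι e⟫ = 0 := by rw [hh, hee, map_zero]
  have hFF : ⟪lv ι f, lv ι f⟫ = 0 := by rw [hh, hff, map_zero]
  have hq : 2 ≤ q := HermCount.two_le_q hF
  -- the nonsingular vectors
  have stepC : ∀ z, ⟪z, e⟫₀ = 0 → ⟪z, f⟫₀ = 0 → ⟪z, z⟫₀ ≠ 0 →
      S (lv ι z) = μe • lv ι z ∧ μf = μe ∧ ∀ b, σ' (ι b) = ι b := by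
    intro z hze hzf hz
    set ν := ⟪z, z⟫₀ with hν
    have hνq : ν ^ q₀ = ν := herm_conj' hF₁ z z
    have hez : ⟪e, z⟫₀ = 0 := conj_zero' hF₁ hze
    have hfz : ⟪f, z⟫₀ = 0 := conj_zero' hF₁ hzf
    have hZE : ⟪lv ι z, lv ι e⟫ = 0 := by rw [hh, hze, map_zero]
    have hZF : ⟪lv ι z, lv ι f⟫ = 0 := by rw [hh, hzf, map_zero]
    have hEZ : ⟪lv ι e, lv ι z⟫ = 0 := by rw [hh, hez, map_zero]
    have hFZ : ⟪lv ι f, lv ι z⟫ = 0 := by rw [hh, hfz, map_zero]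
    have hZZ : ⟪lv ι z, lv ι z⟫ = ι ν := by rw [hh]
    have hιν : ι ν ≠ 0 := (map_ne_zero ι).2 hz
    have hSZE : ⟪S (lv ι z), lv ι e⟫ = 0 := by
      have h1 := hherm (lv ι z) (lv ι e)
      rw [hZE, map_zero, hμe, hermForm_smul_right] at h1
      exact (mul_eq_zero.1 h1).resolve_left (pow_ne_zero _ hμe0)
    have hSZF : ⟪S (lv ι z), lv ι f⟫ = 0 := by
      have h1 := hherm (lv ι z) (lv ι f)
      rw [hZF, map_zero, hμf, hermForm_smul_right] at h1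
      exact (mul_eq_zero.1 h1).resolve_left (pow_ne_zero _ hμf0)
    have key : ∀ b : F₁, ∃ a : F₁, a + a ^ q₀ + b * b ^ q₀ * ν = 0 ∧ σ' (ι a) * μf = μe * ι a ∧ σ' (ι b) • S (lv ι z) = (μe * ι b) • lv ι z := by
      intro b
      have htr : (-(b * b ^ q₀ * ν)) ^ q₀ = -(b * b ^ q₀ * ν) := by
        rw [HermForm.neg_pow_q hF₁, mul_pow, mul_pow, pow_q_q hF₁, hνq]
        ring
      obtain ⟨a, ha⟩ := Cfsg.Agent.Lib.UnitaryE.exists_trace_eq hF₁ htr
      have ha' : a + a ^ q₀ + b * b ^ q₀ * ν = 0 := by linear_combination ha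
      set X := e + a • f + b • z with hX
      have hXX : ⟪X, X⟫₀ = 0 := by
        rw [hX]
        simp only [hermForm_add_left, hermForm_add_right hF₁, hermForm_smul_left, hermForm_smul_right, hee, hff, hef, hfe, hez, hfz, hze, hzf, ← hν]
        linear_combination ha'
      obtain ⟨μ, hμ⟩ := hlines X hXX
      have hlX : lv ι X = lv ι e + ι a • lv ι f + ι b • lv ι z := by
        rw [hX, lv_add, lv_add, lv_smul, lv_smul]
      rw [hlX, hadd, hadd, hsmul, hsmul, hμe, hμf] at hμ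
      have P1 := congrArg (fun v => ⟪v, lv ι f⟫) hμ
      have P2 := congrArg (fun v => ⟪v, lv ι e⟫) hμ
      simp only [hermForm_add_left, hermForm_smul_left, hEF, hFF, hZF, hSZF, hEE, hFE, hZE, hSZE, mul_zero, add_zero, zero_add, mul_one] at P1 P2
      have hμμ : μ = μe := P1.symm
      rw [hμμ] at P2 hμ
      refine ⟨a, ha', P2, ?_⟩
      have h5 : σ' (ι b) • S (lv ι z) = μe • (lv ι e + ι a • lv ι f + ι b • lv ι z) - μe • lv ι e - σ' (ι a) • μf • lv ι f := by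
        rw [← hμ]
        abel
      rw [h5, smul_smul, P2]
      module
    obtain ⟨a₁, ha₁, ha₁', h1⟩ := key 1
    rw [map_one, map_one, one_smul, mul_one] at h1
    have hσ : ∀ b, σ' (ι b) = ι b := by
      intro b
      obtain ⟨-, -, -, h3⟩ := key b
      rw [h1, smul_smul] at h3
      have h4 := congrArg (fun v => ⟪v, lv ι z⟫) h3
      simp only [hermForm_smul_left, hZZ] at h4
      have hne : μe * ι ν ≠ 0 := mul_ne_zero hμe0 hιν
      apply mul_right_cancel₀ hne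
      linear_combination h4
    refine ⟨h1, ?_, hσ⟩
    have ha₁0 : a₁ ≠ 0 := by
      rintro rfl
      rw [zero_pow (by have := HermCount.two_le_q hF₁; omega)] at ha₁
      apply hz
      linear_combination ha₁
    rw [hσ] at ha₁'
    apply mul_left_cancel₀ ((map_ne_zero ι).2 ha₁0)
    linear_combination ha₁'
  -- a nonsingular vector
  obtain ⟨z₀, hz₀, hz₀1⟩ := hyp.exists_norm_one hF₁ hn
  have hz₀3 : ⟪z₀, z₀⟫₀ ≠ 0 := by rw [hz₀1]; exact one_ne_zero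
  have hfeq : μf = μe := (stepC z₀ hz₀.1 hz₀.2 hz₀3).2.1
  have hσ : ∀ b, σ' (ι b) = ι b := (stepC z₀ hz₀.1 hz₀.2 hz₀3).2.2
  -- the complement
  have stepD : ∀ z, ⟪z, e⟫₀ = 0 → ⟪z, f⟫₀ = 0 → S (lv ι z) = μe • lv ι z := by
    intro z hze hzf
    by_cases hz : ⟪z, z⟫₀ = 0
    · obtain ⟨μ₁, hμ₁⟩ := hlines z hz
      have hez : ⟪e, z⟫₀ = 0 := conj_zero' hF₁ hze
      have hs : ⟪e + z, e + z⟫₀ = 0 := by
        simp only [hermForm_add_left, hermForm_add_right hF₁, hee, hez, hze, hz, add_zero]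
      obtain ⟨μ, hμ⟩ := hlines _ hs
      rw [lv_add, hadd, hμe, hμ₁] at hμ
      have hZF : ⟪lv ι z, lv ι f⟫ = 0 := by rw [hh, hzf, map_zero]
      have h1 := congrArg (fun v => ⟪v, lv ι f⟫) hμ
      simp only [hermForm_add_left, hermForm_smul_left, hEF, hZF, mul_zero, add_zero, mul_one] at h1
      have h3 : μ = μe := h1.symm
      rw [h3] at hμ
      rw [hμ₁]
      have h4 : μ₁ • lv ι z = μe • (lv ι e + lv ι z) - μe • lv ι e := by
        rw [← hμ]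
        abel
      rw [h4]
      module
    · exact (stepC z hze hzf hz).1
  refine ⟨μe, hμe0, ?_, hσ⟩
  intro x
  have hp := hyp.proj_mem hF₁ x
  have h1 := stepD _ hp.1 hp.2
  have h3 : lv ι x = ι (⟪x, f⟫₀) • lv ι e + ι (⟪x, e⟫₀) • lv ι f + lv ι (x - ⟪x, f⟫₀ • e - ⟪x, e⟫₀ • f) := by
    conv_lhs => rw [Hyp.decomp hF₁ hyp x]
    rw [lv_add, lv_add, lv_smul, lv_smul]
  rw [h3, hadd, hadd, hsmul, hsmul, hσ, hσ, hμe, hμf, h1, hfeq]
  module

end Cfsg.Agent.Lib.BalPSU
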