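import Mathlib
import Cfsg.Agent.Lib.BalMinus.Orbit

/-!
# Dimension four: odd-order groups of isometries normalised by the Siegel transformations are scalar
-/

set_option autoImplicit false
set_option linter.unusedSectionVars false
set_option linter.unusedVariables false
set_option linter.unusedSimpArgs false
set_option linter.style.haveILetI false

namespace Cfsg.Agent.Lib.BalPSU

open QuadraticMap Cfsg.Agent.Lib.OrthoBasic Cfsg.Agent.Lib.OrthoSiegel Module Cfsg.Agent.Lib.BalMinus

variable {k W : Type*} [Field k] [AddCommGroup W] [Module k W] {Q : QuadraticForm k W}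
variable [FiniteDimensional k W]

/-- Vectors orthogonal to two orthogonal hyperbolic pairs vanish in dimension four. -/
lemma eq_zero_of_perp_four (hdim : finrank k W = 4) {u v u' v' y : W} (hu : Q u = 0) (hv : Q v = 0) (huv : polar Q u v = 1)
    (hu' : Q u' = 0) (hv' : Q v' = 0) (huv' : polar Q u' v' = 1)
    (h1 : polar Q u u' = 0) (h2 : polar Q u v' = 0) (h3 : polar Q v u' = 0) (h4 : polar Q v v' = 0)
    (hy1 : polar Q y v = 0) (hy2 : polar Q y u = 0) (hy3 : polar Q y v' = 0) (hy4 : polar Q y u' = 0) : y = 0 := by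
  have hvu : polar Q v u = 1 := by rw [polar_comm]; exact huv
  have hvu' : polar Q v' u' = 1 := by rw [polar_comm]; exact huv'
  have h1' : polar Q u' u = 0 := by rw [polar_comm]; exact h1
  have h2' : polar Q v' u = 0 := by rw [polar_comm]; exact h2
  have h3' : polar Q u' v = 0 := by rw [polar_comm]; exact h3
  have h4' : polar Q v' v = 0 := by rw [polar_comm]; exact h4
  let π : W →ₗ[k] (Fin 4 → k) :=
    { toFun := fun y => ![polar Q y v, polar Q y u, polar Q y v', polar Q y u']
      map_add' := fun x y => by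
        ext i
        fin_cases i <;> simp [polar_add_left]
      map_smul' := fun c x => by
        ext i
        fin_cases i <;> simp [polar_smul_l] }
  have hsurj : Function.Surjective π := by
    intro a
    refine ⟨a 0 • u + a 1 • v + a 2 • u' + a 3 • v', ?_⟩
    ext i
    fin_cases i
    · simp [π, polar_add_left, polar_smul_l, huv, polar_self_zero hv, h3', h4']
    · simp [π, polar_add_left, polar_smul_l, hvu, polar_self_zero hu, h1', h2']
    · simp [π, polar_add_left, polar_smul_l, huv', polar_self_zero hv', h2, h4]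
    · simp [π, polar_add_left, polar_smul_l, hvu', polar_self_zero hu', h1, h3]
  have hinj : Function.Injective π := by
    apply (LinearMap.injective_iff_surjective_of_finrank_eq_finrank (by simp [hdim])).2 hsurj
  apply hinj
  rw [map_zero]
  ext i
  fin_cases i
  · simpa [π] using hy1
  · simpa [π] using hy2
  · simpa [π] using hy3
  · simpa [π] using hy4

/-- In dimension four, the vectors orthogonal to a totally singular plane lie in the plane. -/
lemma mem_plane_of_perp (hQ : Nondeg Q) (hdim : finrank k W = 4) {u₀ u₁ w : W} (h₀ : Q u₀ = 0) (h₁ : Q u₁ = 0) (h00 : u₀ ≠ 0)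
    (hind : ∀ c : k, u₁ ≠ c • u₀) (hp : polar Q u₀ u₁ = 0) (hw0 : polar Q w u₀ = 0) (hw1 : polar Q w u₁ = 0) :
    ∃ α β : k, w = α • u₀ + β • u₁ := by
  have h10 : u₁ ≠ 0 := by
    have := hind 0
    simpa using this
  have hind' : ∀ c : k, u₀ ≠ c • u₁ := by
    intro c hc
    by_cases hc0 : c = 0
    · rw [hc0, zero_smul] at hc
      exact h00 hc
    · apply hind c⁻¹
      rw [hc, smul_smul, inv_mul_cancel₀ hc0, one_smul]
  have hp' : polar Q u₁ u₀ = 0 := by rw [polar_comm]; exact hp
  have h00' := polar_self_zero h₀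
  have h11' := polar_self_zero h₁
  obtain ⟨y, hy0, hy1⟩ := exists_perp_not_perp hQ h00 hind
  obtain ⟨v₁, hv₁⟩ : ∃ v₁, v₁ = y - Q y • u₁ := ⟨_, rfl⟩
  have hv₁Q : Q v₁ = 0 := by
    rw [hv₁, Q_sub, Q_smul, h₁, polar_smul_r, polar_comm Q y u₁, hy1]
    ring
  have hv₁1 : polar Q u₁ v₁ = 1 := by
    rw [hv₁, polar_sub_right, polar_smul_r, h11', hy1]
    ring
  have hv₁0 : polar Q u₀ v₁ = 0 := by
    rw [hv₁, polar_sub_right, polar_smul_r, hp, hy0]
    ring
  obtain ⟨y', hy'1, hy'0⟩ := exists_perp_not_perp hQ h10 hind'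
  obtain ⟨y'', hy''⟩ : ∃ y'', y'' = y' - polar Q y' v₁ • u₁ := ⟨_, rfl⟩
  have hy''1 : polar Q u₁ y'' = 0 := by
    rw [hy'', polar_sub_right, polar_smul_r, h11', hy'1]
    ring
  have hy''0 : polar Q u₀ y'' = 1 := by
    rw [hy'', polar_sub_right, polar_smul_r, hp, hy'0]
    ring
  have hy''v : polar Q y'' v₁ = 0 := by
    rw [hy'', polar_sub_left, polar_smul_l, hv₁1]
    ring
  obtain ⟨v₀, hv₀⟩ : ∃ v₀, v₀ = y'' - Q y'' • u₀ := ⟨_, rfl⟩
  have hv₀Q : Q v₀ = 0 := by
    rw [hv₀, Q_sub, Q_smul, h₀, polar_smul_r, polar_comm Q y'' u₀, hy''0]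
    ring
  have hv₀0 : polar Q u₀ v₀ = 1 := by
    rw [hv₀, polar_sub_right, polar_smul_r, h00', hy''0]
    ring
  have hv₀1 : polar Q v₀ u₁ = 0 := by
    rw [polar_comm, hv₀, polar_sub_right, polar_smul_r, hp', hy''1]
    ring
  have hv₀v : polar Q v₀ v₁ = 0 := by
    rw [hv₀, polar_sub_left, polar_smul_l, hv₁0, hy''v]
    ring
  have hv₀0' : polar Q v₀ u₀ = 1 := by rw [polar_comm]; exact hv₀0
  have hv₁1' : polar Q v₁ u₁ = 1 := by rw [polar_comm]; exact hv₁1
  refine ⟨polar Q w v₀, polar Q w v₁, ?_⟩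
  rw [← sub_eq_zero]
  apply eq_zero_of_perp_four hdim h₀ hv₀Q hv₀0 h₁ hv₁Q hv₁1 hp hv₁0 hv₀1 hv₀v
  · simp only [polar_sub_left, polar_add_left, polar_smul_l, hv₀0, polar_comm Q u₁ v₀, hv₀1]
    ring
  · simp only [polar_sub_left, polar_add_left, polar_smul_l, h00', hp', hw0]
    ring
  · simp only [polar_sub_left, polar_add_left, polar_smul_l, hv₁0, hv₁1]
    ring
  · simp only [polar_sub_left, polar_add_left, polar_smul_l, h11', hp, hw1]
    ring

section orbit

variable {T : Subgroup (OG Q)}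

/-- A hyperbolic related pair contradicts the parity. -/
lemma false_of_hyp [Finite k] (hQ : Nondeg Q) (h2 : (2 : k) ≠ 0) (hdim : 3 ≤ finrank k W)
    (hpm : ∀ h ∈ T, ∃ m, Odd m ∧ ∃ a : k, a * a = 1 ∧ ∀ y, ((h ^ m : OG Q) : W ≃ₗ[k] W) y = a • y)
    (hnorm : ∀ σ ∈ siegelSet Q, ∀ h ∈ T, σ * h * σ⁻¹ ∈ T) {a b u : W} (ha : Q a = 0) (hb : Q b = 0) (ha0 : a ≠ 0)
    (hab : polar Q a b ≠ 0) (hRab : Rel T a b) (hu : Q u = 0) (hu0 : u ≠ 0) : False := by
  classical
  have hdim2 : finrank k W ≠ 2 := by omega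
  have hall : ∀ x y : W, x ≠ 0 → y ≠ 0 → Q x = 0 → Q y = 0 → Rel T x y := fun x y hx0 hy0 hx hy =>
    rel_all hQ hdim2 hnorm ha hb ha0 hab hRab hx hy hx0 hy0
  haveI := finite_lns (Q := Q)
  haveI : MulAction.IsPretransitive T (Lns Q) := by
    refine ⟨fun l l' => ?_⟩
    obtain ⟨x, hx0, hx, hl⟩ := l.2
    obtain ⟨y, hy0, hy, hl'⟩ := l'.2
    obtain ⟨s, hs, c, hc, h⟩ := hall x y hx0 hy0 hx hy
    refine ⟨⟨s, hs⟩, Subtype.ext ?_⟩
    change l.1.map _ = l'.1
    rw [hl, hl', Submodule.map_span, Set.image_singleton]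
    change Submodule.span k {(s : W ≃ₗ[k] W) x} = _
    rw [h]
    exact Submodule.span_singleton_smul_eq (IsUnit.mk0 c hc) y
  set l₀ : Lns Q := mkLn hu0 hu with hl₀
  have hcard : Nat.card (Lns Q) = (MulAction.stabilizer T l₀).index := by
    rw [MulAction.index_stabilizer, MulAction.orbit_eq_univ, Set.ncard_univ]
  have hle : scalT T ≤ MulAction.stabilizer T l₀ := by
    rintro z ⟨c, hc, hz⟩
    rw [MulAction.mem_stabilizer_iff]
    apply Subtype.ext
    change l₀.1.map _ = l₀.1
    have hc0 : c ≠ 0 := by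
      rintro rfl
      simp at hc
    change (Submodule.span k {u}).map _ = Submodule.span k {u}
    rw [Submodule.map_span, Set.image_singleton]
    change Submodule.span k {(((z : T) : OG Q) : W ≃ₗ[k] W) u} = _
    rw [hz]
    exact Submodule.span_singleton_smul_eq (IsUnit.mk0 c hc0) u
  have hodd : Odd (Nat.card (Lns Q)) := by
    rw [hcard]
    exact Odd.of_dvd_nat (odd_index_scalT hpm) (Subgroup.index_dvd_of_le hle)
  exact (Nat.not_even_iff_odd.2 hodd) (even_card_lns hQ h2)

/-- The main theorem in dimension four. -/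
theorem main_scalar_four [Finite k] (hQ : Nondeg Q) (h2 : (2 : k) ≠ 0) (hdim : finrank k W = 4) (T : Subgroup (OG Q))
    (hpm : ∀ h ∈ T, ∃ m, Odd m ∧ ∃ a : k, a * a = 1 ∧ ∀ y, ((h ^ m : OG Q) : W ≃ₗ[k] W) y = a • y)
    (hnorm : ∀ σ ∈ siegelSet Q, ∀ h ∈ T, σ * h * σ⁻¹ ∈ T) :
    ∀ h ∈ T, ∃ a : k, a * a = 1 ∧ ∀ y, (h : W ≃ₗ[k] W) y = a • y := by
  classical
  intro t ht
  apply scalar_of_fix hQ h2 (by omega)
  by_contra hcon
  push Not at hcon
  obtain ⟨u, hu0, hu, hne⟩ := hcon
  have hR : Rel T u ((t : W ≃ₗ[k] W) u) := ⟨t, ht, 1, one_ne_zero, by simp⟩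
  set u₁ := (t : W ≃ₗ[k] W) u with hu₁
  have hu₁Q : Q u₁ = 0 := by rw [hu₁, OG_apply, hu]
  have hu₁0 : u₁ ≠ 0 := by
    have := hne 0
    simpa using this
  -- no hyperbolic relation
  have hnh : ∀ a b, Q a = 0 → Q b = 0 → a ≠ 0 → Rel T a b → polar Q a b = 0 := by
    intro a b ha hb ha0 hab
    by_contra hp
    exact false_of_hyp hQ h2 (by omega) hpm hnorm ha hb ha0 hp hab hu hu0
  have hp : polar Q u u₁ = 0 := hnh _ _ hu hu₁Q hu0 hR
  -- the orbit
  have hR1 : ∀ c : k, Rel T u (u₁ + c • u) := by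
    intro c
    obtain ⟨y₀, hy₀, hy₁⟩ := exists_perp_not_perp hQ hu0 hne
    have hy : polar Q u ((-c) • y₀) = 0 := by
      rw [polar_smul_r, hy₀, mul_zero]
    set σ := siegel hQ hu hy with hσ
    have hσm : σ ∈ siegelSet Q := ⟨_, _, siegel_isSiegel hQ hu hy⟩
    have hσ0 : (σ : W ≃ₗ[k] W) u = u := by
      rw [hσ, siegel_apply]
      exact siegelLin_self hu hy
    have hσ1 : (σ : W ≃ₗ[k] W) u₁ = u₁ + c • u := by
      rw [hσ, siegel_apply, siegelLin_apply, polar_comm Q u₁ u, hp, polar_smul_r, hy₁]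
      simp
    have h := hR.conj (hnorm σ hσm)
    rwa [hσ0, hσ1] at h
  have hQc : ∀ c : k, Q (u₁ + c • u) = 0 := by
    intro c
    rw [Q_add, Q_smul, hu, hu₁Q, polar_smul_r, polar_comm Q u₁ u, hp]
    ring
  have hne0 : ∀ c : k, u₁ + c • u ≠ 0 := by
    intro c h0
    apply hne (-c)
    rw [neg_smul]
    exact eq_neg_of_add_eq_zero_left h0
  haveI := finite_lns (Q := Q)
  let f : Option k → Lns Q := fun o => match o with
    | none => mkLn hu0 hu
    | some c => mkLn (hne0 c) (hQc c)
  have hf1 : ∀ c, (f (some c)).1 = Submodule.span k {u₁ + c • u} := fun c => rfl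
  have hf0 : (f none).1 = Submodule.span k {u} := rfl
  have hfinj : Function.Injective f := by
    intro a b hab
    have hab' := congrArg Subtype.val hab
    rcases a with _ | a <;> rcases b with _ | b
    · rfl
    · exfalso
      rw [hf0, hf1, Submodule.span_singleton_eq_span_singleton] at hab'
      obtain ⟨z, hz⟩ := hab'
      apply hne ((z : k) - b)
      have h3 : (z : k) • u = u₁ + b • u := by
        rw [← hz]
        rfl
      rw [sub_smul, h3]
      abel
    · exfalso
      rw [hf0, hf1, Submodule.span_singleton_eq_span_singleton] at hab'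
      obtain ⟨z, hz⟩ := hab'
      apply hne (((z : k)⁻¹) - a)
      have h3 : (z : k) • (u₁ + a • u) = u := hz
      have h4 : u₁ + a • u = (z : k)⁻¹ • u := by
        rw [eq_inv_smul_iff₀ z.ne_zero]
        exact h3
      rw [sub_smul, ← h4]
      abel
    · rw [hf1, hf1, Submodule.span_singleton_eq_span_singleton] at hab'
      obtain ⟨z, hz⟩ := hab'
      have h3 : (z : k) • (u₁ + a • u) = u₁ + b • u := hz
      have hz1 : (z : k) = 1 := by
        by_contra hz1
        have hz1' : (z : k) - 1 ≠ 0 := sub_ne_zero.2 hz1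
        apply hne ((b - z * a) / ((z : k) - 1))
        have h4 : ((z : k) - 1) • u₁ = (b - z * a) • u := by
          linear_combination (norm := module) h3
        rw [div_eq_inv_mul, mul_smul, ← h4, smul_smul, inv_mul_cancel₀ hz1', one_smul]
      rw [hz1, one_smul] at h3
      have h4 : (a - b) • u = 0 := by
        rw [sub_smul]
        have := add_left_cancel h3
        rw [this, sub_self]
      have h5 := (smul_eq_zero.1 h4).resolve_right hu0
      rw [sub_eq_zero.1 h5]
  set l₀ : Lns Q := mkLn hu0 hu with hl₀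
  have horb : MulAction.orbit T l₀ = Set.range f := by
    ext l
    constructor
    · rintro ⟨s, rfl⟩
      have hsR : Rel T u ((s.1 : W ≃ₗ[k] W) u) := ⟨s.1, s.2, 1, one_ne_zero, by simp⟩
      set w := (s.1 : W ≃ₗ[k] W) u with hw
      have hwQ : Q w = 0 := by rw [hw, OG_apply, hu]
      have hw0 : w ≠ 0 := (map_ne_zero_iff _ (LinearEquiv.injective _)).2 hu0
      have h3 : polar Q w u = 0 := by
        rw [polar_comm]
        exact hnh _ _ hu hwQ hu0 hsR
      have h4 : polar Q w u₁ = 0 := by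
        rw [polar_comm]
        exact hnh _ _ hu₁Q hwQ hu₁0 (hR.symm.trans hsR)
      obtain ⟨α, β, hαβ⟩ := mem_plane_of_perp hQ hdim hu hu₁Q hu0 hne hp h3 h4
      have hsl : ((s • l₀ : Lns Q)).1 = Submodule.span k {w} := smul_mkLn _ _ _
      by_cases hβ : β = 0
      · refine ⟨none, Subtype.ext ?_⟩
        change _ = (s • l₀ : Lns Q).1
        rw [hf0, hsl, hαβ, hβ, zero_smul, add_zero]
        have hα : α ≠ 0 := by
          rintro rfl
          apply hw0
          rw [hαβ, hβ]
          simp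
        exact (Submodule.span_singleton_smul_eq (IsUnit.mk0 α hα) u).symm
      · refine ⟨some (α / β), Subtype.ext ?_⟩
        change _ = (s • l₀ : Lns Q).1
        rw [hf1, hsl]
        have e : w = β • (u₁ + (α / β) • u) := by
          rw [hαβ, smul_add, smul_smul, mul_div_cancel₀ _ hβ]
          abel
        rw [e]
        exact (Submodule.span_singleton_smul_eq (IsUnit.mk0 β hβ) _).symm
    · rintro ⟨o, rfl⟩
      rcases o with _ | c
      · exact MulAction.mem_orbit_self _
      · obtain ⟨s, hs, d, hd, h⟩ := hR1 c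
        refine ⟨⟨s, hs⟩, Subtype.ext ?_⟩
        change (s • l₀ : Lns Q).1 = _
        have hsl : ((s • l₀ : Lns Q)).1 = Submodule.span k {(s : W ≃ₗ[k] W) u} := smul_mkLn _ _ _
        rw [hsl, h, hf1]
        exact Submodule.span_singleton_smul_eq (IsUnit.mk0 d hd) _
  have hcard : (MulAction.stabilizer T l₀).index = Nat.card k + 1 := by
    rw [MulAction.index_stabilizer, horb, ← Nat.card_coe_set_eq, Nat.card_range_of_injective hfinj, Finite.card_option]
  have hle : scalT T ≤ MulAction.stabilizer T l₀ := by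
    rintro z ⟨c, hc, hz⟩
    rw [MulAction.mem_stabilizer_iff]
    apply Subtype.ext
    change l₀.1.map _ = l₀.1
    have hc0 : c ≠ 0 := by
      rintro rfl
      simp at hc
    change (Submodule.span k {u}).map _ = Submodule.span k {u}
    rw [Submodule.map_span, Set.image_singleton]
    change Submodule.span k {(((z : T) : OG Q) : W ≃ₗ[k] W) u} = _
    rw [hz]
    exact Submodule.span_singleton_smul_eq (IsUnit.mk0 c hc0) u
  have hodd : Odd (Nat.card k + 1) := by
    rw [← hcard]
    exact Odd.of_dvd_nat (odd_index_scalT hpm) (Subgroup.index_dvd_of_le hle)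
  have hoddk : Odd (Nat.card k) := by
    classical
    haveI : Fintype k := Fintype.ofFinite k
    rw [Nat.card_eq_fintype_card]
    apply Nat.odd_iff.2
    apply FiniteField.odd_card_of_char_ne_two
    intro h
    apply h2
    have := ringChar.Nat.cast_ringChar (R := k)
    rw [h] at this
    exact_mod_cast this
  exact (Nat.not_even_iff_odd.2 hodd) (hoddk.add_one)

end orbit

end Cfsg.Agent.Lib.BalPSU
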