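import Cfsg.Agent.Lib.BalPSU.HB
import Cfsg.Agent.Lib.BalPSU.Orth4
import Cfsg.Agent.Lib.BalMinus.Lines
import Cfsg.Agent.Lib.OrthMatrix

/-!
# Local balance for `PSU`: the orthogonal case

The form `B` over the subfield is symmetric. The theorem on odd subgroups normalised by the Siegel transformations, and a
semilinear map commuting with the rational Siegel transformations is a scalar on the rational vectors.
-/

set_option autoImplicit false
set_option linter.unusedSectionVars false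
set_option linter.unusedSimpArgs false
set_option linter.unusedVariables false
set_option linter.style.haveILetI false

namespace Cfsg.Agent.Lib.BalPSU

open Module Matrix Cfsg QuadraticMap
open Cfsg.Agent.Lib.OrthoBasic Cfsg.Agent.Lib.OrthoSiegel Cfsg.Agent.Lib.BalMinus
open Cfsg.Agent.Lib.AutPSU (semiAut)
open scoped MatrixGroups

variable {F₀ : Type*} [Field F₀] {n : ℕ}

/-! ### The quadratic form of a matrix -/

/-- The quadratic form `x ↦ xᵀ B x`. -/
noncomputable def QB (B : Matrix (Fin n) (Fin n) F₀) : QuadraticForm F₀ (Fin n → F₀) :=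
  LinearMap.BilinMap.toQuadraticMap (Matrix.toLinearMap₂' F₀ B)

lemma QB_apply (B : Matrix (Fin n) (Fin n) F₀) (x : Fin n → F₀) : QB B x = x ⬝ᵥ (B *ᵥ x) := by
  simp [QB, Matrix.toLinearMap₂'_apply']

lemma polar_QB {B : Matrix (Fin n) (Fin n) F₀} (hsym : Bᵀ = B) (x y : Fin n → F₀) :
    polar (QB B) x y = 2 * (x ⬝ᵥ (B *ᵥ y)) := by
  simp only [polar, QB_apply, add_dotProduct, mulVec_add, dotProduct_add]
  have : y ⬝ᵥ B *ᵥ x = x ⬝ᵥ B *ᵥ y := by
    rw [Matrix.dotProduct_mulVec, ← Matrix.mulVec_transpose, hsym, dotProduct_comm]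
  rw [this]
  ring

lemma dot_mulVec_left {R : Type*} [CommRing R] (M : Matrix (Fin n) (Fin n) R) (x v : Fin n → R) :
    (M *ᵥ x) ⬝ᵥ v = x ⬝ᵥ (Mᵀ *ᵥ v) := by
  rw [Matrix.dotProduct_mulVec, Matrix.vecMul_transpose]

lemma dot_iso {R : Type*} [CommRing R] (M W : Matrix (Fin n) (Fin n) R) (x y : Fin n → R) :
    (W *ᵥ x) ⬝ᵥ (M *ᵥ (W *ᵥ y)) = x ⬝ᵥ ((Wᵀ * M * W) *ᵥ y) := by
  rw [dot_mulVec_left, Matrix.mulVec_mulVec, Matrix.mulVec_mulVec, Matrix.mul_assoc]

lemma eq_zero_of_dot {R : Type*} [CommRing R] (M : GL (Fin n) R) {x : Fin n → R} (h : ∀ y, x ⬝ᵥ ((M : Matrix (Fin n) (Fin n) R) *ᵥ y) = 0) :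
    x = 0 := by
  have h1 : ∀ y, (x ᵥ* (M : Matrix (Fin n) (Fin n) R)) ⬝ᵥ y = 0 := fun y => by
    rw [← Matrix.dotProduct_mulVec]
    exact h y
  have h2 : x ᵥ* (M : Matrix (Fin n) (Fin n) R) = 0 := by
    ext j
    have := h1 (Pi.single j 1)
    simpa using this
  have h3 : x ᵥ* ((M : Matrix (Fin n) (Fin n) R) * ((M⁻¹ : GL (Fin n) R) : Matrix (Fin n) (Fin n) R)) = 0 := by
    rw [← Matrix.vecMul_vecMul, h2, Matrix.zero_vecMul]
  rwa [← Units.val_mul, mul_inv_cancel, Units.val_one, Matrix.vecMul_one] at h3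

lemma nondeg_QB (B : GL (Fin n) F₀) (hsym : (B : Matrix (Fin n) (Fin n) F₀)ᵀ = B) (h2 : (2 : F₀) ≠ 0) :
    Nondeg (QB (B : Matrix (Fin n) (Fin n) F₀)) := by
  intro x hx
  by_contra hcon
  push Not at hcon
  apply hx
  apply eq_zero_of_dot B
  intro y
  have := hcon y
  rw [polar_QB hsym] at this
  exact (mul_eq_zero.1 this).resolve_left h2

/-- The isometries of the form, as elements of the orthogonal group. -/
noncomputable def rho (B : GL (Fin n) F₀) : ratG B →* OG (QB (B : Matrix (Fin n) (Fin n) F₀)) where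
  toFun w := ⟨Cfsg.Agent.Lib.OrthMatrix.glEquiv w.1, fun x => by
    change QB (B : Matrix (Fin n) (Fin n) F₀) ((w.1 : Matrix (Fin n) (Fin n) F₀) *ᵥ x) = _
    rw [QB_apply, QB_apply, dot_iso, w.2.1]⟩
  map_one' := by
    apply Subtype.ext
    exact map_one _
  map_mul' a b := by
    apply Subtype.ext
    exact map_mul _ _ _

lemma rho_apply (B : GL (Fin n) F₀) (w : ratG B) (x : Fin n → F₀) :
    ((rho B w : OG (QB (B : Matrix (Fin n) (Fin n) F₀))) : (Fin n → F₀) ≃ₗ[F₀] (Fin n → F₀)) x = (w.1 : Matrix (Fin n) (Fin n) F₀) *ᵥ x := rfl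

lemma rho_inj (B : GL (Fin n) F₀) : Function.Injective (rho B) := by
  intro a b h
  apply Subtype.ext
  apply Units.ext
  apply Matrix.mulVec_injective
  funext x
  rw [← rho_apply, ← rho_apply, h]

/-- The matrices of the Siegel transformations. -/
def sgS (B : GL (Fin n) F₀) : Set (ratG B) := {w | rho B w ∈ siegelSet (QB (B : Matrix (Fin n) (Fin n) F₀))}

lemma det_eq_one_of_pow [Fintype F₀] {r : ℕ} [hr : Fact r.Prime] [CharP F₀ r] (w : GL (Fin n) F₀) (h : w ^ r = 1) :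
    (w : Matrix (Fin n) (Fin n) F₀).det = 1 := by
  haveI : Fact (Nat.Prime r) := hr
  have h1 : (w : Matrix (Fin n) (Fin n) F₀).det ^ r = 1 := by
    have h2 := congrArg (fun y : GL (Fin n) F₀ => (y : Matrix (Fin n) (Fin n) F₀).det) h
    simp only [Units.val_pow_eq_pow_val, Matrix.det_pow, Units.val_one, Matrix.det_one] at h2
    exact h2
  have h3 : ((w : Matrix (Fin n) (Fin n) F₀).det - 1) ^ r = 0 := by
    rw [sub_pow_char, h1, one_pow, sub_self]
  exact sub_eq_zero.1 (pow_eq_zero_iff hr.out.ne_zero |>.1 h3)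

section siegel

variable [Fintype F₀] {B : GL (Fin n) F₀}

/-- Each Siegel transformation is the image of an element of `sgS`. -/
lemma exists_sgS {r : ℕ} [hr : Fact r.Prime] [CharP F₀ r] (h2 : (2 : F₀) ≠ 0) (hQ : Nondeg (QB (B : Matrix (Fin n) (Fin n) F₀)))
    (hsym : (B : Matrix (Fin n) (Fin n) F₀)ᵀ = B) (g : OG (QB (B : Matrix (Fin n) (Fin n) F₀)))
    (hg : g ∈ siegelSet (QB (B : Matrix (Fin n) (Fin n) F₀))) : ∃ w : ratG B, w ∈ sgS B ∧ rho B w = g := by
  obtain ⟨e, y, he, hy, hgx⟩ := hg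
  set W := Cfsg.Agent.Lib.OrthMatrix.glEquiv.symm (g : (Fin n → F₀) ≃ₗ[F₀] (Fin n → F₀)) with hW
  have hWv : ∀ x, (W : Matrix (Fin n) (Fin n) F₀) *ᵥ x = (g : (Fin n → F₀) ≃ₗ[F₀] (Fin n → F₀)) x := fun x =>
    Cfsg.Agent.Lib.OrthMatrix.mulVec_glEquiv_symm _ x
  have hgs : g = siegel hQ he hy := by
    apply Subtype.ext
    ext x
    rw [hgx]
    rfl
  have hgr : g ^ r = 1 := by
    rw [hgs]
    apply siegel_pow_eq_one hQ he hy
    ext i
    simp [CharP.cast_eq_zero]
  have hWr : W ^ r = 1 := by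
    rw [hW, ← map_pow]
    have : ((g : (Fin n → F₀) ≃ₗ[F₀] (Fin n → F₀))) ^ r = 1 := by
      have := congrArg Subtype.val hgr
      simpa using this
    rw [this, map_one]
  have hmem : W ∈ ratG B := by
    refine ⟨?_, det_eq_one_of_pow (r := r) W hWr⟩
    -- the form
    have h1 : ∀ x y, x ⬝ᵥ (((W : Matrix (Fin n) (Fin n) F₀)ᵀ * (B : Matrix (Fin n) (Fin n) F₀) * (W : Matrix (Fin n) (Fin n) F₀)) *ᵥ y) = x ⬝ᵥ ((B : Matrix (Fin n) (Fin n) F₀) *ᵥ y) := by
      intro x y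
      rw [← dot_iso, hWv, hWv]
      have h2' := OG_polar _ g x y
      rw [polar_QB hsym, polar_QB hsym] at h2'
      exact mul_left_cancel₀ h2 h2'
    ext i j
    have := h1 (Pi.single i 1) (Pi.single j 1)
    simpa using this
  have hrho : rho B ⟨W, hmem⟩ = g := by
    apply Subtype.ext
    exact MulEquiv.apply_symm_apply _ _
  refine ⟨⟨W, hmem⟩, ?_, hrho⟩
  change rho B ⟨W, hmem⟩ ∈ siegelSet _
  rw [hrho]
  exact ⟨e, y, he, hy, hgx⟩

/-- The theorem on odd subgroups, for matrices. -/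
theorem orth_core {r : ℕ} [hr : Fact r.Prime] [CharP F₀ r] (h2 : (2 : F₀) ≠ 0) (hsym : (B : Matrix (Fin n) (Fin n) F₀)ᵀ = B) (hn : 3 ≤ n)
    (T : Subgroup (ratG B))
    (hpm : ∀ h ∈ T, ∃ m, Odd m ∧ ∃ a : F₀, a * a = 1 ∧ ((h ^ m : ratG B).1 : Matrix (Fin n) (Fin n) F₀) = a • 1)
    (hnorm : ∀ s ∈ sgS B, ∀ h ∈ T, s * h * s⁻¹ ∈ T) : ∀ h ∈ T, ∃ a : F₀, (h.1 : Matrix (Fin n) (Fin n) F₀) = a • 1 := by
  have hQ := nondeg_QB B hsym h2
  have hfin : finrank F₀ (Fin n → F₀) = n := by simp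
  have hpm' : ∀ h ∈ T.map (rho B), ∃ m, Odd m ∧ ∃ a : F₀, a * a = 1 ∧
      ∀ y, ((h ^ m : OG (QB (B : Matrix (Fin n) (Fin n) F₀))) : (Fin n → F₀) ≃ₗ[F₀] (Fin n → F₀)) y = a • y := by
    rintro _ ⟨h, hh, rfl⟩
    obtain ⟨m, hm, a, ha, hma⟩ := hpm h hh
    refine ⟨m, hm, a, ha, fun y => ?_⟩
    rw [← map_pow, rho_apply, hma, Matrix.smul_mulVec, Matrix.one_mulVec]
  have hnorm' : ∀ σ ∈ siegelSet (QB (B : Matrix (Fin n) (Fin n) F₀)), ∀ h ∈ T.map (rho B), σ * h * σ⁻¹ ∈ T.map (rho B) := by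
    rintro σ hσ _ ⟨h, hh, rfl⟩
    obtain ⟨w, hw, rfl⟩ := exists_sgS (r := r) h2 hQ hsym σ hσ
    exact ⟨w * h * w⁻¹, hnorm w hw h hh, by simp only [map_mul, map_inv]⟩
  have key : ∀ h ∈ T.map (rho B), ∃ a : F₀, a * a = 1 ∧
      ∀ y, (h : (Fin n → F₀) ≃ₗ[F₀] (Fin n → F₀)) y = a • y := by
    by_cases h4 : n = 4
    · exact main_scalar_four hQ h2 (by rw [hfin, h4]) _ hpm' hnorm'
    · exact main_scalar hQ h2 (by rw [hfin]; exact hn) (by rw [hfin]; exact h4) _ hpm' hnorm'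
  intro h hh
  obtain ⟨a, -, ha⟩ := key (rho B h) ⟨h, hh, rfl⟩
  refine ⟨a, ?_⟩
  apply Matrix.mulVec_injective
  funext y
  rw [← rho_apply, ha, Matrix.smul_mulVec, Matrix.one_mulVec]

/-- Elements of `sgS` are unipotent. -/
lemma sgS_pow {r : ℕ} [hr : Fact r.Prime] [CharP F₀ r] (h2 : (2 : F₀) ≠ 0) (hsym : (B : Matrix (Fin n) (Fin n) F₀)ᵀ = B) {w : ratG B} (hw : w ∈ sgS B) :
    w ^ r ^ 1 = 1 := by
  have hQ := nondeg_QB B hsym h2
  obtain ⟨e, y, he, hy, hgx⟩ := hw
  apply rho_inj B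
  rw [map_pow, map_one, pow_one]
  have hgs : rho B w = siegel hQ he hy := by
    apply Subtype.ext
    ext x
    rw [hgx]
    rfl
  rw [hgs]
  apply siegel_pow_eq_one hQ he hy
  ext i
  simp [CharP.cast_eq_zero]

end siegel

/-! ### Semilinear maps commuting with the rational Siegel transformations -/

section claim

open Cfsg.Agent.Lib.AutPSU.GB

variable {F : Type*} [Field F] [Fintype F] [Fintype F₀] {ι : F₀ →+* F} {B : GL (Fin n) F₀}

/-- The symmetric bilinear form over the big field. -/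
def pb (ι : F₀ →+* F) (B : Matrix (Fin n) (Fin n) F₀) (a b : Fin n → F) : F := 2 * (a ⬝ᵥ ((B.map ι) *ᵥ b))

lemma pb_add_left (B : Matrix (Fin n) (Fin n) F₀) (a a' b : Fin n → F) : pb ι B (a + a') b = pb ι B a b + pb ι B a' b := by
  simp only [pb, add_dotProduct]
  ring

lemma pb_add_right (B : Matrix (Fin n) (Fin n) F₀) (a b b' : Fin n → F) : pb ι B a (b + b') = pb ι B a b + pb ι B a b' := by
  simp only [pb, mulVec_add, dotProduct_add]
  ring

lemma pb_smul_left (B : Matrix (Fin n) (Fin n) F₀) (c : F) (a b : Fin n → F) : pb ι B (c • a) b = c * pb ι B a b := by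
  simp only [pb, smul_dotProduct, smul_eq_mul]
  ring

lemma pb_smul_right (B : Matrix (Fin n) (Fin n) F₀) (c : F) (a b : Fin n → F) : pb ι B a (c • b) = c * pb ι B a b := by
  simp only [pb, mulVec_smul, dotProduct_smul, smul_eq_mul]
  ring

lemma pb_sub_left (B : Matrix (Fin n) (Fin n) F₀) (a a' b : Fin n → F) : pb ι B (a - a') b = pb ι B a b - pb ι B a' b := by
  simp only [pb, sub_dotProduct]
  ring

lemma pb_sub_right (B : Matrix (Fin n) (Fin n) F₀) (a b b' : Fin n → F) : pb ι B a (b - b') = pb ι B a b - pb ι B a b' := by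
  simp only [pb, mulVec_sub, dotProduct_sub]
  ring

lemma dot_lv (x y : Fin n → F₀) : lv ι x ⬝ᵥ lv ι y = ι (x ⬝ᵥ y) := by
  simp [dotProduct, lv, map_sum, map_mul]

lemma pb_lv {B : Matrix (Fin n) (Fin n) F₀} (hsym : Bᵀ = B) (x y : Fin n → F₀) :
    pb ι B (lv ι x) (lv ι y) = ι (polar (QB B) x y) := by
  rw [pb, mulVec_lv, dot_lv, polar_QB hsym, map_mul, map_ofNat]

lemma pb_iso (w : ratG B) (a b : Fin n → F) :
    pb ι (B : Matrix (Fin n) (Fin n) F₀) (((w.1 : Matrix (Fin n) (Fin n) F₀).map ι) *ᵥ a) (((w.1 : Matrix (Fin n) (Fin n) F₀).map ι) *ᵥ b) =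
      pb ι (B : Matrix (Fin n) (Fin n) F₀) a b := by
  rw [pb, pb, dot_iso, ← Matrix.transpose_map, ← Matrix.map_mul, ← Matrix.map_mul, w.2.1]

lemma pb_nondeg (h2 : (2 : F₀) ≠ 0) {a : Fin n → F} (h : ∀ z, pb ι (B : Matrix (Fin n) (Fin n) F₀) a (lv ι z) = 0) : a = 0 := by
  have h2' : (2 : F) ≠ 0 := by
    have := (map_ne_zero ι).2 h2
    rwa [map_ofNat] at this
  apply eq_zero_of_dot (Matrix.GeneralLinearGroup.map ι B)
  intro y
  have h1 : ∀ j, a ⬝ᵥ (((B : Matrix (Fin n) (Fin n) F₀).map ι) *ᵥ (Pi.single j 1)) = 0 := by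
    intro j
    have h3 := h (Pi.single j 1)
    have h4 : lv ι (Pi.single j (1 : F₀)) = (Pi.single j 1 : Fin n → F) := by
      ext k
      by_cases hk : k = j
      · subst hk
        simp [lv]
      · simp [lv, hk]
    rw [h4, pb] at h3
    exact (mul_eq_zero.1 h3).resolve_left h2'
  have h3 : a ᵥ* ((B : Matrix (Fin n) (Fin n) F₀).map ι) = 0 := by
    ext j
    have := h1 j
    rw [Matrix.dotProduct_mulVec] at this
    simpa using this
  change a ⬝ᵥ (((B : Matrix (Fin n) (Fin n) F₀).map ι) *ᵥ y) = 0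
  rw [Matrix.dotProduct_mulVec, h3, zero_dotProduct]

variable {S : (Fin n → F) → (Fin n → F)} {σ' : F ≃+* F}

/-- The main part: the lines. -/
theorem orth_claim {r : ℕ} [hr : Fact r.Prime] [CharP F₀ r] (h2 : (2 : F₀) ≠ 0) (hsym : (B : Matrix (Fin n) (Fin n) F₀)ᵀ = B) (hn : 3 ≤ n)
    (hadd : ∀ x y, S (x + y) = S x + S y) (hsmul : ∀ (c : F) x, S (c • x) = σ' c • S x) (hinj : Function.Injective S)
    (hcomm : ∀ w ∈ sgS B, ∀ v, ((w.1 : Matrix (Fin n) (Fin n) F₀).map ι) *ᵥ S v = S (((w.1 : Matrix (Fin n) (Fin n) F₀).map ι) *ᵥ v)) :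
    ∃ lam : F, lam ≠ 0 ∧ (∀ x, S (lv ι x) = lam • lv ι x) ∧ ∀ b, σ' (ι b) = ι b := by
  classical
  set M : Matrix (Fin n) (Fin n) F₀ := (B : Matrix (Fin n) (Fin n) F₀) with hM
  set Q := QB M with hQdef
  have hQ : Nondeg Q := nondeg_QB B hsym h2
  have hfin : finrank F₀ (Fin n → F₀) = n := by simp
  have h2' : (2 : F) ≠ 0 := by
    have := (map_ne_zero ι).2 h2
    rwa [map_ofNat] at this
  have hS0 : S 0 = 0 := by
    have := hadd 0 0
    rw [add_zero] at this
    exact left_eq_add.1 this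
  have hsub : ∀ x y, S (x - y) = S x - S y := by
    intro x y
    have h1 := hadd (x - y) y
    rw [sub_add_cancel] at h1
    rw [h1, add_sub_cancel_right]
  have hpb : ∀ x y, pb ι M (lv ι x) (lv ι y) = ι (polar Q x y) := fun x y => pb_lv hsym x y
  -- step A
  have stepA : ∀ e y, Q e = 0 → e ≠ 0 → polar Q e y = 0 → (∀ c : F₀, y ≠ c • e) →
      pb ι M (S (lv ι e)) (lv ι e) = 0 ∧ pb ι M (S (lv ι e)) (lv ι y) = 0 := by
    intro e y he he0 hy hyn
    obtain ⟨w, hw, hwρ⟩ := exists_sgS (r := r) h2 hQ hsym (siegel hQ he hy) ⟨e, y, siegel_isSiegel hQ he hy⟩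
    have hwv : ∀ x, (w.1 : Matrix (Fin n) (Fin n) F₀) *ᵥ x = siegelLin Q e y x := by
      intro x
      rw [← rho_apply, hwρ]
      rfl
    set A := S (lv ι e) with hA
    have hfix : ((w.1 : Matrix (Fin n) (Fin n) F₀).map ι) *ᵥ A = A := by
      rw [hA, hcomm w hw, mulVec_lv, hwv, siegelLin_self he hy]
    have hrel : ∀ z, pb ι M A (lv ι z) = pb ι M A (lv ι (siegelLin Q e y z)) := by
      intro z
      have h1 := pb_iso (ι := ι) w A (lv ι z)
      rw [hfix, mulVec_lv, hwv] at h1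
      exact h1.symm
    have hrel2 : ∀ z, ι (polar Q z e) * pb ι M A (lv ι y) = ι (polar Q z y + Q y * polar Q z e) * pb ι M A (lv ι e) := by
      intro z
      have h1 := hrel z
      rw [siegelLin_apply, lv_sub, lv_add, lv_smul, lv_smul, pb_sub_right, pb_add_right, pb_smul_right, pb_smul_right] at h1
      linear_combination -h1
    obtain ⟨z₁, hz₁, hz₁'⟩ := exists_perp_not_perp hQ he0 hyn
    have h3 := hrel2 z₁
    rw [polar_comm Q z₁ e, hz₁, polar_comm Q z₁ y, hz₁', map_zero, zero_mul] at h3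
    simp only [mul_zero, add_zero, map_one, one_mul] at h3
    refine ⟨h3.symm, ?_⟩
    obtain ⟨v, -, hv⟩ := exists_singular_partner hQ he he0
    have h4 := hrel2 v
    rw [polar_comm Q v e, hv, ← h3, mul_zero, map_one, one_mul] at h4
    exact h4
  -- step B
  have stepB : ∀ e, Q e = 0 → ∃ μ : F, S (lv ι e) = μ • lv ι e := by
    intro e he
    by_cases he0 : e = 0
    · subst he0
      refine ⟨0, ?_⟩
      rw [lv_zero, hS0, zero_smul]
    obtain ⟨v, hv, hev⟩ := exists_singular_partner hQ he he0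
    obtain ⟨z₀, hz₀1, hz₀2, hz₀3⟩ := exists_nonsingular_perp hQ he hv hev (by rw [hfin]; omega)
    set A := S (lv ι e) with hA
    have hz₀n : ∀ c : F₀, z₀ ≠ c • e := by
      rintro c rfl
      apply hz₀3
      rw [Q_smul, he, mul_zero]
    have hAE : pb ι M A (lv ι e) = 0 := (stepA e z₀ he he0 (by rw [polar_comm]; exact hz₀1) hz₀n).1
    have hAz : ∀ z, polar Q e z = 0 → pb ι M A (lv ι z) = 0 := by
      intro z hz
      by_cases hzn : ∀ c : F₀, z ≠ c • e
      · exact (stepA e z he he0 hz hzn).2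
      · push Not at hzn
        obtain ⟨c, rfl⟩ := hzn
        rw [lv_smul, pb_smul_right, hAE, mul_zero]
    refine ⟨pb ι M A (lv ι v), ?_⟩
    rw [← sub_eq_zero]
    apply pb_nondeg (B := B) h2
    intro z
    rw [pb_sub_left, pb_smul_left, hpb]
    set z' := z - polar Q z e • v with hz'
    have hz'e : polar Q e z' = 0 := by
      rw [hz', polar_sub_right, polar_smul_r, hev, polar_comm Q z e]
      ring
    have h1 := hAz z' hz'e
    have hzd : z = z' + polar Q z e • v := by rw [hz']; abel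
    have h3 : pb ι M A (lv ι z) = ι (polar Q z e) * pb ι M A (lv ι v) := by
      conv_lhs => rw [hzd, lv_add, lv_smul, pb_add_right, pb_smul_right, h1, zero_add]
    rw [h3, polar_comm Q e z]
    ring
  -- the frame
  obtain ⟨e, he0, he⟩ := exists_singular hQ h2 (by rw [hfin]; exact hn)
  obtain ⟨f, hf, hef⟩ := exists_singular_partner hQ he he0
  have hf0 : f ≠ 0 := by
    rintro rfl
    rw [polar_zero_right] at hef
    exact zero_ne_one hef
  have hfe : polar Q f e = 1 := by rw [polar_comm]; exact hef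
  have hee : polar Q e e = 0 := polar_self_zero he
  have hff : polar Q f f = 0 := polar_self_zero hf
  obtain ⟨μe, hμe⟩ := stepB e he
  obtain ⟨μf, hμf⟩ := stepB f hf
  have hE0 : lv ι e ≠ 0 := fun h0 => he0 (lv_eq_zero h0)
  have hμe0 : μe ≠ 0 := by
    rintro rfl
    rw [zero_smul] at hμe
    apply hE0
    apply hinj
    rw [hμe, hS0]
  have hPEF : pb ι M (lv ι e) (lv ι f) = 1 := by rw [hpb, hef, map_one]
  have hPFE : pb ι M (lv ι f) (lv ι e) = 1 := by rw [hpb, hfe, map_one]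
  have hPEE : pb ι M (lv ι e) (lv ι e) = 0 := by rw [hpb, hee, map_zero]
  have hPFF : pb ι M (lv ι f) (lv ι f) = 0 := by rw [hpb, hff, map_zero]
  -- the nonsingular vectors
  have stepC : ∀ z, polar Q z e = 0 → polar Q z f = 0 → Q z ≠ 0 →
      S (lv ι z) = μe • lv ι z ∧ μf = μe ∧ ∀ b, σ' (ι b) = ι b := by
    intro z hze hzf hz
    set α := Q z with hα
    have hez : polar Q e z = 0 := by rw [polar_comm]; exact hze
    have hfz : polar Q f z = 0 := by rw [polar_comm]; exact hzf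
    have hzz : polar Q z z = 2 * α := polar_self' Q z
    have hPZE : pb ι M (lv ι z) (lv ι e) = 0 := by rw [hpb, hze, map_zero]
    have hPZF : pb ι M (lv ι z) (lv ι f) = 0 := by rw [hpb, hzf, map_zero]
    have hPEZ : pb ι M (lv ι e) (lv ι z) = 0 := by rw [hpb, hez, map_zero]
    have hPFZ : pb ι M (lv ι f) (lv ι z) = 0 := by rw [hpb, hfz, map_zero]
    have hPZZ : pb ι M (lv ι z) (lv ι z) = 2 * ι α := by rw [hpb, hzz, map_mul, map_ofNat]
    have hια : ι α ≠ 0 := (map_ne_zero ι).2 hz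
    -- singular vectors
    have hxs : ∀ b : F₀, Q (e + b • z - (b * b * α) • f) = 0 := by
      intro b
      rw [Q_sub, Q_add, Q_smul, Q_smul, he, hf, polar_smul_r, polar_smul_r, polar_add_left, polar_smul_l, hez, hef, hzf, ← hα]
      ring
    have hS : ∀ b : F₀, S (lv ι (e + b • z - (b * b * α) • f)) =
        μe • lv ι e + σ' (ι b) • S (lv ι z) - σ' (ι (b * b * α)) • (μf • lv ι f) := by
      intro b
      rw [lv_sub, lv_add, lv_smul, lv_smul, hsub, hadd, hsmul, hsmul, hμe, hμf]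
    have hL : ∀ b : F₀, lv ι (e + b • z - (b * b * α) • f) = lv ι e + ι b • lv ι z - ι (b * b * α) • lv ι f := by
      intro b
      rw [lv_sub, lv_add, lv_smul, lv_smul]
    have key : ∀ b : F₀, b ≠ 0 → σ' (ι b) • S (lv ι z) = (μe * ι b) • lv ι z ∧ σ' (ι (b * b * α)) * μf = μe * ι (b * b * α) := by
      intro b hb
      obtain ⟨μ, hμ⟩ := stepB _ (hxs b)
      obtain ⟨μ', hμ'⟩ := stepB _ (hxs (-b))
      rw [hS, hL] at hμ hμ'
      have e1 : (-b) * (-b) * α = b * b * α := by ring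
      rw [e1, map_neg, map_neg] at hμ'
      set c := ι (b * b * α) with hc
      have hιb : ι b ≠ 0 := (map_ne_zero ι).2 hb
      have P1 := congrArg (fun v => pb ι M v (lv ι f)) hμ
      have P1' := congrArg (fun v => pb ι M v (lv ι f)) hμ'
      have P2 := congrArg (fun v => pb ι M v (lv ι z)) hμ
      have P2' := congrArg (fun v => pb ι M v (lv ι z)) hμ'
      have P3 := congrArg (fun v => pb ι M v (lv ι e)) hμ
      have P3' := congrArg (fun v => pb ι M v (lv ι e)) hμ'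
      simp only [pb_sub_left, pb_add_left, pb_smul_left, hPEF, hPZF, hPFF, hPEZ, hPZZ, hPFZ, hPEE, hPZE, hPFE] at P1 P1' P2 P2' P3 P3'
      have hsumF : μ + μ' = 2 * μe := by linear_combination -P1 - P1'
      have hZ : (μ - μ') * (ι b * 2 * ι α) = 0 := by linear_combination -P2 - P2'
      have hne : ι b * 2 * ι α ≠ 0 := mul_ne_zero (mul_ne_zero hιb h2') hια
      have hμμ : μ = μ' := sub_eq_zero.1 ((mul_eq_zero.1 hZ).resolve_right hne)
      have hμe' : μ = μe := by
        apply mul_left_cancel₀ h2'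
        rw [← hsumF, ← hμμ]
        ring
      have hc2 : σ' c * μf = μe * c := by
        apply mul_left_cancel₀ h2'
        rw [← hμμ, hμe'] at P3'
        rw [hμe'] at P3
        linear_combination -P3 - P3'
      refine ⟨?_, hc2⟩
      have h5 : σ' (ι b) • S (lv ι z) = μ • (lv ι e + ι b • lv ι z - c • lv ι f) - μe • lv ι e + σ' c • μf • lv ι f := by
        rw [← hμ]
        abel
      rw [h5, hμe', smul_smul, hc2]
      module
    have h1 := key 1 one_ne_zero
    rw [map_one, map_one, one_smul, mul_one, mul_one, one_mul] at h1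
    obtain ⟨hSZ, hα2⟩ := h1
    have hσ : ∀ b, σ' (ι b) = ι b := by
      intro b
      by_cases hb : b = 0
      · rw [hb, map_zero, map_zero]
      · have h3 := (key b hb).1
        rw [hSZ, smul_smul] at h3
        have h4 := congrArg (fun v => pb ι M v (lv ι z)) h3
        simp only [pb_smul_left, hPZZ] at h4
        have hne : μe * (2 * ι α) ≠ 0 := mul_ne_zero hμe0 (mul_ne_zero h2' hια)
        apply mul_right_cancel₀ hne
        linear_combination h4
    refine ⟨hSZ, ?_, hσ⟩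
    rw [hσ] at hα2
    apply mul_left_cancel₀ hια
    linear_combination hα2
  -- a nonsingular vector
  obtain ⟨z₀, hz₀1, hz₀2, hz₀3⟩ := exists_nonsingular_perp hQ he hf hef (by rw [hfin]; omega)
  have hfeq : μf = μe := (stepC z₀ hz₀1 hz₀2 hz₀3).2.1
  have hσ : ∀ b, σ' (ι b) = ι b := (stepC z₀ hz₀1 hz₀2 hz₀3).2.2
  -- the complement
  have stepD : ∀ z, polar Q z e = 0 → polar Q z f = 0 → S (lv ι z) = μe • lv ι z := by
    intro z hze hzf
    by_cases hz : Q z = 0
    · obtain ⟨μ₁, hμ₁⟩ := stepB z hz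
      have hez : polar Q e z = 0 := by rw [polar_comm]; exact hze
      have hs : Q (e + z) = 0 := by rw [Q_add, he, hz, hez]; ring
      obtain ⟨μ, hμ⟩ := stepB _ hs
      rw [lv_add, hadd, hμe, hμ₁] at hμ
      have hPZF : pb ι M (lv ι z) (lv ι f) = 0 := by rw [hpb, hzf, map_zero]
      have h1 := congrArg (fun v => pb ι M v (lv ι f)) hμ
      simp only [pb_add_left, pb_smul_left, hPEF, hPZF] at h1
      have h3 : μ = μe := by linear_combination -h1
      rw [h3] at hμ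
      rw [hμ₁]
      have h4 : μ₁ • lv ι z = μe • (lv ι e + lv ι z) - μe • lv ι e := by
        rw [← hμ]
        abel
      rw [h4]
      module
    · exact (stepC z hze hzf hz).1
  refine ⟨μe, hμe0, ?_, hσ⟩
  intro x
  have h1 := stepD (pr1 Q e f x) (pr1_perp_left he hf hef x) (pr1_perp_right he hf hef x)
  have hx : x = polar Q x f • e + polar Q x e • f + pr1 Q e f x := by
    unfold pr1
    abel
  have h3 : lv ι x = ι (polar Q x f) • lv ι e + ι (polar Q x e) • lv ι f + lv ι (pr1 Q e f x) := by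
    conv_lhs => rw [hx]
    rw [lv_add, lv_add, lv_smul, lv_smul]
  rw [h3, hadd, hadd, hsmul, hsmul, hσ, hσ, hμe, hμf, h1, hfeq]
  module

end claim

end Cfsg.Agent.Lib.BalPSU
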