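import Mathlib

/-!
# Odd-order groups of symplectic isometries normalised by the transvections are scalar

Over a finite field of odd characteristic, in a non-degenerate alternating space of even dimension, a subgroup of
symplectic isometries, of odd order modulo the scalars `±1`, normalised by the transvections, consists of scalars. The
argument is a parity count on the points of the projective space.
-/

set_option autoImplicit false
set_option linter.unusedSectionVars false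
set_option linter.unusedVariables false
set_option linter.unusedSimpArgs false
set_option linter.style.haveILetI false

namespace Cfsg.Agent.Lib.BalPSU

open Module

variable {k W : Type*} [Field k] [AddCommGroup W] [Module k W]

/-- The symplectic group of a bilinear form. -/
def SpG (B : W →ₗ[k] W →ₗ[k] k) : Subgroup (W ≃ₗ[k] W) where
  carrier := {g | ∀ x y, B (g x) (g y) = B x y}
  mul_mem' := by
    intro a b ha hb x y
    rw [LinearEquiv.mul_apply, LinearEquiv.mul_apply, ha, hb]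
  one_mem' := fun x y => rfl
  inv_mem' := by
    intro g hg x y
    have h := hg (g⁻¹ x) (g⁻¹ y)
    rw [← LinearEquiv.mul_apply, ← LinearEquiv.mul_apply, mul_inv_cancel] at h
    exact h.symm

variable {B : W →ₗ[k] W →ₗ[k] k}

lemma mem_SpG {g : W ≃ₗ[k] W} : g ∈ SpG B ↔ ∀ x y, B (g x) (g y) = B x y := Iff.rfl

lemma sp_apply (g : SpG B) (x y : W) : B ((g : W ≃ₗ[k] W) x) ((g : W ≃ₗ[k] W) y) = B x y := g.2 x y

lemma spInv_apply (t : SpG B) (x : W) : ((t⁻¹ : SpG B) : W ≃ₗ[k] W) ((t : W ≃ₗ[k] W) x) = x := by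
  have h : ((t⁻¹ * t : SpG B) : W ≃ₗ[k] W) x = x := by
    rw [inv_mul_cancel]
    rfl
  exact h

lemma sp_apply_inv (t : SpG B) (x : W) : (t : W ≃ₗ[k] W) (((t⁻¹ : SpG B) : W ≃ₗ[k] W) x) = x := by
  have h : ((t * t⁻¹ : SpG B) : W ≃ₗ[k] W) x = x := by
    rw [mul_inv_cancel]
    rfl
  exact h

lemma sp_mul_apply (a b : SpG B) (x : W) :
    ((a * b : SpG B) : W ≃ₗ[k] W) x = (a : W ≃ₗ[k] W) ((b : W ≃ₗ[k] W) x) := rfl

section alt

variable (hal : ∀ x, B x x = 0)
include hal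

lemma skew (x y : W) : B x y = - B y x := by
  have h := hal (x + y)
  simp only [map_add, LinearMap.add_apply, hal, zero_add, add_zero] at h
  linear_combination h

/-- The linear map of a transvection. -/
noncomputable def tvLin (B : W →ₗ[k] W →ₗ[k] k) (c : k) (y : W) : W →ₗ[k] W where
  toFun x := x + (c * B x y) • y
  map_add' a b := by
    simp only [map_add, LinearMap.add_apply, mul_add, add_smul]
    abel
  map_smul' a b := by
    simp only [map_smul, LinearMap.smul_apply, smul_eq_mul, RingHom.id_apply, smul_add, smul_smul]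
    congr 2
    ring

omit hal in
lemma tvLin_apply (c : k) (y x : W) : tvLin B c y x = x + (c * B x y) • y := rfl

lemma tvLin_tvLin (c d : k) (y x : W) : tvLin B c y (tvLin B d y x) = tvLin B (c + d) y x := by
  simp only [tvLin_apply, map_add, map_smul, LinearMap.add_apply, LinearMap.smul_apply, smul_eq_mul, hal]
  simp only [mul_zero, add_zero]
  module

/-- A transvection, as an element of the symplectic group. -/
noncomputable def tv (c : k) (y : W) : SpG B :=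
  ⟨LinearEquiv.ofLinearMap (tvLin B c y) (tvLin B (-c) y)
    (by
      ext x
      simp only [LinearMap.coe_comp, Function.comp_apply, LinearMap.id_coe, id_eq]
      rw [tvLin_tvLin hal]
      simp [tvLin_apply])
    (by
      ext x
      simp only [LinearMap.coe_comp, Function.comp_apply, LinearMap.id_coe, id_eq]
      rw [tvLin_tvLin hal]
      simp [tvLin_apply]), by
    intro a b
    change B (tvLin B c y a) (tvLin B c y b) = _
    simp only [tvLin_apply, map_add, map_smul, LinearMap.add_apply, LinearMap.smul_apply,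
      smul_eq_mul, hal]
    rw [skew hal y b]
    ring⟩

lemma tv_apply (c : k) (y x : W) : ((tv hal c y : SpG B) : W ≃ₗ[k] W) x = x + (c * B x y) • y := rfl

/-- The transvections. -/
def tvSet (B : W →ₗ[k] W →ₗ[k] k) : Set (SpG B) := {g | ∃ (c : k) (y : W), ∀ x, (g : W ≃ₗ[k] W) x = x + (c * B x y) • y}

lemma tv_mem (c : k) (y : W) : tv hal c y ∈ tvSet B := ⟨c, y, fun _ => rfl⟩

end alt

section rel

/-- Two vectors span lines in the same orbit. -/
def RelS (T : Subgroup (SpG B)) (u u' : W) : Prop :=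
  ∃ t ∈ T, ∃ c : k, c ≠ 0 ∧ ((t : SpG B) : W ≃ₗ[k] W) u = c • u'

variable {T : Subgroup (SpG B)} {u u' u'' : W}

lemma RelS.symm (h : RelS T u u') : RelS T u' u := by
  obtain ⟨t, ht, c, hc, h⟩ := h
  refine ⟨t⁻¹, inv_mem ht, c⁻¹, inv_ne_zero hc, ?_⟩
  have h1 := spInv_apply t u
  rw [h, map_smul] at h1
  rw [← h1, smul_smul, inv_mul_cancel₀ hc, one_smul]

lemma RelS.trans (h : RelS T u u') (h' : RelS T u' u'') : RelS T u u'' := by
  obtain ⟨t, ht, c, hc, h⟩ := h
  obtain ⟨t', ht', c', hc', h'⟩ := h'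
  refine ⟨t' * t, mul_mem ht' ht, c * c', mul_ne_zero hc hc', ?_⟩
  rw [sp_mul_apply, h, map_smul, h', smul_smul]

lemma RelS.smul_left {a : k} (ha : a ≠ 0) (h : RelS T u u') : RelS T (a • u) u' := by
  obtain ⟨t, ht, c, hc, h⟩ := h
  refine ⟨t, ht, a * c, mul_ne_zero ha hc, ?_⟩
  rw [map_smul, h, smul_smul]

lemma RelS.smul_right {a : k} (ha : a ≠ 0) (h : RelS T u u') : RelS T u (a • u') := by
  obtain ⟨t, ht, c, hc, h⟩ := h
  refine ⟨t, ht, c * a⁻¹, mul_ne_zero hc (inv_ne_zero ha), ?_⟩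
  rw [h, smul_smul, mul_assoc, inv_mul_cancel₀ ha, mul_one]

lemma RelS.of_smul_left {a : k} (ha : a ≠ 0) (h : RelS T (a • u) u') : RelS T u u' := by
  have h1 := RelS.smul_left (inv_ne_zero ha) h
  rwa [smul_smul, inv_mul_cancel₀ ha, one_smul] at h1

lemma RelS.of_smul_right {a : k} (ha : a ≠ 0) (h : RelS T u (a • u')) : RelS T u u' := by
  have h1 := RelS.smul_right (inv_ne_zero ha) h
  rwa [smul_smul, inv_mul_cancel₀ ha, one_smul] at h1

lemma RelS.conj {σ : SpG B} (hσ : ∀ h ∈ T, σ * h * σ⁻¹ ∈ T) (h : RelS T u u') :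
    RelS T ((σ : W ≃ₗ[k] W) u) ((σ : W ≃ₗ[k] W) u') := by
  obtain ⟨t, ht, c, hc, h⟩ := h
  refine ⟨σ * t * σ⁻¹, hσ t ht, c, hc, ?_⟩
  rw [sp_mul_apply, sp_mul_apply, spInv_apply, h, map_smul]

end rel

section move

variable (hal : ∀ x, B x x = 0) (hnd : ∀ x, x ≠ 0 → ∃ y, B x y ≠ 0)
include hal hnd

/-- A functional vanishing on one vector and not the other. -/
lemma exists_perp_not_perp {u u' : W} (hu0 : u ≠ 0) (h : ∀ c : k, u' ≠ c • u) : ∃ y, B u y = 0 ∧ B u' y = 1 := by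
  obtain ⟨y₀, hy₀⟩ := hnd u hu0
  obtain ⟨y₁, h1⟩ : ∃ y₁, B u y₁ = 1 :=
    ⟨(B u y₀)⁻¹ • y₀, by rw [map_smul, smul_eq_mul, inv_mul_cancel₀ hy₀]⟩
  have h2 : u' - B u' y₁ • u ≠ 0 := sub_ne_zero.2 (h _)
  obtain ⟨y₂, hy₂⟩ := hnd _ h2
  simp only [map_sub, map_smul, LinearMap.sub_apply, LinearMap.smul_apply, smul_eq_mul] at hy₂
  set y₃ := y₂ - B u y₂ • y₁ with hy₃
  have h3 : B u y₃ = 0 := by
    rw [hy₃, map_sub, map_smul, h1, smul_eq_mul]
    ring
  have h4 : B u' y₃ ≠ 0 := by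
    rw [hy₃, map_sub, map_smul, smul_eq_mul]
    intro h5
    apply hy₂
    linear_combination h5
  refine ⟨(B u' y₃)⁻¹ • y₃, ?_, ?_⟩
  · rw [map_smul, h3, smul_zero]
  · rw [map_smul, smul_eq_mul, inv_mul_cancel₀ h4]

/-- A vector not orthogonal to two given nonzero vectors. -/
lemma exists_not_perp_two {u u' : W} (hu0 : u ≠ 0) (hu'0 : u' ≠ 0) : ∃ x, B u x ≠ 0 ∧ B u' x ≠ 0 := by
  obtain ⟨x1, hx1⟩ := hnd u hu0
  obtain ⟨x2, hx2⟩ := hnd u' hu'0
  by_cases h1 : B u' x1 = 0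
  · by_cases h2 : B u x2 = 0
    · refine ⟨x1 + x2, ?_, ?_⟩
      · rw [map_add, h2, add_zero]
        exact hx1
      · rw [map_add, h1, zero_add]
        exact hx2
    · exact ⟨x2, h2, hx2⟩
  · exact ⟨x1, hx1, h1⟩

variable {T : Subgroup (SpG B)}

omit hnd in
/-- The one-step link. -/
lemma exists_link1 {v x x' : W} (h : B x v = B x' v) (h0 : B x x' ≠ 0) :
    ∃ g ∈ tvSet B, (g : W ≃ₗ[k] W) x = x' ∧ (g : W ≃ₗ[k] W) v = v := by
  refine ⟨tv hal (B x x')⁻¹ (x' - x), tv_mem hal _ _, ?_, ?_⟩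
  · rw [tv_apply, map_sub, hal, sub_zero, inv_mul_cancel₀ h0, one_smul]
    abel
  · rw [tv_apply, map_sub, skew hal v x', skew hal v x, ← h]
    simp

/-- The strong normaliser. -/
def NormT (T : Subgroup (SpG B)) (g : SpG B) : Prop := ∀ h ∈ T, g * h * g⁻¹ ∈ T

omit hal hnd in
lemma NormT.mul {g g' : SpG B} (h : NormT T g) (h' : NormT T g') : NormT T (g * g') := by
  intro t ht
  have := h _ (h' t ht)
  have e : g * g' * t * (g * g')⁻¹ = g * (g' * t * g'⁻¹) * g⁻¹ := by group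
  rw [e]
  exact this

omit hal hnd in
lemma NormT.one : NormT T (1 : SpG B) := by
  intro t ht
  simpa using ht

/-- The link. -/
lemma exists_link (hnorm : ∀ g ∈ tvSet B, ∀ h ∈ T, g * h * g⁻¹ ∈ T) {v x x' : W} (h : B x v = B x' v) (h0 : B x v ≠ 0) :
    ∃ g : SpG B, NormT T g ∧ (g : W ≃ₗ[k] W) x = x' ∧ (g : W ≃ₗ[k] W) v = v := by
  by_cases hxx : x = x'
  · subst hxx
    exact ⟨1, NormT.one, rfl, rfl⟩
  by_cases hb : B x x' = 0
  · -- two steps
    have hv0 : v ≠ 0 := by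
      rintro rfl
      simp at h0
    have hnx : ∀ c : k, x ≠ c • v := by
      intro c hc
      apply h0
      rw [hc, map_smul, LinearMap.smul_apply, hal]
      simp
    have hnx' : ∀ c : k, x' ≠ c • v := by
      intro c hc
      apply h0
      rw [h, hc, map_smul, LinearMap.smul_apply, hal]
      simp
    obtain ⟨w₁, hw₁, hw₁1⟩ := exists_perp_not_perp hal hnd hv0 hnx
    obtain ⟨w₂, hw₂, hw₂1⟩ := exists_perp_not_perp hal hnd hv0 hnx'
    obtain ⟨w, hw, hw1, hw2⟩ : ∃ w, B v w = 0 ∧ B x w ≠ 0 ∧ B x' w ≠ 0 := by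
      by_cases h3 : B x' w₁ = 0
      · by_cases h4 : B x w₂ = 0
        · refine ⟨w₁ + w₂, ?_, ?_, ?_⟩
          · rw [map_add, hw₁, hw₂, add_zero]
          · rw [map_add, hw₁1, h4, add_zero]
            exact one_ne_zero
          · rw [map_add, h3, hw₂1, zero_add]
            exact one_ne_zero
        · exact ⟨w₂, hw₂, h4, by rw [hw₂1]; exact one_ne_zero⟩
      · exact ⟨w₁, hw₁, by rw [hw₁1]; exact one_ne_zero, h3⟩
    have hwv : B w v = 0 := by
      rw [skew hal, hw, neg_zero]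
    obtain ⟨g₁, hg₁, hg₁x, hg₁v⟩ := exists_link1 hal (v := v) (x := x) (x' := x + w) (by
      rw [map_add, LinearMap.add_apply, hwv, add_zero]) (by
      rw [map_add, hal, zero_add]
      exact hw1)
    obtain ⟨g₂, hg₂, hg₂x, hg₂v⟩ := exists_link1 hal (v := v) (x := x + w) (x' := x') (by
      rw [map_add, LinearMap.add_apply, hwv, add_zero, h]) (by
      rw [map_add, LinearMap.add_apply, hb, zero_add, skew hal]
      exact neg_ne_zero.2 hw2)
    refine ⟨g₂ * g₁, NormT.mul (hnorm g₂ hg₂) (hnorm g₁ hg₁), ?_, ?_⟩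
    · rw [sp_mul_apply, hg₁x, hg₂x]
    · rw [sp_mul_apply, hg₁v, hg₂v]
  · obtain ⟨g, hg, hgx, hgv⟩ := exists_link1 hal h hb
    exact ⟨g, hnorm g hg, hgx, hgv⟩

/-- Moving a pair. -/
lemma rel_hyp_move (hnorm : ∀ g ∈ tvSet B, ∀ h ∈ T, g * h * g⁻¹ ∈ T) {a b a' b' : W} (ha0 : a ≠ 0) (ha'0 : a' ≠ 0)
    (hab : B a b ≠ 0) (hab' : B a' b' ≠ 0) (hR : RelS T a b) : RelS T a' b' := by
  obtain ⟨v, hv1, hv2⟩ := exists_not_perp_two hal hnd ha0 ha'0
  set a₁ := (B a v)⁻¹ • a with ha₁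
  set a₂ := (B a' v)⁻¹ • a' with ha₂
  have h1 : B a₁ v = 1 := by
    rw [ha₁, map_smul, LinearMap.smul_apply, smul_eq_mul, inv_mul_cancel₀ hv1]
  have h2 : B a₂ v = 1 := by
    rw [ha₂, map_smul, LinearMap.smul_apply, smul_eq_mul, inv_mul_cancel₀ hv2]
  obtain ⟨σ, hσ, hσ1, -⟩ := exists_link hal hnd hnorm (v := v) (x := a₁) (x' := a₂) (by rw [h1, h2]) (by
    rw [h1]
    exact one_ne_zero)
  have hR1 : RelS T a₁ b := hR.smul_left (inv_ne_zero hv1)
  have hR2 := hR1.conj hσ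
  rw [hσ1] at hR2
  set b₁ := (σ : W ≃ₗ[k] W) b with hb₁
  have hp : B a₂ b₁ ≠ 0 := by
    rw [← hσ1, hb₁, sp_apply, ha₁, map_smul, LinearMap.smul_apply, smul_eq_mul]
    exact mul_ne_zero (inv_ne_zero hv1) hab
  have hp' : B a₂ b' ≠ 0 := by
    rw [ha₂, map_smul, LinearMap.smul_apply, smul_eq_mul]
    exact mul_ne_zero (inv_ne_zero hv2) hab'
  have hp1 : B b₁ a₂ ≠ 0 := by
    rw [skew hal]
    exact neg_ne_zero.2 hp
  have hp2 : B b' a₂ ≠ 0 := by
    rw [skew hal]
    exact neg_ne_zero.2 hp'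
  set c₁ := (B b₁ a₂)⁻¹ • b₁ with hc₁
  set c₂ := (B b' a₂)⁻¹ • b' with hc₂
  have hl : ∀ (c : k) (x y : W), B (c • x) y = c * B x y := fun c x y => by simp
  have h3 : B c₁ a₂ = 1 := by
    rw [hc₁, hl, inv_mul_cancel₀ hp1]
  have h4 : B c₂ a₂ = 1 := by
    rw [hc₂, hl, inv_mul_cancel₀ hp2]
  obtain ⟨τ, hτ, hτ1, hτ2⟩ := exists_link hal hnd hnorm (v := a₂) (x := c₁) (x' := c₂) (by rw [h3, h4]) (by
    rw [h3]
    exact one_ne_zero)
  have hR3 : RelS T a₂ c₁ := hR2.smul_right (inv_ne_zero hp1)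
  have hR4 := hR3.conj hτ
  rw [hτ1, hτ2] at hR4
  exact (hR4.of_smul_right (inv_ne_zero hp2)).of_smul_left (inv_ne_zero hv2)

/-- Every pair of vectors. -/
lemma rel_all (hnorm : ∀ g ∈ tvSet B, ∀ h ∈ T, g * h * g⁻¹ ∈ T) {a b u u' : W} (ha0 : a ≠ 0) (hab : B a b ≠ 0)
    (hR : RelS T a b) (hu0 : u ≠ 0) (hu'0 : u' ≠ 0) : RelS T u u' := by
  obtain ⟨v, hv1, hv2⟩ := exists_not_perp_two hal hnd hu0 hu'0
  have h1 := rel_hyp_move hal hnd hnorm ha0 hu0 hab hv1 hR
  have h2 := rel_hyp_move hal hnd hnorm ha0 hu'0 hab hv2 hR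
  exact h1.trans h2.symm

/-- From an orthogonal pair to a hyperbolic pair. -/
lemma hyp_of_perp (hnorm : ∀ g ∈ tvSet B, ∀ h ∈ T, g * h * g⁻¹ ∈ T) {u₀ u₁ : W} (h00 : u₀ ≠ 0) (hind : ∀ c : k, u₁ ≠ c • u₀)
    (hp : B u₀ u₁ = 0) (hR : RelS T u₀ u₁) : ∃ a b, a ≠ 0 ∧ B a b ≠ 0 ∧ RelS T a b := by
  have h10 : u₁ ≠ 0 := by
    have := hind 0
    simpa using this
  obtain ⟨y, hy0, hy1⟩ := exists_perp_not_perp hal hnd h00 hind
  have hg := hnorm _ (tv_mem hal 1 y)
  have hR1 := hR.conj hg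
  have e0 : ((tv hal 1 y : SpG B) : W ≃ₗ[k] W) u₀ = u₀ := by
    rw [tv_apply, hy0]
    simp
  have e1 : ((tv hal 1 y : SpG B) : W ≃ₗ[k] W) u₁ = u₁ + y := by
    rw [tv_apply, hy1]
    simp
  rw [e0, e1] at hR1
  refine ⟨u₁, u₁ + y, h10, ?_, hR.symm.trans hR1⟩
  rw [map_add, hal, hy1, zero_add]
  exact one_ne_zero

end move

section count

variable [Finite k] [FiniteDimensional k W]

open scoped LinearAlgebra.Projectivization

lemma even_geom {q : ℕ} (hq : Odd q) (d : ℕ) : Even (∑ i ∈ Finset.range (2 * d), q ^ i) := by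
  induction d with
  | zero => simp
  | succ d ih =>
    rw [show 2 * (d + 1) = 2 * d + 1 + 1 by ring, Finset.sum_range_succ, Finset.sum_range_succ, add_assoc]
    exact ih.add ((hq.pow).add_odd hq.pow)

/-- The number of points of a projective space of even vector space dimension over a field of odd order is even. -/
lemma even_card_points (h2 : (2 : k) ≠ 0) (hd : Even (finrank k W)) : Even (Nat.card (ℙ k W)) := by
  classical
  haveI : Fintype k := Fintype.ofFinite k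
  rw [Projectivization.card_of_finrank (k := k) (V := W) rfl]
  obtain ⟨d, hd⟩ := hd
  rw [hd, ← two_mul]
  apply even_geom
  rw [Nat.card_eq_fintype_card]
  apply Nat.odd_iff.2
  apply FiniteField.odd_card_of_char_ne_two
  intro h
  apply h2
  have := ringChar.Nat.cast_ringChar (R := k)
  rw [h] at this
  exact_mod_cast this

end count

section main

variable [Finite k] [FiniteDimensional k W]

open scoped LinearAlgebra.Projectivization

variable (hal : ∀ x, B x x = 0) (hnd : ∀ x, x ≠ 0 → ∃ y, B x y ≠ 0)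
include hal hnd

/-- The elements fixing all lines. -/
lemma scalar_of_fix (hd : finrank k W ≠ 0) (t : SpG B)
    (ht : ∀ u : W, u ≠ 0 → ∃ c : k, (t : W ≃ₗ[k] W) u = c • u) :
    ∃ a : k, a * a = 1 ∧ ∀ y, (t : W ≃ₗ[k] W) y = a • y := by
  obtain ⟨a, ha⟩ := LinearMap.exists_eq_smul_id_of_forall_notLinearIndependent (R := k) (V := W)
    (f := ((t : W ≃ₗ[k] W) : W →ₗ[k] W)) (fun v hv => by
      by_cases hv0 : v = 0
      · subst hv0
        have := hv.ne_zero 0
        simp at this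
      · obtain ⟨c, hc⟩ := ht v hv0
        have h1 := LinearIndependent.pair_iff.1 hv c (-1) (by
          change c • v + (-1 : k) • ((t : W ≃ₗ[k] W) v) = 0
          rw [hc]
          simp)
        simp at h1)
  have hy : ∀ y, (t : W ≃ₗ[k] W) y = a • y := fun y => by
    have := congrArg (fun f : W →ₗ[k] W => f y) ha
    simpa using this
  refine ⟨a, ?_, hy⟩
  haveI : Nontrivial W := Module.nontrivial_of_finrank_pos (R := k) (Nat.pos_of_ne_zero hd)
  obtain ⟨x, hx⟩ := exists_ne (0 : W)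
  obtain ⟨y, hxy⟩ := hnd x hx
  have h3 := sp_apply t x y
  rw [hy, hy] at h3
  simp only [map_smul, LinearMap.smul_apply, smul_eq_mul] at h3
  apply mul_right_cancel₀ hxy
  linear_combination h3

/-- The scalars in a group. -/
def scalS (T : Subgroup (SpG B)) : Subgroup T where
  carrier := {z | ∃ a : k, a * a = 1 ∧ ∀ y, (((z : T) : SpG B) : W ≃ₗ[k] W) y = a • y}
  mul_mem' := by
    rintro x y ⟨a, ha, hx⟩ ⟨b, hb, hy⟩
    refine ⟨a * b, ?_, fun v => ?_⟩
    · calc a * b * (a * b) = (a * a) * (b * b) := by ring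
        _ = 1 := by rw [ha, hb, one_mul]
    · change (((x : T) : SpG B) : W ≃ₗ[k] W) ((((y : T) : SpG B) : W ≃ₗ[k] W) v) = _
      rw [hy, map_smul, hx, smul_smul, mul_comm]
  one_mem' := ⟨1, one_mul 1, fun y => by simp⟩
  inv_mem' := by
    rintro x ⟨a, ha, hx⟩
    refine ⟨a, ha, fun v => ?_⟩
    have h1 := hx ((((x⁻¹ : T) : SpG B) : W ≃ₗ[k] W) v)
    have h2 : (((x : T) : SpG B) : W ≃ₗ[k] W) ((((x⁻¹ : T) : SpG B) : W ≃ₗ[k] W) v) = v := sp_apply_inv _ v
    change (((x⁻¹ : T) : SpG B) : W ≃ₗ[k] W) v = _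
    rw [h2] at h1
    have e1 : (((x⁻¹ : T) : SpG B) : W ≃ₗ[k] W) v = (a * a) • (((x⁻¹ : T) : SpG B) : W ≃ₗ[k] W) v := by
      rw [ha, one_smul]
    rw [e1, mul_smul, ← h1]

instance scalS_normal (T : Subgroup (SpG B)) : (scalS T).Normal := by
  constructor
  rintro n ⟨a, ha, hn⟩ g
  refine ⟨a, ha, fun y => ?_⟩
  have e : (((g * n * g⁻¹ : T) : SpG B) : W ≃ₗ[k] W) y =
      (((g : T) : SpG B) : W ≃ₗ[k] W) ((((n : T) : SpG B) : W ≃ₗ[k] W) ((((g⁻¹ : T) : SpG B) : W ≃ₗ[k] W) y)) := rfl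
  rw [e, hn, map_smul]
  congr 1
  exact sp_apply_inv _ y

omit hal hnd in
lemma odd_index_scalS {T : Subgroup (SpG B)}
    (hpm : ∀ h ∈ T, ∃ m, Odd m ∧ ∃ a : k, a * a = 1 ∧ ∀ y, ((h ^ m : SpG B) : W ≃ₗ[k] W) y = a • y) :
    Odd (scalS T).index := by
  classical
  haveI : Finite W := Module.finite_of_finite k
  haveI : Finite (W ≃ₗ[k] W) := Finite.of_injective (fun e : W ≃ₗ[k] W => (e : W → W)) DFunLike.coe_injective
  haveI : Finite (T ⧸ scalS T) := inferInstance
  rw [Subgroup.index, ← Nat.not_even_iff_odd, even_iff_two_dvd]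
  intro hdvd
  haveI : Fact (Nat.Prime 2) := ⟨Nat.prime_two⟩
  obtain ⟨x, hx⟩ := exists_prime_orderOf_dvd_card' 2 hdvd
  obtain ⟨h, rfl⟩ := QuotientGroup.mk_surjective x
  have h1 : ((h : T ⧸ scalS T)) ^ 2 = 1 := by
    rw [← hx]
    exact pow_orderOf_eq_one _
  have h2 : h ^ 2 ∈ scalS T := by
    rw [← QuotientGroup.eq_one_iff, QuotientGroup.mk_pow]
    exact h1
  obtain ⟨m, hm, a, ha, hm1⟩ := hpm h h.2
  have h3 : h ^ m ∈ scalS T := ⟨a, ha, fun y => by
    have : (((h ^ m : T) : SpG B) : W ≃ₗ[k] W) y = ((((h : T) : SpG B) ^ m : SpG B) : W ≃ₗ[k] W) y := by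
      rw [Subgroup.coe_pow]
    rw [this, hm1]⟩
  obtain ⟨l, hl⟩ := hm
  have h4 : h ∈ scalS T := by
    have e : h = (h ^ 2) ^ (l + 1) * (h ^ m)⁻¹ := by
      rw [hl, ← pow_mul, eq_mul_inv_iff_mul_eq, ← pow_succ']
      congr 1
    rw [e]
    exact mul_mem (pow_mem h2 _) (inv_mem h3)
  have h5 : (h : T ⧸ scalS T) = 1 := (QuotientGroup.eq_one_iff h).2 h4
  rw [h5, orderOf_one] at hx
  exact absurd hx (by decide)

/-- The main theorem: a group of symplectic isometries, odd-order modulo scalars, normalised by the transvections, consists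
of scalars. -/
theorem main_scalar_sp (h2 : (2 : k) ≠ 0) (hd : Even (finrank k W)) (hd0 : finrank k W ≠ 0) (T : Subgroup (SpG B))
    (hpm : ∀ h ∈ T, ∃ m, Odd m ∧ ∃ a : k, a * a = 1 ∧ ∀ y, ((h ^ m : SpG B) : W ≃ₗ[k] W) y = a • y)
    (hnorm : ∀ g ∈ tvSet B, ∀ h ∈ T, g * h * g⁻¹ ∈ T) :
    ∀ h ∈ T, ∃ a : k, a * a = 1 ∧ ∀ y, (h : W ≃ₗ[k] W) y = a • y := by
  classical
  intro t ht
  apply scalar_of_fix hal hnd hd0
  by_contra hcon
  push Not at hcon
  obtain ⟨u, hu0, hne⟩ := hcon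
  have hR : RelS T u ((t : W ≃ₗ[k] W) u) := ⟨t, ht, 1, one_ne_zero, by simp⟩
  obtain ⟨a, b, ha0, hab, hRab⟩ : ∃ a b, a ≠ 0 ∧ B a b ≠ 0 ∧ RelS T a b := by
    by_cases hp : B u ((t : W ≃ₗ[k] W) u) = 0
    · exact hyp_of_perp hal hnd hnorm hu0 hne hp hR
    · exact ⟨_, _, hu0, hp, hR⟩
  have hall : ∀ x y : W, x ≠ 0 → y ≠ 0 → RelS T x y := fun x y hx0 hy0 =>
    rel_all hal hnd hnorm ha0 hab hRab hx0 hy0
  haveI : Finite W := Module.finite_of_finite k
  haveI : Finite (ℙ k W) := (Projectivization.finite_iff_of_finite (k := k) (V := W)).2 inferInstance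
  haveI : MulAction.IsPretransitive T (ℙ k W) := by
    refine ⟨fun l l' => ?_⟩
    induction l using Projectivization.ind with
    | h x hx =>
      induction l' using Projectivization.ind with
      | h y hy =>
        obtain ⟨s, hs, c, hc, h⟩ := hall x y hx hy
        refine ⟨⟨s, hs⟩, ?_⟩
        change ((s : W ≃ₗ[k] W) • Projectivization.mk k x hx) = _
        rw [Projectivization.smul_mk, Projectivization.mk_eq_mk_iff']
        exact ⟨c, h.symm⟩
  set l₀ : ℙ k W := Projectivization.mk k u hu0 with hl₀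
  have hcard : Nat.card (ℙ k W) = (MulAction.stabilizer T l₀).index := by
    rw [MulAction.index_stabilizer, MulAction.orbit_eq_univ, Set.ncard_univ]
  have hle : scalS T ≤ MulAction.stabilizer T l₀ := by
    rintro z ⟨c, hc, hz⟩
    rw [MulAction.mem_stabilizer_iff, hl₀]
    change ((((z : T) : SpG B) : W ≃ₗ[k] W) • Projectivization.mk k u hu0) = _
    rw [Projectivization.smul_mk, Projectivization.mk_eq_mk_iff']
    exact ⟨c, (hz u).symm⟩
  have hodd : Odd (Nat.card (ℙ k W)) := by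
    rw [hcard]
    exact Odd.of_dvd_nat (odd_index_scalS hpm) (Subgroup.index_dvd_of_le hle)
  exact (Nat.not_even_iff_odd.2 hodd) (even_card_points h2 hd)

end main

end Cfsg.Agent.Lib.BalPSU
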