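import Cfsg.Agent.Lib.BalPSU.OrthInst
import Cfsg.Agent.Lib.BalPSU.SpCore

/-!
# Local balance for `PSU`: the symplectic case

The form `B` over the subfield is alternating. The theorem on odd subgroups normalised by the transvections, and a
semilinear map commuting with the rational transvections is a scalar on the rational vectors.
-/

set_option autoImplicit false
set_option linter.unusedSectionVars false
set_option linter.unusedSimpArgs false
set_option linter.unusedVariables false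
set_option linter.style.haveILetI false

namespace Cfsg.Agent.Lib.BalPSU

open Module Matrix Cfsg
open scoped MatrixGroups

variable {F₀ : Type*} [Field F₀] {n : ℕ}

/-- The bilinear form of a matrix. -/
noncomputable abbrev B2 (B : Matrix (Fin n) (Fin n) F₀) : (Fin n → F₀) →ₗ[F₀] (Fin n → F₀) →ₗ[F₀] F₀ :=
  Matrix.toLinearMap₂' F₀ B

lemma B2_apply (B : Matrix (Fin n) (Fin n) F₀) (x y : Fin n → F₀) : B2 B x y = x ⬝ᵥ (B *ᵥ y) := by
  simp [B2, Matrix.toLinearMap₂'_apply']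

lemma B2_alt {B : Matrix (Fin n) (Fin n) F₀} (h2 : (2 : F₀) ≠ 0) (hskew : Bᵀ = -B) (x : Fin n → F₀) : B2 B x x = 0 := by
  rw [B2_apply]
  have h1 : x ⬝ᵥ (B *ᵥ x) = x ⬝ᵥ (Bᵀ *ᵥ x) := by
    rw [Matrix.dotProduct_mulVec, ← Matrix.mulVec_transpose, dotProduct_comm]
  rw [hskew, Matrix.neg_mulVec, dotProduct_neg] at h1
  have h3 : 2 * (x ⬝ᵥ (B *ᵥ x)) = 0 := by linear_combination h1
  exact (mul_eq_zero.1 h3).resolve_left h2

lemma B2_nd (B : GL (Fin n) F₀) (x : Fin n → F₀) (hx : x ≠ 0) : ∃ y, B2 (B : Matrix (Fin n) (Fin n) F₀) x y ≠ 0 := by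
  by_contra hcon
  push Not at hcon
  apply hx
  apply eq_zero_of_dot B
  intro y
  rw [← B2_apply]
  exact hcon y

/-- The isometries of the form, as symplectic maps. -/
noncomputable def rhoS (B : GL (Fin n) F₀) : ratG B →* SpG (B2 (B : Matrix (Fin n) (Fin n) F₀)) where
  toFun w := ⟨Cfsg.Agent.Lib.OrthMatrix.glEquiv w.1, fun x y => by
    change B2 (B : Matrix (Fin n) (Fin n) F₀) ((w.1 : Matrix (Fin n) (Fin n) F₀) *ᵥ x) ((w.1 : Matrix (Fin n) (Fin n) F₀) *ᵥ y) = _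
    rw [B2_apply, B2_apply, dot_iso, w.2.1]⟩
  map_one' := by
    apply Subtype.ext
    exact map_one _
  map_mul' a b := by
    apply Subtype.ext
    exact map_mul _ _ _

lemma rhoS_apply (B : GL (Fin n) F₀) (w : ratG B) (x : Fin n → F₀) :
    ((rhoS B w : SpG (B2 (B : Matrix (Fin n) (Fin n) F₀))) : (Fin n → F₀) ≃ₗ[F₀] (Fin n → F₀)) x = (w.1 : Matrix (Fin n) (Fin n) F₀) *ᵥ x := rfl

lemma rhoS_inj (B : GL (Fin n) F₀) : Function.Injective (rhoS B) := by
  intro a b h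
  apply Subtype.ext
  apply Units.ext
  apply Matrix.mulVec_injective
  funext x
  rw [← rhoS_apply, ← rhoS_apply, h]

/-- The matrices of the transvections. -/
def sgT (B : GL (Fin n) F₀) : Set (ratG B) := {w | rhoS B w ∈ tvSet (B2 (B : Matrix (Fin n) (Fin n) F₀))}

section tv

variable [Fintype F₀] {B : GL (Fin n) F₀}

lemma tv_pow (hal : ∀ x, B2 (B : Matrix (Fin n) (Fin n) F₀) x x = 0) (g : SpG (B2 (B : Matrix (Fin n) (Fin n) F₀))) {c : F₀} {y : Fin n → F₀}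
    (h : ∀ x, (g : (Fin n → F₀) ≃ₗ[F₀] (Fin n → F₀)) x = x + (c * B2 (B : Matrix (Fin n) (Fin n) F₀) x y) • y) (j : ℕ) (x : Fin n → F₀) :
    ((g ^ j : SpG (B2 (B : Matrix (Fin n) (Fin n) F₀))) : (Fin n → F₀) ≃ₗ[F₀] (Fin n → F₀)) x =
      x + ((j : F₀) * c * B2 (B : Matrix (Fin n) (Fin n) F₀) x y) • y := by
  induction j generalizing x with
  | zero => simp
  | succ j ih =>
    rw [pow_succ, sp_mul_apply, ih, h]
    simp only [map_add, map_smul, LinearMap.add_apply, LinearMap.smul_apply, smul_eq_mul, hal, mul_zero, add_zero, Nat.cast_succ]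
    module

lemma tv_pow_eq_one {r : ℕ} [hr : Fact r.Prime] [CharP F₀ r] (hal : ∀ x, B2 (B : Matrix (Fin n) (Fin n) F₀) x x = 0) (g : SpG (B2 (B : Matrix (Fin n) (Fin n) F₀)))
    (hg : g ∈ tvSet (B2 (B : Matrix (Fin n) (Fin n) F₀))) : g ^ r = 1 := by
  obtain ⟨c, y, h⟩ := hg
  apply Subtype.ext
  ext x
  rw [tv_pow hal g h r x]
  simp [CharP.cast_eq_zero]

/-- Each transvection is the image of an element of `sgT`. -/
lemma exists_sgT {r : ℕ} [hr : Fact r.Prime] [CharP F₀ r] (hal : ∀ x, B2 (B : Matrix (Fin n) (Fin n) F₀) x x = 0) (g : SpG (B2 (B : Matrix (Fin n) (Fin n) F₀)))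
    (hg : g ∈ tvSet (B2 (B : Matrix (Fin n) (Fin n) F₀))) : ∃ w : ratG B, w ∈ sgT B ∧ rhoS B w = g := by
  set W := Cfsg.Agent.Lib.OrthMatrix.glEquiv.symm (g : (Fin n → F₀) ≃ₗ[F₀] (Fin n → F₀)) with hW
  have hWv : ∀ x, (W : Matrix (Fin n) (Fin n) F₀) *ᵥ x = (g : (Fin n → F₀) ≃ₗ[F₀] (Fin n → F₀)) x := fun x =>
    Cfsg.Agent.Lib.OrthMatrix.mulVec_glEquiv_symm _ x
  have hgr : g ^ r = 1 := tv_pow_eq_one hal g hg
  have hWr : W ^ r = 1 := by
    rw [hW, ← map_pow]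
    have : ((g : (Fin n → F₀) ≃ₗ[F₀] (Fin n → F₀))) ^ r = 1 := by
      have := congrArg Subtype.val hgr
      simpa using this
    rw [this, map_one]
  have hmem : W ∈ ratG B := by
    refine ⟨?_, det_eq_one_of_pow (r := r) W hWr⟩
    have h1 : ∀ x y, x ⬝ᵥ (((W : Matrix (Fin n) (Fin n) F₀)ᵀ * (B : Matrix (Fin n) (Fin n) F₀) * (W : Matrix (Fin n) (Fin n) F₀)) *ᵥ y) = x ⬝ᵥ ((B : Matrix (Fin n) (Fin n) F₀) *ᵥ y) := by
      intro x y
      rw [← dot_iso, hWv, hWv, ← B2_apply, ← B2_apply]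
      exact sp_apply g x y
    ext i j
    have := h1 (Pi.single i 1) (Pi.single j 1)
    simpa using this
  have hrho : rhoS B ⟨W, hmem⟩ = g := by
    apply Subtype.ext
    exact MulEquiv.apply_symm_apply _ _
  refine ⟨⟨W, hmem⟩, ?_, hrho⟩
  change rhoS B ⟨W, hmem⟩ ∈ tvSet _
  rw [hrho]
  exact hg

/-- The theorem on odd subgroups, for matrices. -/
theorem symp_core {r : ℕ} [hr : Fact r.Prime] [CharP F₀ r] (h2 : (2 : F₀) ≠ 0) (hskew : (B : Matrix (Fin n) (Fin n) F₀)ᵀ = -(B : Matrix (Fin n) (Fin n) F₀)) (hn : 1 ≤ n)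
    (T : Subgroup (ratG B))
    (hpm : ∀ h ∈ T, ∃ m, Odd m ∧ ∃ a : F₀, a * a = 1 ∧ ((h ^ m : ratG B).1 : Matrix (Fin n) (Fin n) F₀) = a • 1)
    (hnorm : ∀ s ∈ sgT B, ∀ h ∈ T, s * h * s⁻¹ ∈ T) : ∀ h ∈ T, ∃ a : F₀, (h.1 : Matrix (Fin n) (Fin n) F₀) = a • 1 := by
  have hal := B2_alt h2 hskew
  have hnd := B2_nd B
  have hfin : finrank F₀ (Fin n → F₀) = n := by simp
  have hev : Even n := by
    have h1 := congrArg Matrix.det hskew
    rw [Matrix.det_transpose, Matrix.det_neg, Fintype.card_fin] at h1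
    have h3 : (B : Matrix (Fin n) (Fin n) F₀).det ≠ 0 := (Matrix.GeneralLinearGroup.det B).ne_zero
    have h4 : (-1 : F₀) ^ n = 1 := by
      apply mul_right_cancel₀ h3
      rw [one_mul]
      exact h1.symm
    by_contra hodd
    rw [Nat.not_even_iff_odd] at hodd
    rw [hodd.neg_one_pow] at h4
    apply h2
    linear_combination -h4
  have hpm' : ∀ h ∈ T.map (rhoS B), ∃ m, Odd m ∧ ∃ a : F₀, a * a = 1 ∧
      ∀ y, ((h ^ m : SpG (B2 (B : Matrix (Fin n) (Fin n) F₀))) : (Fin n → F₀) ≃ₗ[F₀] (Fin n → F₀)) y = a • y := by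
    rintro _ ⟨h, hh, rfl⟩
    obtain ⟨m, hm, a, ha, hma⟩ := hpm h hh
    refine ⟨m, hm, a, ha, fun y => ?_⟩
    rw [← map_pow, rhoS_apply, hma, Matrix.smul_mulVec, Matrix.one_mulVec]
  have hnorm' : ∀ σ ∈ tvSet (B2 (B : Matrix (Fin n) (Fin n) F₀)), ∀ h ∈ T.map (rhoS B), σ * h * σ⁻¹ ∈ T.map (rhoS B) := by
    rintro σ hσ _ ⟨h, hh, rfl⟩
    obtain ⟨w, hw, rfl⟩ := exists_sgT (r := r) hal σ hσ
    exact ⟨w * h * w⁻¹, hnorm w hw h hh, by simp only [map_mul, map_inv]⟩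
  have key := main_scalar_sp hal hnd h2 (by rw [hfin]; exact hev) (by rw [hfin]; omega) _ hpm' hnorm'
  intro h hh
  obtain ⟨a, -, ha⟩ := key (rhoS B h) ⟨h, hh, rfl⟩
  refine ⟨a, ?_⟩
  apply Matrix.mulVec_injective
  funext y
  rw [← rhoS_apply, ha, Matrix.smul_mulVec, Matrix.one_mulVec]

/-- Elements of `sgT` are unipotent. -/
lemma sgT_pow {r : ℕ} [hr : Fact r.Prime] [CharP F₀ r] (h2 : (2 : F₀) ≠ 0) (hskew : (B : Matrix (Fin n) (Fin n) F₀)ᵀ = -(B : Matrix (Fin n) (Fin n) F₀)) {w : ratG B} (hw : w ∈ sgT B) :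
    w ^ r ^ 1 = 1 := by
  apply rhoS_inj B
  rw [map_pow, map_one, pow_one]
  exact tv_pow_eq_one (B2_alt h2 hskew) _ hw

end tv

/-! ### Semilinear maps commuting with the rational transvections -/

section claim

open Cfsg.Agent.Lib.AutPSU.GB

variable {F : Type*} [Field F] [Fintype F] [Fintype F₀] {ι : F₀ →+* F} {B : GL (Fin n) F₀}

/-- The bilinear form over the big field. -/
def pa (ι : F₀ →+* F) (B : Matrix (Fin n) (Fin n) F₀) (a b : Fin n → F) : F := a ⬝ᵥ ((B.map ι) *ᵥ b)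

lemma pa_add_left (B : Matrix (Fin n) (Fin n) F₀) (a a' b : Fin n → F) : pa ι B (a + a') b = pa ι B a b + pa ι B a' b := by
  simp only [pa, add_dotProduct]

lemma pa_add_right (B : Matrix (Fin n) (Fin n) F₀) (a b b' : Fin n → F) : pa ι B a (b + b') = pa ι B a b + pa ι B a b' := by
  simp only [pa, mulVec_add, dotProduct_add]

lemma pa_smul_left (B : Matrix (Fin n) (Fin n) F₀) (c : F) (a b : Fin n → F) : pa ι B (c • a) b = c * pa ι B a b := by
  simp only [pa, smul_dotProduct, smul_eq_mul]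

lemma pa_smul_right (B : Matrix (Fin n) (Fin n) F₀) (c : F) (a b : Fin n → F) : pa ι B a (c • b) = c * pa ι B a b := by
  simp only [pa, mulVec_smul, dotProduct_smul, smul_eq_mul]

lemma pa_sub_left (B : Matrix (Fin n) (Fin n) F₀) (a a' b : Fin n → F) : pa ι B (a - a') b = pa ι B a b - pa ι B a' b := by
  simp only [pa, sub_dotProduct]

lemma pa_lv (B : Matrix (Fin n) (Fin n) F₀) (x y : Fin n → F₀) :
    pa ι B (lv ι x) (lv ι y) = ι (B2 B x y) := by
  rw [pa, mulVec_lv, dot_lv, B2_apply]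

lemma pa_iso (w : ratG B) (a b : Fin n → F) :
    pa ι (B : Matrix (Fin n) (Fin n) F₀) (((w.1 : Matrix (Fin n) (Fin n) F₀).map ι) *ᵥ a) (((w.1 : Matrix (Fin n) (Fin n) F₀).map ι) *ᵥ b) =
      pa ι (B : Matrix (Fin n) (Fin n) F₀) a b := by
  rw [pa, pa, dot_iso, ← Matrix.transpose_map, ← Matrix.map_mul, ← Matrix.map_mul, w.2.1]

lemma pa_nondeg {a : Fin n → F} (h : ∀ z, pa ι (B : Matrix (Fin n) (Fin n) F₀) a (lv ι z) = 0) : a = 0 := by
  apply eq_zero_of_dot (Matrix.GeneralLinearGroup.map ι B)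
  intro y
  have h1 : ∀ j, a ⬝ᵥ (((B : Matrix (Fin n) (Fin n) F₀).map ι) *ᵥ (Pi.single j 1)) = 0 := by
    intro j
    have h3 := h (Pi.single j 1)
    have h4 : lv ι (Pi.single j (1 : F₀)) = (Pi.single j 1 : Fin n → F) := by
      ext k
      by_cases hk : k = j
      · subst hk
        simp [lv]
      · simp [lv, hk]
    rw [h4] at h3
    exact h3
  have h3 : a ᵥ* ((B : Matrix (Fin n) (Fin n) F₀).map ι) = 0 := by
    ext j
    have := h1 j
    rw [Matrix.dotProduct_mulVec] at this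
    simpa using this
  change a ⬝ᵥ (((B : Matrix (Fin n) (Fin n) F₀).map ι) *ᵥ y) = 0
  rw [Matrix.dotProduct_mulVec, h3, zero_dotProduct]

variable {S : (Fin n → F) → (Fin n → F)} {σ' : F ≃+* F}

/-- The main part. -/
theorem symp_claim {r : ℕ} [hr : Fact r.Prime] [CharP F₀ r] (h2 : (2 : F₀) ≠ 0) (hskew : (B : Matrix (Fin n) (Fin n) F₀)ᵀ = -(B : Matrix (Fin n) (Fin n) F₀)) (hn : 1 ≤ n)
    (hadd : ∀ x y, S (x + y) = S x + S y) (hsmul : ∀ (c : F) x, S (c • x) = σ' c • S x) (hinj : Function.Injective S)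
    (hcomm : ∀ w ∈ sgT B, ∀ v, ((w.1 : Matrix (Fin n) (Fin n) F₀).map ι) *ᵥ S v = S (((w.1 : Matrix (Fin n) (Fin n) F₀).map ι) *ᵥ v)) :
    ∃ lam : F, lam ≠ 0 ∧ (∀ x, S (lv ι x) = lam • lv ι x) ∧ ∀ b, σ' (ι b) = ι b := by
  classical
  set M : Matrix (Fin n) (Fin n) F₀ := (B : Matrix (Fin n) (Fin n) F₀) with hM
  set Bf := B2 M with hBf
  have hal : ∀ x, Bf x x = 0 := B2_alt h2 hskew
  have hnd : ∀ x, x ≠ 0 → ∃ y, Bf x y ≠ 0 := B2_nd B
  have hS0 : S 0 = 0 := by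
    have := hadd 0 0
    rw [add_zero] at this
    exact left_eq_add.1 this
  have hpa : ∀ x y, pa ι M (lv ι x) (lv ι y) = ι (Bf x y) := fun x y => pa_lv M x y
  -- step A
  have stepA : ∀ y u, Bf y u = 0 → pa ι M (S (lv ι y)) (lv ι u) = 0 := by
    intro y u hyu
    by_cases hu0 : u = 0
    · subst hu0
      rw [lv_zero]
      simp [pa]
    obtain ⟨w, hw, hwρ⟩ := exists_sgT (r := r) hal (tv hal 1 u) (tv_mem hal 1 u)
    have hwv : ∀ x, (w.1 : Matrix (Fin n) (Fin n) F₀) *ᵥ x = x + (1 * Bf x u) • u := by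
      intro x
      rw [← rhoS_apply, hwρ]
      rfl
    set A := S (lv ι y) with hA
    have hfix : ((w.1 : Matrix (Fin n) (Fin n) F₀).map ι) *ᵥ A = A := by
      rw [hA, hcomm w hw, mulVec_lv, hwv, hyu]
      simp
    obtain ⟨z, hz⟩ : ∃ z, Bf z u ≠ 0 := by
      obtain ⟨z, hz⟩ := hnd u hu0
      refine ⟨z, ?_⟩
      rw [skew hal]
      exact neg_ne_zero.2 hz
    have h1 := pa_iso (ι := ι) w A (lv ι z)
    rw [hfix, mulVec_lv, hwv, lv_add, lv_smul, pa_add_right, pa_smul_right] at h1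
    have h3 : ι (1 * Bf z u) * pa ι M A (lv ι u) = 0 := by linear_combination h1
    rw [one_mul] at h3
    exact (mul_eq_zero.1 h3).resolve_left ((map_ne_zero ι).2 hz)
  -- step B
  have stepB : ∀ y, ∃ μ : F, S (lv ι y) = μ • lv ι y := by
    intro y
    by_cases hy0 : y = 0
    · subst hy0
      refine ⟨0, ?_⟩
      rw [lv_zero, hS0, zero_smul]
    obtain ⟨v₀, hv₀⟩ := hnd y hy0
    obtain ⟨v, hv⟩ : ∃ v, Bf y v = 1 := ⟨(Bf y v₀)⁻¹ • v₀, by rw [map_smul, smul_eq_mul, inv_mul_cancel₀ hv₀]⟩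
    set A := S (lv ι y) with hA
    refine ⟨pa ι M A (lv ι v), ?_⟩
    rw [← sub_eq_zero]
    apply pa_nondeg (B := B)
    intro z
    rw [pa_sub_left, pa_smul_left, hpa]
    set z' := z - Bf y z • v with hz'
    have hz'e : Bf y z' = 0 := by
      rw [hz', map_sub, map_smul, hv, smul_eq_mul]
      ring
    have h1 := stepA y z' hz'e
    have hzd : z = z' + Bf y z • v := by rw [hz']; abel
    have h3 : pa ι M A (lv ι z) = ι (Bf y z) * pa ι M A (lv ι v) := by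
      conv_lhs => rw [hzd, lv_add, lv_smul, pa_add_right, pa_smul_right, h1, zero_add]
    rw [h3]
    ring
  choose μ hμ using stepB
  have hμ0 : ∀ y, y ≠ 0 → μ y ≠ 0 := by
    intro y hy h0
    have h1 := hμ y
    rw [h0, zero_smul] at h1
    apply hy
    apply lv_eq_zero (ι := ι)
    apply hinj
    rw [h1, hS0]
  -- constancy
  have hpair : ∀ y y', Bf y y' ≠ 0 → μ y = μ y' := by
    intro y y' hyy'
    have h1 := hμ (y + y')
    rw [lv_add, hadd, hμ, hμ] at h1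
    have h3 : Bf y' y ≠ 0 := by
      rw [skew hal]
      exact neg_ne_zero.2 hyy'
    have P1 := congrArg (fun v => pa ι M v (lv ι y')) h1
    have P2 := congrArg (fun v => pa ι M v (lv ι y)) h1
    simp only [pa_add_left, pa_smul_left, hpa, smul_add, hal, map_zero, mul_zero, add_zero, zero_add] at P1 P2
    have hι1 : ι (Bf y y') ≠ 0 := (map_ne_zero ι).2 hyy'
    have hι2 : ι (Bf y' y) ≠ 0 := (map_ne_zero ι).2 h3
    have h4 := mul_right_cancel₀ hι1 P1
    have h5 := mul_right_cancel₀ hι2 P2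
    rw [h4, h5]
  have hconst : ∀ y y', y ≠ 0 → y' ≠ 0 → μ y = μ y' := by
    intro y y' hy hy'
    obtain ⟨z, hz, hz'⟩ := exists_not_perp_two hal hnd hy hy'
    rw [hpair y z hz, hpair y' z hz']
  -- a base point
  let i₀ : Fin n := ⟨0, hn⟩
  set e : Fin n → F₀ := Pi.single i₀ 1 with he
  have he0 : e ≠ 0 := by
    intro h0
    have := congrFun h0 i₀
    simp [he] at this
  refine ⟨μ e, hμ0 e he0, ?_, ?_⟩
  · intro x
    by_cases hx : x = 0
    · subst hx
      rw [lv_zero, hS0, smul_zero]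
    · rw [hμ, hconst x e hx he0]
  · intro b
    have hE0 : lv ι e ≠ 0 := fun h0 => he0 (lv_eq_zero h0)
    by_cases hb : b = 0
    · rw [hb, map_zero, map_zero]
    have h1 := hμ (b • e)
    rw [hconst (b • e) e (smul_ne_zero hb he0) he0, lv_smul, hsmul, hμ, smul_smul, smul_smul] at h1
    have h3 := smul_left_injective F hE0 h1
    apply mul_right_cancel₀ (hμ0 e he0)
    rw [h3]
    ring

end claim

end Cfsg.Agent.Lib.BalPSU
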